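import Cfsg.Agent.H112.Ext2
set_option linter.all false

/-!
# The field with four elements: the steps to dimensions five and six (helper112)
-/

set_option autoImplicit false

namespace Cfsg.Agent.H112

open Matrix Cfsg Cfsg.Agent.Phan Cfsg.Agent.H434 Cfsg.Agent.Phan.Cover
open Cfsg.Agent.LieClassical.HermBasic

variable {F : Type*} [Field F] [Fintype F]

section four

variable (hF : Fintype.card F = 2 ^ 2)
include hF

theorem two_zero : (2 : F) = 0 := by
  have h : ((Fintype.card F : ℕ) : F) = 0 := Nat.cast_card_eq_zero F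
  rw [hF] at h
  have h2 : (2 : F) * 2 = 0 := by push_cast at h; linear_combination h
  rcases mul_self_eq_zero.1 h2 with h
  exact h

theorem norm4 {x : F} (hx : x ≠ 0) : x * x ^ 2 = 1 := by
  have h := FiniteField.pow_card_sub_one_eq_one x hx
  rw [hF] at h
  norm_num at h
  rw [← h]; ring

/-- in the plane: an isotropic nonzero vector and a vector orthogonal to it -/
theorem plane4 {r0 r1 a0 a1 : F} (hr : r0 * r0 ^ 2 + r1 * r1 ^ 2 = 0) (hr0 : r0 ≠ 0) (h : a0 * r0 ^ 2 + a1 * r1 ^ 2 = 0) :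
    a0 * a0 ^ 2 + a1 * a1 ^ 2 = 0 := by
  have h1 := norm4 hF hr0
  have h2 : r1 ≠ 0 := by
    rintro rfl
    rw [h1] at hr
    simp at hr
  have h20 := two_zero hF
  by_cases ha : a0 = 0
  · subst ha
    have : a1 = 0 := by
      have h3 : a1 * r1 ^ 2 = 0 := by linear_combination h
      exact (mul_eq_zero.1 h3).resolve_right (pow_ne_zero 2 h2)
    subst this
    simp
  · have hb : a1 ≠ 0 := by
      rintro rfl
      have h3 : a0 * r0 ^ 2 = 0 := by linear_combination h
      exact (mul_ne_zero ha (pow_ne_zero 2 hr0)) h3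
    rw [norm4 hF ha, norm4 hF hb]
    linear_combination h20

/-- exactly one of two coordinates is nonzero -/
theorem one_of_two {a b : F} (h : a * a ^ 2 + b * b ^ 2 = 1) : a = 0 ∨ b = 0 := by
  by_contra hc
  push Not at hc
  rw [norm4 hF hc.1, norm4 hF hc.2] at h
  have := two_zero hF
  have h3 : (1 : F) = 0 := by linear_combination -h + this
  exact one_ne_zero h3

/-- the normal form -/
theorem exists_nf {m : ℕ} (hm : 4 ≤ m) (u : Pt m F 2) (r : Fin m → F) (hr0 : r ≠ 0)
    (hr : hermForm m F 2 r r = 0) (hur : hermForm m F 2 u.val r = 0) :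
    ∃ g : SU m F 2, mat g *ᵥ Pi.single ⟨2, by omega⟩ 1 = u.val ∧
      mat g *ᵥ (Pi.single ⟨0, by omega⟩ 1 + Pi.single ⟨1, by omega⟩ 1) = r := by
  obtain ⟨m, rfl⟩ : ∃ m', m = m' + 2 := ⟨m - 2, by omega⟩
  obtain ⟨g1, hg1⟩ := exists_su_smul hF (e0 (m + 1) F 2) u
  have hru : hermForm (m + 2) F 2 r u.val = 0 := herm_eq_zero_swap hF hur
  set r1 := tl (mat g1⁻¹ *ᵥ r) with hr1
  have h1 : hermForm (m + 1) F 2 r1 r1 = 0 := by
    rw [hr1, herm_tl hF, hg1, hr, hur, mul_zero, sub_zero]
  have h2 : (mat g1⁻¹ *ᵥ r) 0 = 0 := by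
    rw [← herm_e0_right hF (mat g1⁻¹ *ᵥ r), ← mat_isom g1, Matrix.mulVec_mulVec, mat_mul_inv, Matrix.one_mulVec, ← smul_val, hg1, hru]
  have h3 : r1 ≠ 0 := by
    intro h
    apply hr0
    have h4 : mat g1⁻¹ *ᵥ r = 0 := by
      rw [← cons_tl (mat g1⁻¹ *ᵥ r), ← hr1, h, h2]
      funext i
      refine Fin.cases ?_ (fun i => ?_) i
      · rfl
      · rfl
    have h5 : mat g1 *ᵥ (mat g1⁻¹ *ᵥ r) = r := by rw [Matrix.mulVec_mulVec, mat_mul_inv, Matrix.one_mulVec]
    rw [← h5, h4, Matrix.mulVec_zero]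
  obtain ⟨y1, hy1⟩ := exists_unit_of_isotropic hF h1 h3 (one_ne_zero (α := F))
  set y := lift0 hF g1 y1 with hy
  have hyr : hermForm (m + 2) F 2 y.val r = 1 := by rw [hy, herm_lift0, ← hr1, hy1]
  have hyu : orth y u := by rw [hy, ← hg1]; exact herm_lift0_base hF _ _
  have hyu' : hermForm (m + 2) F 2 y.val u.val = 0 := hyu
  have hry : hermForm (m + 2) F 2 r y.val = 1 := by rw [herm_swap hF, hyr, one_pow]
  have h20 := two_zero hF
  let z : Pt (m + 2) F 2 := ⟨r - y.val, by
    rw [herm_sub_left, herm_sub_right hF, herm_sub_right hF, hr, hry, hyr, y.norm]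
    linear_combination -h20⟩
  have hzy : orth z y := by
    change hermForm (m + 2) F 2 (r - y.val) y.val = 0
    rw [herm_sub_left, hry, y.norm, sub_self]
  have hzu : orth z u := by
    change hermForm (m + 2) F 2 (r - y.val) u.val = 0
    rw [herm_sub_left, hru, hyu', sub_zero]
  obtain ⟨g, hg⟩ := exists_frames hF 3 (m + 2) (by omega) ![y, z, u] (by
    intro i j hij
    fin_cases i <;> fin_cases j
    · exact absurd rfl hij
    · exact orth_symm hF hzy
    · exact hyu
    · exact hzy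
    · exact absurd rfl hij
    · exact hzu
    · exact orth_symm hF hyu
    · exact orth_symm hF hzu
    · exact absurd rfl hij)
  refine ⟨g, hg 2, ?_⟩
  rw [Matrix.mulVec_add]
  have e0' : mat g *ᵥ Pi.single (⟨0, by omega⟩ : Fin (m + 2)) 1 = y.val := hg 0
  have e1' : mat g *ᵥ Pi.single (⟨1, by omega⟩ : Fin (m + 2)) 1 = z.val := hg 1
  rw [e0', e1']
  change y.val + (r - y.val) = r
  abel

end four

end Cfsg.Agent.H112
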