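import Cfsg.Agent.H112.GlueRel
import Cfsg.Agent.H112.Geo2
import Cfsg.Agent.S0278
set_option linter.all false

/-!
# Generation of `SU n (2)` (helper112)
-/

set_option autoImplicit false

namespace Cfsg.Agent.H112

open Matrix Cfsg Cfsg.Agent.Phan Cfsg.Agent.H434
open Cfsg.Agent.LieClassical.HermBasic
open Equiv (Perm swap)

/-- a subgroup and few elements generate -/
theorem exists_extra {G : Type*} [Group G] [Finite G] (r : ℕ) : ∀ (K : Subgroup G),
    ArithmeticFunction.cardFactors K.index ≤ r →
    ∃ x : Fin r → G, Subgroup.closure ((K : Set G) ∪ Set.range x) = ⊤ := by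
  induction r with
  | zero =>
    intro K hK
    have h1 : K.index ≠ 0 := Subgroup.index_ne_zero_of_finite
    have h2 : K.index = 1 := by
      have h3 := (ArithmeticFunction.cardFactors_eq_zero_iff_eq_zero_or_one).1 (Nat.le_zero.1 hK)
      exact h3.resolve_left h1
    refine ⟨fun i => i.elim0, ?_⟩
    rw [Subgroup.index_eq_one] at h2
    rw [h2, eq_top_iff]
    intro g _
    exact Subgroup.subset_closure (Or.inl trivial)
  | succ r ih =>
    intro K hK
    by_cases hT : K = ⊤
    · refine ⟨fun _ => 1, ?_⟩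
      rw [hT, eq_top_iff]
      intro g _
      exact Subgroup.subset_closure (Or.inl trivial)
    obtain ⟨g, hg⟩ : ∃ g, g ∉ K := by
      by_contra hc
      push Not at hc
      exact hT (eq_top_iff.2 fun x _ => hc x)
    set K' := K ⊔ Subgroup.zpowers g with hK'
    have hle : K ≤ K' := le_sup_left
    have hlt : K < K' := lt_of_le_of_ne hle (fun h => hg (by
      rw [h]; exact (le_sup_right : Subgroup.zpowers g ≤ K') (Subgroup.mem_zpowers g)))
    have h1 : K.relIndex K' * K'.index = K.index := Subgroup.relIndex_mul_index hle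
    have h2 : K.relIndex K' ≠ 1 := fun h => not_le_of_gt hlt (Subgroup.relIndex_eq_one.1 h)
    have h3 : K.index ≠ 0 := Subgroup.index_ne_zero_of_finite
    have h4 : K.relIndex K' ≠ 0 := fun h => h3 (by rw [← h1, h, zero_mul])
    have h5 : K'.index ≠ 0 := Subgroup.index_ne_zero_of_finite
    have h6 := ArithmeticFunction.cardFactors_mul h4 h5
    rw [h1] at h6
    have h7 : ArithmeticFunction.cardFactors (K.relIndex K') ≠ 0 := by
      rw [Ne, ArithmeticFunction.cardFactors_eq_zero_iff_eq_zero_or_one]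
      rintro (h | h)
      · exact h4 h
      · exact h2 h
    obtain ⟨x, hx⟩ := ih K' (by omega)
    refine ⟨Fin.cons g x, ?_⟩
    rw [eq_top_iff, ← hx, Subgroup.closure_le]
    rintro y (hy | ⟨i, rfl⟩)
    · have : K' ≤ Subgroup.closure ((K : Set G) ∪ Set.range (Fin.cons g x : Fin (r + 1) → G)) := by
        refine sup_le (fun z hz => Subgroup.subset_closure (Or.inl hz)) ?_
        rw [Subgroup.zpowers_le]
        exact Subgroup.subset_closure (Or.inr ⟨0, rfl⟩)
      exact this hy
    · exact Subgroup.subset_closure (Or.inr ⟨i.succ, rfl⟩)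

theorem cf_prime_mul {p m : ℕ} (hp : p.Prime) (hm : m ≠ 0) :
    ArithmeticFunction.cardFactors (p * m) = 1 + ArithmeticFunction.cardFactors m := by
  rw [ArithmeticFunction.cardFactors_mul hp.ne_zero hm, ArithmeticFunction.cardFactors_apply_prime hp]

theorem cf_36 : ArithmeticFunction.cardFactors 36 = 4 := by
  rw [show (36 : ℕ) = 2 * (2 * (3 * 3)) by norm_num, cf_prime_mul Nat.prime_two (by norm_num),
    cf_prime_mul Nat.prime_two (by norm_num), cf_prime_mul Nat.prime_three (by norm_num),
    ArithmeticFunction.cardFactors_apply_prime Nat.prime_three]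

variable {F : Type*} [Field F] [Fintype F]

theorem pm2_injective {n : ℕ} (h2 : (2 : F) = 0) : Function.Injective (pm2 2 n h2) := by
  intro σ τ h
  have h1 := congrArg mat h
  rw [mat_pm2, mat_pm2] at h1
  ext i
  have h3 := congrArg (fun A : Matrix (Fin n) (Fin n) F => A (σ i) i) h1
  simp only [inc_apply] at h3
  rw [if_pos trivial] at h3
  by_contra hne
  rw [if_neg (fun h => hne (congrArg Fin.val h))] at h3
  exact one_ne_zero h3

variable (hF : Fintype.card F = 2 ^ 2)
include hF

theorem card_SU3 : Nat.card (SU 3 F 2) = 216 := by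
  have h := Cfsg.Agent.S0278.result (F := F) (q := 2) hF 3 (by norm_num)
  norm_num [Finset.prod_range_succ, Nat.even_iff] at h
  omega

theorem card_SU2 : Nat.card (SU 2 F 2) = 6 := by
  have h := Cfsg.Agent.S0278.result (F := F) (q := 2) hF 2 (by norm_num)
  norm_num [Finset.prod_range_succ, Nat.even_iff] at h
  omega

theorem extra_three : ∃ x : Fin 4 → SU 3 F 2,
    Subgroup.closure (Set.range (pm2 2 3 (two_zero hF)) ∪ Set.range x) = ⊤ := by
  have hfin : Finite (SU 3 F 2) := Nat.finite_of_card_ne_zero (by rw [card_SU3 hF]; norm_num)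
  have h1 := Subgroup.card_mul_index (pm2 2 3 (two_zero hF)).range
  have h2 : Nat.card (pm2 2 3 (two_zero hF)).range = 6 := by
    rw [← Nat.card_congr (MonoidHom.ofInjective (pm2_injective (two_zero hF))).toEquiv, Nat.card_perm, Nat.card_fin]
    rfl
  rw [h2, card_SU3 hF] at h1
  have h3 : (pm2 2 3 (two_zero hF)).range.index = 36 := by omega
  obtain ⟨x, hx⟩ := exists_extra 4 (pm2 2 3 (two_zero hF)).range (by rw [h3, cf_36])
  exact ⟨x, by rw [← hx, MonoidHom.coe_range]⟩

theorem extra_two : ∃ x : Fin 1 → SU 2 F 2,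
    Subgroup.closure (Set.range (pm2 2 2 (two_zero hF)) ∪ Set.range x) = ⊤ := by
  have hfin : Finite (SU 2 F 2) := Nat.finite_of_card_ne_zero (by rw [card_SU2 hF]; norm_num)
  have h1 := Subgroup.card_mul_index (pm2 2 2 (two_zero hF)).range
  have h2 : Nat.card (pm2 2 2 (two_zero hF)).range = 2 := by
    rw [← Nat.card_congr (MonoidHom.ofInjective (pm2_injective (two_zero hF))).toEquiv, Nat.card_perm, Nat.card_fin]
    rfl
  rw [h2, card_SU2 hF] at h1
  have h3 : (pm2 2 2 (two_zero hF)).range.index = 3 := by omega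
  obtain ⟨x, hx⟩ := exists_extra 1 (pm2 2 2 (two_zero hF)).range (by
    rw [h3, ArithmeticFunction.cardFactors_apply_prime Nat.prime_three])
  exact ⟨x, by rw [← hx, MonoidHom.coe_range]⟩

/-- `SU k (2)` is generated by the permutation matrices and `SU 3` -/
theorem gen_two (k : ℕ) (M : Subgroup (SU (k + 3) F 2)) (h1 : ∀ σ, pm2 2 (k + 3) (two_zero hF) σ ∈ M)
    (h2 : ∀ x : SU 3 F 2, emb hF 0 (by omega) x ∈ M) : M = ⊤ := by
  induction k with
  | zero =>
    rw [eq_top_iff]
    intro x _
    have e : emb hF 0 (by omega : 0 + 3 ≤ 0 + 3) x = x := by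
      rw [emb]
      have h3 := ext_id hF x
      conv_rhs => rw [← h3]
      apply ext_congr
      funext i
      apply Fin.ext
      simp [sh_val]
    rw [← e]
    exact h2 x
  | succ k ih =>
    rw [eq_top_iff, ← closure_eq_top_orth hF k, Subgroup.closure_le]
    rintro _ (⟨x, rfl⟩ | ⟨x, rfl⟩)
    · have h3 := ih (M.comap (emb hF 1 (by omega : 1 + (k + 3) ≤ k + 4))) ?_ ?_
      · have h4 : x ∈ M.comap (emb hF 1 (by omega : 1 + (k + 3) ≤ k + 4)) := by rw [h3]; trivial
        exact h4
      · intro σ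
        rw [Subgroup.mem_comap]
        have h5 : emb hF 1 (by omega : 1 + (k + 3) ≤ k + 4) (pm2 2 (k + 3) (two_zero hF) σ) =
            pm2 2 (k + 4) (two_zero hF) (ve (sh 1 (by omega)) (sh_injective _ _) σ) :=
          ext_pmE hF (sh 1 (by omega)) (sh_injective _ _) σ _ _ _ (by funext i; exact ve_apply _ _ _ _)
            (fun x hx => ve_notMem _ _ _ hx)
        rw [h5]; exact h1 _
      · intro x
        rw [Subgroup.mem_comap, emb_emb]
        obtain ⟨π, hπ⟩ := exists_perm_ext (sh 0 (by omega : 0 + 3 ≤ k + 4)) (sh 1 (by omega : 1 + 3 ≤ k + 4))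
          (sh_injective _ _) (sh_injective _ _)
        have h5 := pm2_ext' hF (two_zero hF) π (sh 0 (by omega : 0 + 3 ≤ k + 4)) (sh_injective _ _) x
        have h6 : ext hF (π ∘ (sh 0 (by omega : 0 + 3 ≤ k + 4))) (π.injective.comp (sh_injective _ _)) x =
            emb hF 1 (by omega : 1 + 3 ≤ k + 4) x := ext_congr hF _ _ hπ x
        rw [h6] at h5
        have h7 : emb hF (1 + 0) (by omega : 1 + 0 + 3 ≤ k + 4) x = emb hF 1 (by omega : 1 + 3 ≤ k + 4) x := rfl
        rw [h7, ← h5]
        exact M.mul_mem (M.mul_mem (h1 _) (h2 x)) (M.inv_mem (h1 _))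
    · have h3 := h2 (emb hF 0 (by omega) x)
      rw [emb_emb] at h3
      exact h3

end Cfsg.Agent.H112
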