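import Cfsg.Agent.H112.Step2
set_option linter.all false

/-!
# The field with four elements: dimension six (helper112)
-/

set_option autoImplicit false

namespace Cfsg.Agent.H112

open Matrix Cfsg Cfsg.Agent.Phan Cfsg.Agent.H434 Cfsg.Agent.Phan.Cover
open Cfsg.Agent.LieClassical.HermBasic
open Cfsg.Agent.H434.Cover2

variable {F : Type*} [Field F] [Fintype F]

/-- the extra datum of the step to dimension six -/
structure RectHyp (hF : Fintype.card F = 2 ^ 2) {H : Type*} [Group H]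
    (α : SU (2 + 3) F 2 →* H) (γ : SU 3 F 2 →* H) : Prop where
  comm : ∀ b c : SU 3 F 2, γ b * α (emb hF 2 (by omega) c) = α (emb hF 2 (by omega) c) * γ b
  ex : ∃ s : SU (2 + 4) F 2 × H, (stepCtx hF 2 α γ).E s ∧
    s.1 • e0 (2 + 3) F 2 = pc (pc (pc (e0 2 F 2) hF) hF) hF ∧
    ∀ b : SU 3 F 2, s⁻¹ * (emb hF 0 (by omega) b, γ b) * s = (emb hF 3 (by omega) b, α (emb hF 2 (by omega) b))

theorem emb_one_one (hF : Fintype.card F = 2 ^ 2) (c : SU 3 F 2) :
    emb hF 2 (by omega : 2 + 3 ≤ 2 + 3) c = emb hF 1 (by omega : 1 + 4 ≤ 5) (emb hF 1 (by omega : 1 + 3 ≤ 4) c) := by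
  rw [emb_emb]

/-- **the step to dimension six** -/
theorem same_six {hF : Fintype.card F = 2 ^ 2} {H : Type*} [Group H]
    {α : SU (2 + 3) F 2 →* H} {γ : SU 3 F 2 →* H} (S : StepHyp hF 2 α γ) (R : RectHyp hF α γ) :
    ∀ w u u' : Pt (2 + 4) F 2, orth (e0 (2 + 3) F 2) u → orth u w →
      orth (e0 (2 + 3) F 2) u' → orth u' w → Same (stepCtx hF 2 α γ) w u u' := by
  refine S.same_red (by omega) ?_
  intro w x' hw hx'
  have h1 := norm_01 hF (by omega : 2 ≤ 5) x'.val (by rw [← hw]; exact hx')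
  have h2 := x'.norm
  rw [herm_def] at h2
  have h20 := two_zero hF
  -- the last three coordinates
  let yv : Fin 3 → F := fun i => x'.val ⟨2 + i, by omega⟩
  have hy : hermForm 3 F 2 yv yv = 1 := by
    rw [herm_def]
    have h4 : (∑ i : Fin 5, x'.val i * x'.val i ^ 2) = 1 := h2
    rw [Fin.sum_univ_five] at h4
    rw [Fin.sum_univ_three]
    change x'.val 2 * x'.val 2 ^ 2 + x'.val 3 * x'.val 3 ^ 2 + x'.val 4 * x'.val 4 ^ 2 = 1
    change x'.val 0 * x'.val 0 ^ 2 + x'.val 1 * x'.val 1 ^ 2 = 0 at h1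
    linear_combination h4 - h1
  let y : Pt 3 F 2 := ⟨yv, hy⟩
  have hwo : ∀ z : Pt (2 + 3) F 2, z.val ⟨0, by omega⟩ = 0 → z.val ⟨1, by omega⟩ = 0 → orth (pc z hF) w := by
    intro z hz0 hz1
    rw [orth, herm_pc, hw, herm_add_right hF, herm_single_right hF, herm_single_right hF, hz0, hz1]
    ring
  let P : Pt 3 F 2 → Pt (2 + 3) F 2 := fun z => pc (pc z hF) hF
  have hPo : ∀ z, orth (pc (P z) hF) w := fun z => hwo _ rfl rfl
  have ho' : orth (pc x' hF) w := by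
    rw [orth, herm_pc]; exact hx'
  have hP0 : eb (2 + 3) F 2 two_ne_zero ⟨2, by omega⟩ = P (e0 2 F 2) := by
    apply Pt.ext'
    funext i
    fin_cases i <;> rfl
  -- the rectangle
  have hwc : w.val 0 * w.val 0 ^ 2 = 1 := by
    have h5 := w.norm
    rw [← cons_tl w.val, herm_cons, hw, herm_add_right hF, herm_single_right hF, herm_single_right hF] at h5
    simp only [Pi.add_apply, Pi.single_eq_same] at h5
    rw [Pi.single_eq_of_ne (by simp), Pi.single_eq_of_ne (by simp)] at h5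
    linear_combination h5 - h20
  let wv : Fin 3 → F := Fin.cons (w.val 0) (fun _ => 1)
  have hwv : hermForm 3 F 2 wv wv = 1 := by
    rw [herm_cons, hwc, herm_def]
    simp only [Fin.sum_univ_two]
    linear_combination h20
  obtain ⟨b, hb⟩ := exists_su_smul hF (e0 2 F 2) (⟨wv, hwv⟩ : Pt 3 F 2)
  obtain ⟨c, hc⟩ := exists_su_smul hF (e0 2 F 2) y
  obtain ⟨s, hs1, hs2, hs3⟩ := R.ex
  have hbw : emb hF 0 (by omega : 0 + 3 ≤ 2 + 4) b • e0 (2 + 3) F 2 = w := by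
    have he : (e0 (2 + 3) F 2).val ∘ (sh 0 (by omega : 0 + 3 ≤ 2 + 4)) = (e0 2 F 2).val := by
      funext i
      fin_cases i <;> rfl
    have h6 : ∀ i : Fin 3, (mat (emb hF 0 (by omega : 0 + 3 ≤ 2 + 4) b) *ᵥ (e0 (2 + 3) F 2).val)
        (sh 0 (by omega) i) = wv i := by
      intro i
      rw [emb_mulVec_sh, he, ← smul_val, hb]
    have h7 : ∀ i : Fin (2 + 4), 3 ≤ (i : ℕ) → (mat (emb hF 0 (by omega : 0 + 3 ≤ 2 + 4) b) *ᵥ (e0 (2 + 3) F 2).val)
        i = (e0 (2 + 3) F 2).val i := by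
      intro i hi
      rw [emb_mulVec_lt]
      right; simpa using hi
    have hwt : ∀ i : Fin (2 + 3), w.val i.succ = (Pi.single ⟨0, by omega⟩ 1 + Pi.single ⟨1, by omega⟩ 1 : Fin (2 + 3) → F) i :=
      fun i => congrFun hw i
    apply Pt.ext'
    rw [smul_val]
    funext i
    fin_cases i
    · exact h6 0
    · refine (h6 1).trans ?_
      refine Eq.trans ?_ (hwt 0).symm
      rw [Pi.add_apply]
      have e1 : (Pi.single ⟨0, by omega⟩ 1 : Fin (2 + 3) → F) 0 = 1 := rfl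
      have e2 : (Pi.single ⟨1, by omega⟩ 1 : Fin (2 + 3) → F) 0 = 0 := rfl
      rw [e1, e2, add_zero]
      rfl
    · refine (h6 2).trans ?_
      refine Eq.trans ?_ (hwt 1).symm
      rw [Pi.add_apply]
      have e1 : (Pi.single ⟨0, by omega⟩ 1 : Fin (2 + 3) → F) 1 = 0 := rfl
      have e2 : (Pi.single ⟨1, by omega⟩ 1 : Fin (2 + 3) → F) 1 = 1 := rfl
      rw [e1, e2, zero_add]
      rfl
    · refine (h7 3 (by decide)).trans ?_
      refine Eq.trans ?_ (hwt 2).symm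
      rw [Pi.add_apply]
      have e1 : (Pi.single ⟨0, by omega⟩ 1 : Fin (2 + 3) → F) 2 = 0 := rfl
      have e2 : (Pi.single ⟨1, by omega⟩ 1 : Fin (2 + 3) → F) 2 = 0 := rfl
      rw [e1, e2, add_zero]
      rfl
    · refine (h7 4 (by decide)).trans ?_
      refine Eq.trans ?_ (hwt 3).symm
      rw [Pi.add_apply]
      have e1 : (Pi.single ⟨0, by omega⟩ 1 : Fin (2 + 3) → F) 3 = 0 := rfl
      have e2 : (Pi.single ⟨1, by omega⟩ 1 : Fin (2 + 3) → F) 3 = 0 := rfl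
      rw [e1, e2, add_zero]
      rfl
    · refine (h7 5 (by decide)).trans ?_
      refine Eq.trans ?_ (hwt 4).symm
      rw [Pi.add_apply]
      have e1 : (Pi.single ⟨0, by omega⟩ 1 : Fin (2 + 3) → F) 4 = 0 := rfl
      have e2 : (Pi.single ⟨1, by omega⟩ 1 : Fin (2 + 3) → F) 4 = 0 := rfl
      rw [e1, e2, add_zero]
      rfl
  have hrect : Same (stepCtx hF 2 α γ) w (pc (P (e0 2 F 2)) hF) (pc (P y) hF) := by
    have h8 := same_rect S.hyp hs1 (d1 := (emb hF 0 (by omega : 0 + 3 ≤ 2 + 4) b, γ b)) 1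
      (emb hF 2 (by omega : 2 + 3 ≤ 2 + 3) c) ?_ ?_ (emb hF 2 (by omega : 2 + 3 ≤ 2 + 3) b) ?_
    · have e1 : (emb hF 0 (by omega : 0 + 3 ≤ 2 + 4) b, γ b).1 • (stepCtx hF 2 α γ).p = w := hbw
      have e2 : ((stepCtx hF 2 α γ).kh 1 * s).1 • (stepCtx hF 2 α γ).p = pc (P (e0 2 F 2)) hF := by
        rw [Ctx.kh_one, one_mul]; exact hs2
      have e3 : ((stepCtx hF 2 α γ).kh (emb hF 2 (by omega : 2 + 3 ≤ 2 + 3) c) * s).1 • (stepCtx hF 2 α γ).p =
          pc (P y) hF := by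
        rw [Prod.fst_mul, mul_smul]
        change emb hF 1 (by omega : 1 + 5 ≤ 6) (emb hF 2 (by omega : 2 + 3 ≤ 2 + 3) c) • s.1 • e0 (2 + 3) F 2 = _
        rw [hs2, emb_one_one hF, emb_one_pc, emb_one_pc, emb_one_pc, hc]
      rw [e1, e2, e3] at h8
      exact h8
    · rw [Ctx.kh_one, one_mul, mul_one]
    · refine Prod.ext ?_ (R.comm b c)
      change emb hF 0 (by omega : 0 + 3 ≤ 2 + 4) b * emb hF 1 (by omega : 1 + 5 ≤ 6) (emb hF 2 (by omega : 2 + 3 ≤ 2 + 3) c) =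
        emb hF 1 (by omega : 1 + 5 ≤ 6) (emb hF 2 (by omega : 2 + 3 ≤ 2 + 3) c) * emb hF 0 (by omega : 0 + 3 ≤ 2 + 4) b
      rw [emb_emb, emb_comm]
      left; omega
    · rw [hs3]
      refine Prod.ext ?_ rfl
      change emb hF 3 (by omega : 3 + 3 ≤ 6) b = emb hF 1 (by omega : 1 + 5 ≤ 6) (emb hF 2 (by omega : 2 + 3 ≤ 2 + 3) b)
      rw [emb_emb]
  rw [hP0]
  -- the path
  obtain ⟨v, hv⟩ := exists_perp hF 1 3 (fun _ => yv) (by omega)
  have hv0 : orth v y := hv 0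
  have hvx : orth (P v) x' := by
    have e : tl (tl x'.val) = yv := by
      funext i
      change x'.val i.succ.succ = x'.val ⟨2 + i, _⟩
      congr 1
      apply Fin.ext
      change (i : ℕ) + 1 + 1 = 2 + i
      omega
    rw [orth, herm_pc, herm_pc, e]
    exact hv0
  have hvy : orth (P y) (P v) := orth_pc hF _ _ (orth_pc hF _ _ (orth_symm hF hv0))
  refine same_trans S.hyp (orth_e0_pc hF (P y)) hrect ?_
  exact same_trans S.hyp (orth_e0_pc hF (P v))
    (same_of_adj S.hyp S.tri (orth_e0_pc hF _) (orth_e0_pc hF _) (hPo y) (hPo v) (orth_pc hF _ _ hvy))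
    (same_of_adj S.hyp S.tri (orth_e0_pc hF _) (orth_e0_pc hF _) (hPo v) ho' (orth_pc hF _ _ hvx))

end Cfsg.Agent.H112
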