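import Cfsg.Agent.H112.Gen2
import Cfsg.Agent.H112.Step3
import Cfsg.Agent.H112.GlueFin
set_option linter.all false

/-!
# `SU 4 (2)` glued with a symmetric group (helper112)
-/

set_option autoImplicit false

namespace Cfsg.Agent.H112

open Matrix Cfsg Cfsg.Agent.Phan Cfsg.Agent.H434
open Cfsg.Agent.LieClassical.HermBasic
open Equiv (Perm swap)

section perms

variable {m n : ℕ}

theorem ve_swap (e : Fin m → Fin n) (he : Function.Injective e) (a b : Fin m) :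
    ve e he (swap a b) = swap (e a) (e b) := by
  symm
  apply eq_ve
  · funext i
    exact he.swap_apply a b i
  · intro x hx
    apply Equiv.swap_apply_of_ne_of_ne
    · rintro rfl; exact hx ⟨a, rfl⟩
    · rintro rfl; exact hx ⟨b, rfl⟩

theorem exists_ve (e : Fin m → Fin n) (he : Function.Injective e) (s : Perm (Fin n))
    (hs : ∀ x, x ∉ Set.range e → s x = x) : ∃ τ, ve e he τ = s := by
  have h1 : ∀ i, s (e i) ∈ Set.range e := by
    intro i
    by_contra hc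
    have h2 := hs _ hc
    exact hc ⟨i, (s.injective h2).symm⟩
  choose f hf using h1
  have hinj : Function.Injective f := by
    intro i j hij
    have h2 := hf i
    rw [hij, hf j] at h2
    exact (he (s.injective h2)).symm
  refine ⟨Equiv.ofBijective f (Finite.injective_iff_bijective.1 hinj), ?_⟩
  symm
  apply eq_ve
  · funext i
    exact (hf i).symm
  · exact hs

theorem ve_comp {l : ℕ} (e : Fin m → Fin n) (he : Function.Injective e) (f : Fin l → Fin m)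
    (hf : Function.Injective f) (σ : Perm (Fin l)) : ve e he (ve f hf σ) = ve (e ∘ f) (he.comp hf) σ := by
  apply eq_ve
  · funext i
    simp only [Function.comp_apply]
    rw [ve_apply, ve_apply]
  · intro x hx
    by_cases h : x ∈ Set.range e
    · obtain ⟨y, rfl⟩ := h
      rw [ve_apply, ve_notMem]
      rintro ⟨z, rfl⟩
      exact hx ⟨z, rfl⟩
    · exact ve_notMem _ _ _ h

theorem ve_congr {e e' : Fin m → Fin n} (h : e = e') (he : Function.Injective e) (he' : Function.Injective e')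
    (σ : Perm (Fin m)) : ve e he σ = ve e' he' σ := by subst h; rfl

theorem notMem_sh_iff {k : ℕ} (h : k + m ≤ n) (x : Fin n) : x ∉ Set.range (sh k h) ↔ ((x : ℕ) < k ∨ k + m ≤ x) := by
  constructor
  · intro hx
    by_contra hc
    push Not at hc
    apply hx
    refine ⟨⟨(x : ℕ) - k, by omega⟩, ?_⟩
    apply Fin.ext
    simp only [sh_val]
    omega
  · rintro hx ⟨y, rfl⟩
    simp only [sh_val] at hx
    omega

theorem ve_conj {k k' : ℕ} (h : k + m ≤ n) (h' : k' + m ≤ n) (C : Perm (Fin n)) (hC : ∀ i, C (sh k h i) = sh k' h' i)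
    (σ : Perm (Fin m)) : C * ve (sh k h) (sh_injective _ _) σ * C⁻¹ = ve (sh k' h') (sh_injective _ _) σ := by
  have hC' : ∀ i, C⁻¹ (sh k' h' i) = sh k h i := fun i => by rw [← hC, pm_ias]
  apply eq_ve
  · funext i
    simp only [Function.comp_apply, Equiv.Perm.mul_apply]
    rw [hC', ve_apply, hC]
  · intro x hx
    have h1 : C⁻¹ x ∉ Set.range (sh k h) := by
      rintro ⟨i, hi⟩
      apply hx
      refine ⟨i, ?_⟩
      rw [← hC, hi, pm_ais]
    rw [Equiv.Perm.mul_apply, Equiv.Perm.mul_apply, ve_notMem _ _ _ h1, pm_ais]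

theorem dec23 : (swap 2 3 : Perm (Fin 4)) ∘ (sh 0 (by omega : 0 + 2 ≤ 4) : Fin 2 → Fin 4) = sh 0 (by omega) := by decide

/-- generation of the symmetric group -/
theorem perm_gen {k : ℕ} (M : Subgroup (Perm (Fin (k + 2))))
    (h1 : ∀ σ, ve (sh 1 (by omega : 1 + (k + 1) ≤ k + 2)) (sh_injective _ _) σ ∈ M) (h2 : swap 0 1 ∈ M) : M = ⊤ := by
  have key : ∀ σ : Perm (Fin (k + 2)), σ 0 = 0 → σ ∈ M := by
    intro σ hσ
    obtain ⟨τ, hτ⟩ := exists_ve (sh 1 (by omega : 1 + (k + 1) ≤ k + 2)) (sh_injective _ _) σ (by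
      intro x hx
      rw [notMem_sh_iff] at hx
      have : x = 0 := by apply Fin.ext; have := x.2; simp only [Fin.val_zero]; omega
      rw [this, hσ])
    rw [← hτ]
    exact h1 τ
  rw [eq_top_iff]
  intro σ _
  by_cases h0 : σ 0 = 0
  · exact key σ h0
  · have k1 : swap 1 (σ 0) ∈ M := key _ (by
      rw [Equiv.swap_apply_of_ne_of_ne]
      · intro h; exact absurd (congrArg Fin.val h) (by simp)
      · exact fun h => h0 h.symm)
    have k2 : swap 0 1 * swap 1 (σ 0) * σ ∈ M := key _ (by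
      rw [Equiv.Perm.mul_apply, Equiv.Perm.mul_apply, Equiv.swap_apply_right, Equiv.swap_apply_right])
    have e : σ = (swap 1 (σ 0))⁻¹ * ((swap 0 1)⁻¹ * (swap 0 1 * swap 1 (σ 0) * σ)) := by group
    rw [e]
    exact M.mul_mem (M.inv_mem k1) (M.mul_mem (M.inv_mem h2) k2)

end perms

variable {F : Type*} [Field F] [Fintype F]

/-- the gluing data -/
structure Glue2 (hF : Fintype.card F = 2 ^ 2) (n : ℕ) (hn : 5 ≤ n) {Q : Type*} [Group Q] (γ : SU 4 F 2 →* Q)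
    (t : Perm (Fin n) →* Q) : Prop where
  b : ∀ σ : Perm (Fin 4), t (ve (sh 0 (by omega)) (sh_injective 0 (by omega : 0 + 4 ≤ n)) σ) =
    γ (pm2 2 4 (two_zero hF) σ)
  c : ∀ ρ : Perm (Fin n), (∀ i : Fin n, (i : ℕ) < 3 → ρ i = i) → ∀ x : SU 3 F 2,
    Commute (t ρ) (γ (emb hF 0 (by omega) x))
  d : ∀ ρ : Perm (Fin n), (∀ i : Fin n, (i : ℕ) < 2 → 3 ≤ (ρ i : ℕ)) → ∀ (x : SU 3 F 2) (y : SU 2 F 2),
    Commute (γ (emb hF 0 (by omega) x)) (t ρ * γ (emb hF 0 (by omega) y) * (t ρ)⁻¹)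
  e : 6 ≤ n → ∀ ρ : Perm (Fin n), (∀ i : Fin n, (i : ℕ) < 3 → 3 ≤ (ρ i : ℕ)) → ∀ (x y : SU 3 F 2),
    Commute (γ (emb hF 0 (by omega) x)) (t ρ * γ (emb hF 0 (by omega) y) * (t ρ)⁻¹)

theorem commute_of_conj {G : Type*} [Group G] {a b : G} (h : a * b * a⁻¹ = b) : Commute a b := mul_inv_eq_iff_eq_mul.1 h

theorem conj_of_commute {G : Type*} [Group G] {a b : G} (h : Commute a b) : a * b * a⁻¹ = b := by
  rw [h.eq, mul_inv_cancel_right]

section

/-- commutation with `SU 2`, from the relations -/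
theorem c2_of {hF : Fintype.card F = 2 ^ 2} {n : ℕ} {Q : Type*} [Group Q] {γ : SU 4 F 2 →* Q}
    {t : Perm (Fin n) →* Q} (hn : 5 ≤ n) (b : t (ve (sh 0 (by omega)) (sh_injective 0 (by omega : 0 + 4 ≤ n)) (swap 2 3)) =
    γ (pm2 2 4 (two_zero hF) (swap 2 3)))
    (c : ∀ ρ : Perm (Fin n), (∀ i : Fin n, (i : ℕ) < 3 → ρ i = i) → ∀ x : SU 3 F 2,
      Commute (t ρ) (γ (emb hF 0 (by omega) x))) (ρ : Perm (Fin n)) (hρ : ∀ i : Fin n, (i : ℕ) < 2 → ρ i = i)
    (y : SU 2 F 2) : Commute (t ρ) (γ (emb hF 0 (by omega) y)) := by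
  have c' : ∀ ρ : Perm (Fin n), (∀ i : Fin n, (i : ℕ) < 3 → ρ i = i) → Commute (t ρ) (γ (emb hF 0 (by omega) y)) := by
    intro ρ hρ
    have h1 := c ρ hρ (emb hF 0 (by omega) y)
    rw [emb_emb] at h1
    exact h1
  set e2 : Fin n := ⟨2, by omega⟩ with he2
  set e3 : Fin n := ⟨3, by omega⟩ with he3
  by_cases h2 : ρ e2 = e2
  · apply c'
    intro i hi
    rcases Nat.lt_or_ge (i : ℕ) 2 with h | h
    · exact hρ i h
    · have : i = e2 := Fin.ext (by simp only [he2]; omega)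
      rw [this, h2]
  · have h3 : 3 ≤ (ρ e2 : ℕ) := by
      by_contra hc
      have h4 : (ρ e2 : ℕ) < 2 := by
        have h5 : (ρ e2 : ℕ) ≠ 2 := fun h => h2 (Fin.ext h)
        omega
      have h5 := hρ _ h4
      have h6 := ρ.injective h5
      exact h2 h6
    -- `ρ = swap e3 k * swap e2 e3 * ρ'`
    have k1 : Commute (t (swap e3 (ρ e2))) (γ (emb hF 0 (by omega) y)) := by
      apply c'
      intro i hi
      apply Equiv.swap_apply_of_ne_of_ne
      · intro h; rw [h] at hi; simp [he3] at hi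
      · intro h; rw [h] at hi; omega
    have k2 : Commute (t (swap e2 e3)) (γ (emb hF 0 (by omega) y)) := by
      have e : ve (sh 0 (by omega)) (sh_injective 0 (by omega : 0 + 4 ≤ n)) (swap 2 3) = swap e2 e3 := by
        rw [ve_swap]
        congr 1
      rw [← e, b]
      apply commute_of_conj
      rw [← map_inv, ← map_mul, ← map_mul]
      congr 1
      rw [emb, pm2_ext']
      exact ext_congr hF _ _ dec23 y
    have k3 : Commute (t (swap e2 e3 * swap e3 (ρ e2) * ρ)) (γ (emb hF 0 (by omega) y)) := by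
      apply c'
      intro i hi
      rw [Equiv.Perm.mul_apply, Equiv.Perm.mul_apply]
      rcases Nat.lt_or_ge (i : ℕ) 2 with h | h
      · have n2 : i ≠ e2 := by intro h'; rw [h'] at h; simp [he2] at h
        have n3 : i ≠ e3 := by intro h'; rw [h'] at h; simp only [he3] at h; omega
        have n4 : i ≠ ρ e2 := by intro h'; rw [← h'] at h3; omega
        rw [hρ i h, Equiv.swap_apply_of_ne_of_ne n3 n4, Equiv.swap_apply_of_ne_of_ne n2 n3]
      · have : i = e2 := Fin.ext (by simp only [he2]; omega)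
        rw [this, Equiv.swap_apply_right, Equiv.swap_apply_right]
    have e : ρ = (swap e3 (ρ e2))⁻¹ * ((swap e2 e3)⁻¹ * (swap e2 e3 * swap e3 (ρ e2) * ρ)) := by group
    rw [e, map_mul, map_mul, map_inv, map_inv]
    exact k1.inv_left.mul_left (k2.inv_left.mul_left k3)

variable {hF : Fintype.card F = 2 ^ 2} {n : ℕ} {hn : 5 ≤ n} {Q : Type*} [Group Q] {γ : SU 4 F 2 →* Q}
    {t : Perm (Fin n) →* Q} (G : Glue2 hF n hn γ t)
include G

theorem Glue2.c2 (ρ : Perm (Fin n)) (hρ : ∀ i : Fin n, (i : ℕ) < 2 → ρ i = i)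
    (y : SU 2 F 2) : Commute (t ρ) (γ (emb hF 0 (by omega) y)) := c2_of hn (G.b _) G.c ρ hρ y

theorem Glue2.wd3 {ρ ρ' : Perm (Fin n)} (h : ∀ i : Fin n, (i : ℕ) < 3 → ρ i = ρ' i) (x : SU 3 F 2) :
    t ρ * γ (emb hF 0 (by omega) x) * (t ρ)⁻¹ = t ρ' * γ (emb hF 0 (by omega) x) * (t ρ')⁻¹ := by
  have h1 := conj_of_commute (G.c (ρ'⁻¹ * ρ) (fun i hi => by
    rw [Equiv.Perm.mul_apply, h i hi, pm_ias]) x)
  rw [map_mul, map_inv] at h1
  rw [← h1]
  have e : t ρ = t ρ' * ((t ρ')⁻¹ * t ρ) := by group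
  generalize γ (emb hF 0 (by omega) x) = z at h1 ⊢
  rw [h1]
  calc t ρ * z * (t ρ)⁻¹ = t ρ' * (((t ρ')⁻¹ * t ρ) * z * ((t ρ')⁻¹ * t ρ)⁻¹) * (t ρ')⁻¹ := by group
    _ = _ := by rw [h1]

theorem Glue2.wd2 {ρ ρ' : Perm (Fin n)} (h : ∀ i : Fin n, (i : ℕ) < 2 → ρ i = ρ' i) (x : SU 2 F 2) :
    t ρ * γ (emb hF 0 (by omega) x) * (t ρ)⁻¹ = t ρ' * γ (emb hF 0 (by omega) x) * (t ρ')⁻¹ := by
  have h1 := conj_of_commute (G.c2 (ρ'⁻¹ * ρ) (fun i hi => by
    rw [Equiv.Perm.mul_apply, h i hi, pm_ias]) x)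
  rw [map_mul, map_inv] at h1
  generalize γ (emb hF 0 (by omega) x) = z at h1 ⊢
  calc t ρ * z * (t ρ)⁻¹ = t ρ' * (((t ρ')⁻¹ * t ρ) * z * ((t ρ')⁻¹ * t ρ)⁻¹) * (t ρ')⁻¹ := by group
    _ = _ := by rw [h1]

end

/-- a partial extension -/
structure PExt (hF : Fintype.card F = 2 ^ 2) {n : ℕ} {Q : Type*} [Group Q] (γ : SU 4 F 2 →* Q)
    (t : Perm (Fin n) →* Q) {m : ℕ} (h3 : 3 ≤ m) (hm : m ≤ n) (Φ : SU m F 2 →* Q) : Prop where
  p : ∀ σ : Perm (Fin m), Φ (pm2 2 m (two_zero hF) σ) = t (ve (sh 0 (by omega)) (sh_injective 0 (by omega)) σ)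
  s : ∀ x : SU 3 F 2, Φ (emb hF 0 (by omega) x) = γ (emb hF 0 (by omega) x)

section

variable {hF : Fintype.card F = 2 ^ 2} {n : ℕ} {hn : 5 ≤ n} {Q : Type*} [Group Q] {γ : SU 4 F 2 →* Q}
    {t : Perm (Fin n) →* Q} (G : Glue2 hF n hn γ t) {m : ℕ} {h3 : 3 ≤ m} {hm : m ≤ n} {Φ : SU m F 2 →* Q}
    (E : PExt hF γ t h3 hm Φ)
include G E

theorem PExt.ext3 (f : Fin 3 → Fin m) (hf : Function.Injective f) (ρ : Perm (Fin n))
    (hρ : ∀ i : Fin 3, ((ρ ⟨i, by omega⟩ : Fin n) : ℕ) = f i) (x : SU 3 F 2) :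
    Φ (ext hF f hf x) = t ρ * γ (emb hF 0 (by omega) x) * (t ρ)⁻¹ := by
  obtain ⟨π, hπ⟩ := exists_perm_ext (sh 0 (by omega : 0 + 3 ≤ m)) f (sh_injective _ _) hf
  have h1 : ext hF f hf x = pm2 2 m (two_zero hF) π * emb hF 0 (by omega) x * (pm2 2 m (two_zero hF) π)⁻¹ := by
    rw [emb, pm2_ext']
    exact ext_congr hF _ _ hπ.symm x
  rw [h1, map_mul, map_mul, map_inv, E.p, E.s]
  apply G.wd3
  intro i hi
  have h2 := hρ ⟨i, hi⟩
  have h4 := congrFun hπ ⟨i, hi⟩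
  apply Fin.ext
  refine Eq.trans ?_ h2.symm
  have h5 : i = sh 0 (by omega : 0 + m ≤ n) (sh 0 (by omega : 0 + 3 ≤ m) ⟨i, hi⟩) := by
    apply Fin.ext; simp only [sh_val]; omega
  conv_lhs => rw [h5]
  rw [ve_apply]
  rw [Function.comp_apply] at h4
  rw [h4, sh_val, Nat.zero_add]

theorem PExt.ext2 (f : Fin 2 → Fin m) (hf : Function.Injective f) (ρ : Perm (Fin n))
    (hρ : ∀ i : Fin 2, ((ρ ⟨i, by omega⟩ : Fin n) : ℕ) = f i) (x : SU 2 F 2) :
    Φ (ext hF f hf x) = t ρ * γ (emb hF 0 (by omega) x) * (t ρ)⁻¹ := by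
  obtain ⟨π, hπ⟩ := exists_perm_ext (sh 0 (by omega : 0 + 2 ≤ m)) f (sh_injective _ _) hf
  have h1 : ext hF f hf x = pm2 2 m (two_zero hF) π * emb hF 0 (by omega) x * (pm2 2 m (two_zero hF) π)⁻¹ := by
    rw [emb, pm2_ext']
    exact ext_congr hF _ _ hπ.symm x
  have h0 : Φ (emb hF 0 (by omega) x) = γ (emb hF 0 (by omega) x) := by
    have := E.s (emb hF 0 (by omega) x)
    rw [emb_emb, emb_emb] at this
    exact this
  rw [h1, map_mul, map_mul, map_inv, E.p, h0]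
  apply G.wd2
  intro i hi
  have h2 := hρ ⟨i, hi⟩
  have h4 := congrFun hπ ⟨i, hi⟩
  apply Fin.ext
  refine Eq.trans ?_ h2.symm
  have h5 : i = sh 0 (by omega : 0 + m ≤ n) (sh 0 (by omega : 0 + 2 ≤ m) ⟨i, hi⟩) := by
    apply Fin.ext; simp only [sh_val]; omega
  conv_lhs => rw [h5]
  rw [ve_apply]
  rw [Function.comp_apply] at h4
  rw [h4, sh_val, Nat.zero_add]

end

end Cfsg.Agent.H112
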