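import Cfsg.Agent.H112.Glue2Main
import Cfsg.Agent.H111.Pres
set_option linter.all false

/-!
# Finitely many relators for the gluing of `SU 4 (2)` with a symmetric group (helper112)
-/

set_option autoImplicit false

namespace Cfsg.Agent.H112

open Matrix Cfsg Cfsg.Agent.Phan Cfsg.Agent.H434
open Cfsg.Agent.LieClassical.HermBasic
open Equiv (Perm swap)

/-- commutation from generators -/
theorem comm_gen {A B Q : Type*} [Group A] [Group B] [Group Q] (f : A →* Q) (g : B →* Q) {S : Set A} {T : Set B}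
    (hS : Subgroup.closure S = ⊤) (hT : Subgroup.closure T = ⊤) (h : ∀ a ∈ S, ∀ b ∈ T, Commute (f a) (g b))
    (a : A) (b : B) : Commute (f a) (g b) := by
  have h1 : ∀ a ∈ S, ∀ b, Commute (f a) (g b) := by
    intro a ha b
    have h2 : Subgroup.closure T ≤ (Subgroup.centralizer {f a}).comap g := by
      rw [Subgroup.closure_le]
      intro b hb
      rw [SetLike.mem_coe, Subgroup.mem_comap, Subgroup.mem_centralizer_singleton_iff]
      exact (h a ha b hb).symm.eq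
    have h3 := h2 (by rw [hT]; trivial : b ∈ Subgroup.closure T)
    rw [Subgroup.mem_comap, Subgroup.mem_centralizer_singleton_iff] at h3
    exact (show Commute (g b) (f a) from h3).symm
  have h2 : Subgroup.closure S ≤ (Subgroup.centralizer {g b}).comap f := by
    rw [Subgroup.closure_le]
    intro a ha
    rw [SetLike.mem_coe, Subgroup.mem_comap, Subgroup.mem_centralizer_singleton_iff]
    exact (h1 a ha b).eq
  have h3 := h2 (by rw [hS]; trivial : a ∈ Subgroup.closure S)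
  rw [Subgroup.mem_comap, Subgroup.mem_centralizer_singleton_iff] at h3
  exact h3

theorem ve_commute {l m n : ℕ} {e : Fin m → Fin n} {he : Function.Injective e} {f : Fin l → Fin n}
    {hf : Function.Injective f} (h : ∀ i j, e i ≠ f j) (σ : Perm (Fin m)) (τ : Perm (Fin l)) :
    Commute (ve e he σ) (ve f hf τ) := by
  apply Equiv.Perm.Disjoint.commute
  intro z
  by_cases hz : z ∈ Set.range e
  · right
    obtain ⟨i, rfl⟩ := hz
    apply ve_notMem
    rintro ⟨j, hj⟩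
    exact h i j hj.symm
  · exact Or.inl (ve_notMem _ _ _ hz)

/-- a permutation with prescribed values -/
theorem exists_slide2 {k n : ℕ} (hk : 3 + k ≤ n) (ρ r : Perm (Fin n)) (hρ : ∀ i : Fin n, (i : ℕ) < k → 3 ≤ (ρ i : ℕ))
    (hr : ∀ i : Fin n, (i : ℕ) < k → (r i : ℕ) = i + 3) :
    ∃ s : Perm (Fin n), (∀ i : Fin n, (i : ℕ) < 3 → s i = i) ∧ ∀ i : Fin n, (i : ℕ) < k → (s * r) i = ρ i := by
  let f : Fin (3 + k) → Fin n := fun j => if h : (j : ℕ) < 3 then ⟨j, by omega⟩ else ρ ⟨(j : ℕ) - 3, by omega⟩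
  have f1 : ∀ j : Fin (3 + k), (j : ℕ) < 3 → (f j : ℕ) = j := by
    intro j hj
    simp only [f]
    rw [dif_pos hj]
  have f2 : ∀ j : Fin (3 + k), ¬ (j : ℕ) < 3 → f j = ρ ⟨(j : ℕ) - 3, by omega⟩ := by
    intro j hj
    simp only [f]
    rw [dif_neg hj]
  have hf : Function.Injective f := by
    intro a b hab
    by_cases ha : (a : ℕ) < 3 <;> by_cases hb : (b : ℕ) < 3
    · apply Fin.ext
      rw [← f1 a ha, ← f1 b hb, hab]
    · exfalso
      have h1 := f1 a ha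
      rw [hab, f2 b hb] at h1
      have h2 := hρ ⟨(b : ℕ) - 3, by omega⟩ (by simp only; omega)
      omega
    · exfalso
      have h1 := f1 b hb
      rw [← hab, f2 a ha] at h1
      have h2 := hρ ⟨(a : ℕ) - 3, by omega⟩ (by simp only; omega)
      omega
    · rw [f2 a ha, f2 b hb] at hab
      have h1 := congrArg Fin.val (ρ.injective hab)
      simp only at h1
      apply Fin.ext
      omega
  obtain ⟨s, hs⟩ := exists_perm_ext (sh 0 (by omega : 0 + (3 + k) ≤ n)) f (sh_injective _ _) hf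
  refine ⟨s, ?_, ?_⟩
  · intro i hi
    have h1 := congrFun hs ⟨i, by omega⟩
    have h2 : (sh 0 (by omega : 0 + (3 + k) ≤ n) ⟨i, by omega⟩ : Fin n) = i := by
      apply Fin.ext; simp only [sh_val]; omega
    rw [Function.comp_apply, h2] at h1
    apply Fin.ext
    rw [h1, f1 _ hi]
  · intro i hi
    have h1 := congrFun hs ⟨i + 3, by omega⟩
    have h2 : (sh 0 (by omega : 0 + (3 + k) ≤ n) ⟨i + 3, by omega⟩ : Fin n) = r i := by
      apply Fin.ext; simp only [sh_val]; rw [hr i hi]; omega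
    rw [Function.comp_apply, h2] at h1
    rw [Equiv.Perm.mul_apply, h1, f2 _ (by simp only; omega)]
    congr 1

variable {F : Type*} [Field F] [Fintype F]

/-- the common finite conditions -/
structure GF (hF : Fintype.card F = 2 ^ 2) (m : ℕ) (hm : 2 ≤ m) (x : Fin 4 → SU 3 F 2) (σ : Fin 2 → Perm (Fin 4))
    (τ : Fin 2 → Perm (Fin m)) {Q : Type*} [Group Q] (γ : SU 4 F 2 →* Q) (t : Perm (Fin (m + 3)) →* Q) : Prop where
  b : ∀ i, t (ve (sh 0 (by omega)) (sh_injective 0 (by omega : 0 + 4 ≤ m + 3)) (σ i)) = γ (pm2 2 4 (two_zero hF) (σ i))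
  c : ∀ i j, Commute (t (ve (sh 3 (by omega)) (sh_injective 3 (by omega : 3 + m ≤ m + 3)) (τ i)))
    (γ (emb hF 0 (by omega) (x j)))

section

variable {hF : Fintype.card F = 2 ^ 2} {m : ℕ} {hm : 2 ≤ m} {x : Fin 4 → SU 3 F 2} {σ : Fin 2 → Perm (Fin 4)}
    {τ : Fin 2 → Perm (Fin m)} {Q : Type*} [Group Q] {γ : SU 4 F 2 →* Q} {t : Perm (Fin (m + 3)) →* Q}
    (G : GF hF m hm x σ τ γ t)
    (hx : Subgroup.closure (Set.range (pm2 2 3 (two_zero hF)) ∪ Set.range x) = ⊤)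
    (hσ : Subgroup.closure (Set.range σ) = ⊤) (hτ : Subgroup.closure (Set.range τ) = ⊤)

include G hσ

theorem GF.hb (s : Perm (Fin 4)) : t (ve (sh 0 (by omega)) (sh_injective 0 (by omega : 0 + 4 ≤ m + 3)) s) =
    γ (pm2 2 4 (two_zero hF) s) :=
  hom_eq_two hσ (f := t.comp (ve (sh 0 (by omega)) (sh_injective 0 (by omega : 0 + 4 ≤ m + 3))))
    (g := γ.comp (pm2 2 4 (two_zero hF))) G.b s

/-- on permutations of the first points -/
theorem GF.hb3 {k : ℕ} (hk : 0 + k ≤ 4) (s : Perm (Fin k)) : γ (emb hF 0 hk (pm2 2 k (two_zero hF) s)) =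
    t (ve (sh 0 (by omega)) (sh_injective 0 (by omega : 0 + k ≤ m + 3)) s) := by
  rw [emb_pm2, ← G.hb hσ, ve_sh_sh]

include hx hτ

theorem GF.hc (ρ : Perm (Fin (m + 3))) (hρ : ∀ i : Fin (m + 3), (i : ℕ) < 3 → ρ i = i) (y : SU 3 F 2) :
    Commute (t ρ) (γ (emb hF 0 (by omega) y)) := by
  obtain ⟨τ', rfl⟩ := exists_ve (sh 3 (by omega : 3 + m ≤ m + 3)) (sh_injective _ _) ρ (by
    intro i hi
    rw [notMem_sh_iff] at hi
    apply hρ
    have := i.2
    omega)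
  refine comm_gen (t.comp (ve (sh 3 (by omega : 3 + m ≤ m + 3)) (sh_injective _ _))) (γ.comp (emb hF 0 (by omega))) hτ hx
    ?_ τ' y
  rintro _ ⟨i, rfl⟩ _ (⟨s, rfl⟩ | ⟨j, rfl⟩)
  · rw [MonoidHom.comp_apply, MonoidHom.comp_apply, G.hb3 hσ]
    refine (ve_commute ?_ _ _).map t
    intro i j hij
    have := congrArg Fin.val hij
    simp only [sh_val] at this
    omega
  · exact G.c i j

theorem GF.hc2 (ρ : Perm (Fin (m + 3))) (hρ : ∀ i : Fin (m + 3), (i : ℕ) < 2 → ρ i = i) (y : SU 2 F 2) :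
    Commute (t ρ) (γ (emb hF 0 (by omega) y)) :=
  c2_of (by omega) (G.hb hσ _) (G.hc hx hσ hτ) ρ hρ y

theorem GF.w3 {ρ ρ' : Perm (Fin (m + 3))} (h : ∀ i : Fin (m + 3), (i : ℕ) < 3 → ρ i = ρ' i) (y : SU 3 F 2) :
    t ρ * γ (emb hF 0 (by omega) y) * (t ρ)⁻¹ = t ρ' * γ (emb hF 0 (by omega) y) * (t ρ')⁻¹ := by
  have h1 := conj_of_commute (G.hc hx hσ hτ (ρ'⁻¹ * ρ) (fun i hi => by
    rw [Equiv.Perm.mul_apply, h i hi, pm_ias]) y)
  rw [map_mul, map_inv] at h1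
  generalize γ (emb hF 0 (by omega) y) = z at h1 ⊢
  calc t ρ * z * (t ρ)⁻¹ = t ρ' * (((t ρ')⁻¹ * t ρ) * z * ((t ρ')⁻¹ * t ρ)⁻¹) * (t ρ')⁻¹ := by group
    _ = _ := by rw [h1]

theorem GF.w2 {ρ ρ' : Perm (Fin (m + 3))} (h : ∀ i : Fin (m + 3), (i : ℕ) < 2 → ρ i = ρ' i) (y : SU 2 F 2) :
    t ρ * γ (emb hF 0 (by omega) y) * (t ρ)⁻¹ = t ρ' * γ (emb hF 0 (by omega) y) * (t ρ')⁻¹ := by
  have h1 := conj_of_commute (G.hc2 hx hσ hτ (ρ'⁻¹ * ρ) (fun i hi => by
    rw [Equiv.Perm.mul_apply, h i hi, pm_ias]) y)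
  rw [map_mul, map_inv] at h1
  generalize γ (emb hF 0 (by omega) y) = z at h1 ⊢
  calc t ρ * z * (t ρ)⁻¹ = t ρ' * (((t ρ')⁻¹ * t ρ) * z * ((t ρ')⁻¹ * t ρ)⁻¹) * (t ρ')⁻¹ := by group
    _ = _ := by rw [h1]

/-- the commutator condition in general, from one permutation: `SU 3` and `SU 2` -/
theorem GF.hd_of (r : Perm (Fin (m + 3))) (hr : ∀ i : Fin (m + 3), (i : ℕ) < 2 → (r i : ℕ) = i + 3)
    (h : ∀ (y : SU 3 F 2) (z : SU 2 F 2), Commute (γ (emb hF 0 (by omega) y)) (t r * γ (emb hF 0 (by omega) z) * (t r)⁻¹))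
    (ρ : Perm (Fin (m + 3))) (hρ : ∀ i : Fin (m + 3), (i : ℕ) < 2 → 3 ≤ (ρ i : ℕ)) (y : SU 3 F 2) (z : SU 2 F 2) :
    Commute (γ (emb hF 0 (by omega) y)) (t ρ * γ (emb hF 0 (by omega) z) * (t ρ)⁻¹) := by
  obtain ⟨s, hs1, hs2⟩ := exists_slide2 (by omega : 3 + 2 ≤ m + 3) ρ r hρ hr
  rw [G.w2 hx hσ hτ (fun i hi => (hs2 i hi).symm) z]
  have h1 := conj_of_commute (G.hc hx hσ hτ s hs1 y)
  have h2 := (h y z).map (MulAut.conj (t s)).toMonoidHom
  have h3 : (MulAut.conj (t s)).toMonoidHom (γ (emb hF 0 (by omega) y)) = γ (emb hF 0 (by omega) y) := h1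
  have h4 : (MulAut.conj (t s)).toMonoidHom (t r * γ (emb hF 0 (by omega) z) * (t r)⁻¹) =
      t (s * r) * γ (emb hF 0 (by omega) z) * (t (s * r))⁻¹ := by
    change t s * (t r * γ (emb hF 0 (by omega) z) * (t r)⁻¹) * (t s)⁻¹ = _
    rw [map_mul]; group
  rw [h3, h4] at h2
  exact h2

/-- the commutator condition in general, from one permutation: `SU 3` and `SU 3` -/
theorem GF.he_of (hm3 : 3 ≤ m) (r : Perm (Fin (m + 3))) (hr : ∀ i : Fin (m + 3), (i : ℕ) < 3 → (r i : ℕ) = i + 3)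
    (h : ∀ (y z : SU 3 F 2), Commute (γ (emb hF 0 (by omega) y)) (t r * γ (emb hF 0 (by omega) z) * (t r)⁻¹))
    (ρ : Perm (Fin (m + 3))) (hρ : ∀ i : Fin (m + 3), (i : ℕ) < 3 → 3 ≤ (ρ i : ℕ)) (y : SU 3 F 2) (z : SU 3 F 2) :
    Commute (γ (emb hF 0 (by omega) y)) (t ρ * γ (emb hF 0 (by omega) z) * (t ρ)⁻¹) := by
  obtain ⟨s, hs1, hs2⟩ := exists_slide2 (by omega : 3 + 3 ≤ m + 3) ρ r hρ hr
  rw [G.w3 hx hσ hτ (fun i hi => (hs2 i hi).symm) z]
  have h1 := conj_of_commute (G.hc hx hσ hτ s hs1 y)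
  have h2 := (h y z).map (MulAut.conj (t s)).toMonoidHom
  have h3 : (MulAut.conj (t s)).toMonoidHom (γ (emb hF 0 (by omega) y)) = γ (emb hF 0 (by omega) y) := h1
  have h4 : (MulAut.conj (t s)).toMonoidHom (t r * γ (emb hF 0 (by omega) z) * (t r)⁻¹) =
      t (s * r) * γ (emb hF 0 (by omega) z) * (t (s * r))⁻¹ := by
    change t s * (t r * γ (emb hF 0 (by omega) z) * (t r)⁻¹) * (t s)⁻¹ = _
    rw [map_mul]; group
  rw [h3, h4] at h2
  exact h2

/-- commutation of a permutation of the first three points with a conjugate -/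
theorem GF.p3 (r : Perm (Fin (m + 3))) (hr : ∀ i : Fin (m + 3), (i : ℕ) < 3 → (r i : ℕ) = i + 3) (s : Perm (Fin 3))
    (z : SU 3 F 2) : Commute (γ (emb hF 0 (by omega) (pm2 2 3 (two_zero hF) s)))
      (t r * γ (emb hF 0 (by omega) z) * (t r)⁻¹) := by
  rw [G.hb3 hσ]
  have h1 := G.hc hx hσ hτ (r⁻¹ * ve (sh 0 (by omega)) (sh_injective 0 (by omega : 0 + 3 ≤ m + 3)) s * r) (by
    intro i hi
    rw [Equiv.Perm.mul_apply, Equiv.Perm.mul_apply, ve_notMem, pm_ias]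
    rw [notMem_sh_iff, hr i hi]
    right; omega) z
  have h2 := h1.map (MulAut.conj (t r)).toMonoidHom
  have h3 : (MulAut.conj (t r)).toMonoidHom (t (r⁻¹ * ve (sh 0 (by omega)) (sh_injective 0 (by omega : 0 + 3 ≤ m + 3)) s * r)) =
      t (ve (sh 0 (by omega)) (sh_injective 0 (by omega : 0 + 3 ≤ m + 3)) s) := by
    change t r * t (r⁻¹ * ve (sh 0 (by omega)) (sh_injective 0 (by omega : 0 + 3 ≤ m + 3)) s * r) * (t r)⁻¹ = _
    rw [map_mul, map_mul, map_inv]; group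
  rw [h3] at h2
  exact h2

/-- commutation of a permutation of the first three points with a conjugate -/
theorem GF.p2 (r : Perm (Fin (m + 3))) (hr : ∀ i : Fin (m + 3), (i : ℕ) < 2 → (r i : ℕ) = i + 3) (s : Perm (Fin 3))
    (z : SU 2 F 2) : Commute (γ (emb hF 0 (by omega) (pm2 2 3 (two_zero hF) s)))
      (t r * γ (emb hF 0 (by omega) z) * (t r)⁻¹) := by
  rw [G.hb3 hσ]
  have h1 := G.hc2 hx hσ hτ (r⁻¹ * ve (sh 0 (by omega)) (sh_injective 0 (by omega : 0 + 3 ≤ m + 3)) s * r) (by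
    intro i hi
    rw [Equiv.Perm.mul_apply, Equiv.Perm.mul_apply, ve_notMem, pm_ias]
    rw [notMem_sh_iff, hr i hi]
    right; omega) z
  have h2 := h1.map (MulAut.conj (t r)).toMonoidHom
  have h3 : (MulAut.conj (t r)).toMonoidHom (t (r⁻¹ * ve (sh 0 (by omega)) (sh_injective 0 (by omega : 0 + 3 ≤ m + 3)) s * r)) =
      t (ve (sh 0 (by omega)) (sh_injective 0 (by omega : 0 + 3 ≤ m + 3)) s) := by
    change t r * t (r⁻¹ * ve (sh 0 (by omega)) (sh_injective 0 (by omega : 0 + 3 ≤ m + 3)) s * r) * (t r)⁻¹ = _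
    rw [map_mul, map_mul, map_inv]; group
  rw [h3] at h2
  exact h2

/-- `k = 2, 3` : a conjugate of a permutation of the first `k` points commutes with `SU 3` -/
theorem GF.q3 {k : ℕ} (hk4 : 0 + k ≤ 4) (r : Perm (Fin (m + 3)))
    (hr : ∀ i : Fin (m + 3), (i : ℕ) < k → (r i : ℕ) = i + 3)
    (s : Perm (Fin k)) (y : SU 3 F 2) : Commute (γ (emb hF 0 (by omega) y))
      (t r * γ (emb hF 0 hk4 (pm2 2 k (two_zero hF) s)) * (t r)⁻¹) := by
  rw [G.hb3 hσ, ← map_inv, ← map_mul, ← map_mul]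
  refine (G.hc hx hσ hτ _ ?_ y).symm
  intro i hi
  rw [Equiv.Perm.mul_apply, Equiv.Perm.mul_apply, ve_notMem, pm_ais]
  rw [notMem_sh_iff]
  right
  by_contra hc
  push Not at hc
  have h1 := hr (r⁻¹ i) (by omega)
  rw [pm_ais] at h1
  omega

end

end Cfsg.Agent.H112
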