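import Cfsg.Agent.H112.Glue2Step
set_option linter.all false

/-!
# The homomorphism from `SU n (2)` (helper112)
-/

set_option autoImplicit false

namespace Cfsg.Agent.H112

open Matrix Cfsg Cfsg.Agent.Phan Cfsg.Agent.H434 Cfsg.Agent.Phan.Cover
open Cfsg.Agent.LieClassical.HermBasic
open Equiv (Perm swap)

variable {F : Type*} [Field F] [Fintype F]

theorem emb_self (hF : Fintype.card F = 2 ^ 2) {n : ℕ} (h : 0 + n ≤ n) (x : SU n F 2) : emb hF 0 h x = x := by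
  have h3 := ext_id hF x
  conv_rhs => rw [← h3]
  rw [emb]
  apply ext_congr
  funext i
  apply Fin.ext
  simp [sh_val]

theorem ve_self {n : ℕ} (h : 0 + n ≤ n) (σ : Perm (Fin n)) : ve (sh 0 h) (sh_injective _ _) σ = σ := by
  symm
  apply eq_ve
  · funext i
    have h1 : ∀ i, sh 0 h i = i := by
      intro i; apply Fin.ext; simp [sh_val]
    simp only [Function.comp_apply, h1]
  · intro x hx
    rw [notMem_sh_iff] at hx
    have := x.2
    omega

section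

variable {hF : Fintype.card F = 2 ^ 2} {n : ℕ} {hn : 5 ≤ n} {Q : Type*} [Group Q] {γ : SU 4 F 2 →* Q}
    {t : Perm (Fin n) →* Q} (G : Glue2 hF n hn γ t)
include G

theorem Glue2.step {k : ℕ} (hk : 1 ≤ k) (hkn : k + 4 ≤ n) (Φ : SU (k + 3) F 2 →* Q)
    (E : PExt hF γ t (by omega) (by omega) Φ) :
    ∃ Φ' : SU (k + 4) F 2 →* Q, PExt hF γ t (by omega) hkn Φ' := by
  obtain ⟨C, hC⟩ := exists_perm_ext (sh 0 (by omega : 0 + (k + 3) ≤ n)) (sh 1 (by omega : 1 + (k + 3) ≤ n))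
    (sh_injective _ _) (sh_injective _ _)
  have S := E.stepHyp G hkn hC hk
  obtain ⟨Φ', h1, h2⟩ : ∃ Φ' : SU (k + 4) F 2 →* Q, (∀ x : SU (k + 3) F 2, Φ' (emb hF 1 (by omega) x) = cjh (t C) Φ x) ∧
      ∀ x : SU 2 F 2, Φ' (emb hF 0 (by omega) x) = (γ.comp (emb hF 0 (by omega : 0 + 3 ≤ 4))) (emb hF 0 (by omega) x) := by
    rcases Nat.lt_or_ge k 3 with h | h
    · rcases Nat.lt_or_ge k 2 with h' | h'
      · obtain rfl : k = 1 := by omega
        exact S.extend le_rfl (same_five S)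
      · obtain rfl : k = 2 := by omega
        exact S.extend (by omega) (same_six S (E.rect G hkn hC))
    · exact exists_extension_orth hF k (Or.inl (by omega)) _ _ S.ha S.hc
  have hp : ∀ σ, Φ' (pm2 2 (k + 4) (two_zero hF) σ) = t (ve (sh 0 (by omega : 0 + (k + 4) ≤ n)) (sh_injective _ _) σ) := by
    have h3 : (Φ'.comp (pm2 2 (k + 4) (two_zero hF))).eqLocus
        (t.comp (ve (sh 0 (by omega : 0 + (k + 4) ≤ n)) (sh_injective _ _))) = ⊤ := by
      apply perm_gen (k := k + 2)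
      · intro σ
        change Φ' (pm2 2 (k + 4) (two_zero hF) (ve (sh 1 (by omega : 1 + (k + 3) ≤ k + 4)) (sh_injective _ _) σ)) =
          t (ve (sh 0 (by omega : 0 + (k + 4) ≤ n)) (sh_injective _ _)
            (ve (sh 1 (by omega : 1 + (k + 3) ≤ k + 4)) (sh_injective _ _) σ))
        rw [← emb_pm2 hF, h1, E.ap hkn hC, ve_sh_sh]
      · have e : swap (0 : Fin (k + 4)) 1 = ve (sh 0 (by omega : 0 + 2 ≤ k + 4)) (sh_injective _ _) (swap 0 1) := by
          rw [ve_swap]; rfl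
        have e' : ∀ (a : ℕ) (ha : 0 + 2 ≤ a) (ha' : 0 + a ≤ n), ve (sh 0 ha') (sh_injective _ _)
            (ve (sh 0 ha) (sh_injective _ _) (swap 0 1)) = ve (sh 0 (by omega : 0 + 2 ≤ n)) (sh_injective _ _) (swap 0 1) := by
          intro a ha ha'
          rw [ve_sh_sh]
        change Φ' (pm2 2 (k + 4) (two_zero hF) (swap 0 1)) =
          t (ve (sh 0 (by omega : 0 + (k + 4) ≤ n)) (sh_injective _ _) (swap 0 1))
        rw [e, ← emb_pm2 hF, h2, MonoidHom.comp_apply, emb_emb, emb_pm2, ← G.b, e', e']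
    intro σ
    have h4 : σ ∈ (Φ'.comp (pm2 2 (k + 4) (two_zero hF))).eqLocus
        (t.comp (ve (sh 0 (by omega : 0 + (k + 4) ≤ n)) (sh_injective _ _))) := by rw [h3]; trivial
    exact h4
  refine ⟨Φ', hp, ?_⟩
  intro x
  obtain ⟨c, hc⟩ := exists_perm_ext (sh 0 (by omega : 0 + 3 ≤ k + 4)) (sh 1 (by omega : 1 + 3 ≤ k + 4))
    (sh_injective _ _) (sh_injective _ _)
  have h3 : Φ' (emb hF 1 (by omega : 1 + (k + 3) ≤ k + 4) (emb hF 0 (by omega : 0 + 3 ≤ k + 3) x)) =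
      t C * γ (emb hF 0 (by omega) x) * (t C)⁻¹ := by
    rw [h1, cjh_apply, E.s]
  have h4 : emb hF 1 (by omega : 1 + (k + 3) ≤ k + 4) (emb hF 0 (by omega : 0 + 3 ≤ k + 3) x) =
      pm2 2 (k + 4) (two_zero hF) c * emb hF 0 (by omega) x * (pm2 2 (k + 4) (two_zero hF) c)⁻¹ := by
    have h5 := pm2_ext' hF (two_zero hF) c (sh 0 (by omega : 0 + 3 ≤ k + 4)) (sh_injective _ _) x
    rw [emb_emb, emb, emb, h5]
    exact ext_congr hF _ _ hc.symm x
  have h6 := G.wd3 (ρ := C) (ρ' := ve (sh 0 (by omega : 0 + (k + 4) ≤ n)) (sh_injective _ _) c) (by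
    intro i hi
    apply Fin.ext
    rw [hCi hkn hC i (by omega)]
    have h7 : i = sh 0 (by omega : 0 + (k + 4) ≤ n) (sh 0 (by omega : 0 + 3 ≤ k + 4) ⟨i, hi⟩) := by
      apply Fin.ext; simp only [sh_val]; omega
    conv_rhs => rw [h7]
    rw [ve_apply]
    have h8 := congrFun hc ⟨i, hi⟩
    rw [Function.comp_apply] at h8
    rw [h8]
    simp only [sh_val]
    omega) x
  rw [h4, map_mul, map_mul, map_inv, hp, h6] at h3
  exact mul_left_cancel (mul_right_cancel h3)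

theorem Glue2.exists_pext (k : ℕ) (hk : 1 ≤ k) (hkn : k + 3 ≤ n) :
    ∃ Φ : SU (k + 3) F 2 →* Q, PExt hF γ t (by omega) hkn Φ := by
  induction k, hk using Nat.le_induction with
  | base =>
    refine ⟨γ, ?_, ?_⟩
    · intro σ
      exact (G.b σ).symm
    · intro x; rfl
  | succ k hk ih =>
    obtain ⟨Φ, E⟩ := ih (by omega)
    exact G.step hk hkn Φ E

/-- **the extension** -/
theorem Glue2.exists_hom : ∃ Φ : SU n F 2 →* Q, (∀ x : SU 4 F 2, Φ (emb hF 0 (by omega) x) = γ x) ∧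
    ∀ σ, Φ (pm2 2 n (two_zero hF) σ) = t σ := by
  obtain ⟨k, rfl⟩ : ∃ k, n = k + 3 := ⟨n - 3, by omega⟩
  obtain ⟨Φ, E⟩ := G.exists_pext k (by omega) le_rfl
  have hp : ∀ σ, Φ (pm2 2 (k + 3) (two_zero hF) σ) = t σ := by
    intro σ
    rw [E.p, ve_self]
  refine ⟨Φ, ?_, hp⟩
  have h1 := gen_two hF 1 ((Φ.comp (emb hF 0 (by omega : 0 + 4 ≤ k + 3))).eqLocus γ) ?_ ?_
  · intro x
    have h2 : x ∈ (Φ.comp (emb hF 0 (by omega : 0 + 4 ≤ k + 3))).eqLocus γ := by rw [h1]; trivial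
    exact h2
  · intro σ
    change Φ (emb hF 0 (by omega : 0 + 4 ≤ k + 3) (pm2 2 4 (two_zero hF) σ)) = γ (pm2 2 4 (two_zero hF) σ)
    rw [emb_pm2, hp, G.b]
  · intro x
    change Φ (emb hF 0 (by omega : 0 + 4 ≤ k + 3) (emb hF 0 (by omega : 0 + 3 ≤ 4) x)) = γ (emb hF 0 (by omega : 0 + 3 ≤ 4) x)
    rw [emb_emb]
    exact E.s x

end

end Cfsg.Agent.H112
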