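import Cfsg.Agent.S2402
import Cfsg.Agent.S2403
import Cfsg.Agent.TwoFusion.SLTwoFacts
import Cfsg.Agent.Phan.SU2Model
set_option linter.all false

/-!
# `SU 2 F q` is generated by two elements, `q ≥ 3` (helper112)
-/

set_option autoImplicit false

namespace Cfsg.Agent.H112

open Matrix Cfsg Cfsg.Agent.Phan
open scoped commutatorElement

theorem closure_of_sup_center {G : Type*} [Group G] (H : Subgroup G) (h : H ⊔ Subgroup.center G = ⊤)
    (hp : commutator G = ⊤) : H = ⊤ := by
  rw [eq_top_iff, ← hp, commutator_def, Subgroup.commutator_le]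
  intro a _ b _
  have key : ∀ g : G, ∃ x ∈ H, ∃ z ∈ Subgroup.center G, x * z = g := by
    intro g
    have : g ∈ H ⊔ Subgroup.center G := by rw [h]; trivial
    exact Subgroup.mem_sup_of_normal_right.1 this
  obtain ⟨x, hx, z, hz, rfl⟩ := key a
  obtain ⟨y, hy, w, hw, rfl⟩ := key b
  rw [Subgroup.mem_center_iff] at hz hw
  have h1 : ⁅x * z, y * w⁆ = ⁅x, y⁆ := by
    rw [commutatorElement_def, commutatorElement_def]
    have e1 := hz (y * w)
    have e2 := hw x
    calc x * z * (y * w) * (x * z)⁻¹ * (y * w)⁻¹ = x * (z * (y * w)) * z⁻¹ * x⁻¹ * (w⁻¹ * y⁻¹) := by group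
      _ = x * (y * w * z) * z⁻¹ * x⁻¹ * (w⁻¹ * y⁻¹) := by rw [← e1]
      _ = x * y * (w * x⁻¹) * w⁻¹ * y⁻¹ := by group
      _ = x * y * (x⁻¹ * w) * w⁻¹ * y⁻¹ := by rw [hw x⁻¹]
      _ = _ := by group
  rw [h1]
  rw [commutatorElement_def]
  exact H.mul_mem (H.mul_mem (H.mul_mem hx hy) (H.inv_mem hx)) (H.inv_mem hy)

theorem range_pair {G : Type*} (a b : G) : Set.range ![a, b] = {a, b} := by
  ext z
  constructor
  · rintro ⟨i, rfl⟩
    fin_cases i
    · exact Or.inl rfl
    · exact Or.inr rfl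
  · rintro (rfl | rfl)
    · exact ⟨0, rfl⟩
    · exact ⟨1, rfl⟩

theorem sl2_two {K : Type*} [Field K] [Fintype K] (hK : 3 ≤ Fintype.card K) :
    ∃ x : Fin 2 → SpecialLinearGroup (Fin 2) K, Subgroup.closure (Set.range x) = ⊤ := by
  classical
  have dt : (transvection (0 : Fin 2) 1 (1 : K)).det = 1 := by
    rw [Matrix.det_transvection_of_ne]; decide
  let x : SpecialLinearGroup (Fin 2) K := ⟨transvection (0 : Fin 2) 1 1, dt⟩
  have dw : (Matrix.of (fun i j : Fin (1 + 1) => if j.val = i.val + 1 then (1 : K) else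
      if i.val = 1 ∧ j.val = 0 then (-1) ^ 1 else 0)).det = 1 := by
    rw [Matrix.det_fin_two]; simp
  let w : SpecialLinearGroup (Fin 2) K := ⟨Matrix.of (fun i j : Fin (1 + 1) => if j.val = i.val + 1 then (1 : K) else
      if i.val = 1 ∧ j.val = 0 then (-1) ^ 1 else 0), dw⟩
  rcases Nat.lt_or_ge 3 (Fintype.card K) with h | h
  · obtain ⟨k, hk⟩ := IsCyclic.exists_generator (α := Kˣ)
    have dh : (Matrix.diagonal (fun i : Fin (1 + 1) => if i.val = 0 then (k : K) else if i.val = 1 then ((k⁻¹ : Kˣ) : K)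
        else 1)).det = 1 := by
      rw [Matrix.det_fin_two]; simp
    let t : SpecialLinearGroup (Fin 2) K := ⟨Matrix.diagonal (fun i : Fin (1 + 1) => if i.val = 0 then (k : K) else
      if i.val = 1 then ((k⁻¹ : Kˣ) : K) else 1), dh⟩
    have h1 := Cfsg.Agent.S2402.result h 1 le_rfl k hk t x w rfl rfl rfl
    have h2 := closure_of_sup_center _ h1 (Cfsg.Agent.TwoFusion.SLTwoFacts.commutator_eq_top h)
    exact ⟨![t, x * w], by rw [range_pair]; exact h2⟩
  · have h1 := Cfsg.Agent.S2403.result h 1 le_rfl x w rfl rfl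
    refine ⟨![x, w], ?_⟩
    rw [range_pair, ← h1, eq_comm, sup_eq_left]
    intro z hz
    have hz2 : z = 1 ∨ z = w * w := by
      rw [Matrix.SpecialLinearGroup.mem_center_iff] at hz
      obtain ⟨r, hr, hz⟩ := hz
      rw [Fintype.card_fin] at hr
      have hr' : (r - 1) * (r + 1) = 0 := by linear_combination hr
      rcases mul_eq_zero.1 hr' with h | h
      · left
        apply Subtype.ext
        have h' : r = 1 := by linear_combination h
        rw [← hz, h']; simp
      · right
        apply Subtype.ext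
        have h' : r = -1 := by linear_combination h
        rw [← hz, h']
        change _ = w.1 * w.1
        ext i j
        fin_cases i <;> fin_cases j <;> simp [w, Matrix.mul_apply, Fin.sum_univ_two]
    rcases hz2 with rfl | rfl
    · exact one_mem _
    · exact mul_mem (Subgroup.subset_closure (Or.inr rfl)) (Subgroup.subset_closure (Or.inr rfl))

/-- **two generators of `SU 2`** -/
theorem su2_two {F : Type*} [Field F] {q : ℕ} [Fintype F] (hF : Fintype.card F = q ^ 2) (hq : 3 ≤ q) :
    ∃ x : Fin 2 → SU 2 F q, Subgroup.closure (Set.range x) = ⊤ := by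
  classical
  obtain ⟨P, Q, _, _, θ, -⟩ := exists_model hF
  have hc := card_fixedField hF
  obtain ⟨x, hx⟩ := sl2_two (K := fixedField hF) (by rw [← Nat.card_eq_fintype_card, hc]; exact hq)
  refine ⟨fun i => θ (x i), ?_⟩
  have h1 : Set.range (fun i => θ (x i)) = θ.toMonoidHom '' Set.range x := by
    rw [← Set.range_comp]; rfl
  rw [h1, ← MonoidHom.map_closure, hx, ← MonoidHom.range_eq_map]
  exact MonoidHom.range_eq_top.2 θ.surjective

/-- two generators of the symmetric group -/
theorem perm_two (m : ℕ) (hm : 2 ≤ m) :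
    ∃ σ : Fin 2 → Equiv.Perm (Fin m), Subgroup.closure (Set.range σ) = ⊤ := by
  obtain ⟨n, rfl⟩ : ∃ n, m = n + 2 := ⟨m - 2, by omega⟩
  refine ⟨![finRotate (n + 2), Equiv.swap 0 (finRotate (n + 2) 0)], ?_⟩
  rw [range_pair]
  exact Equiv.Perm.closure_cycle_adjacent_swap isCycle_finRotate (by rw [support_finRotate]) 0

end Cfsg.Agent.H112
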