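import Cfsg.Agent.H112.Glue2Fin
import Cfsg.Agent.H112.ReflGen
import Cfsg.Agent.H112.SU2Gen
import Cfsg.Agent.H110.AltPres
set_option linter.all false

/-!
# Presentations of `SU n (2)` (helper112)
-/

set_option autoImplicit false

namespace Cfsg.Agent.H112

open Matrix Cfsg Cfsg.Agent.Phan Cfsg.Agent.H434
open Cfsg.Agent.LieClassical.HermBasic
open Equiv (Perm swap)

universe u

/-- a commutator relator -/
def cr {G : Type*} [Group G] (a b : G) : G := a * b * (b * a)⁻¹

theorem cr_eq_one {G : Type*} [Group G] {a b : G} : cr a b = 1 ↔ Commute a b := mul_inv_eq_one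

theorem map_cr {G H : Type*} [Group G] [Group H] (f : G →* H) (a b : G) : f (cr a b) = cr (f a) (f b) := by
  rw [cr, cr, map_mul, map_mul, map_inv, map_mul]

section

variable {F : Type*} [Field F] [Fintype F]

theorem gf_concrete (hF : Fintype.card F = 2 ^ 2) (m : ℕ) (hm : 2 ≤ m) (x : Fin 4 → SU 3 F 2) (σ : Fin 2 → Perm (Fin 4))
    (τ : Fin 2 → Perm (Fin m)) : GF hF m hm x σ τ (emb hF 0 (by omega : 0 + 4 ≤ m + 3)) (pm2 2 (m + 3) (two_zero hF)) := by
  refine ⟨?_, ?_⟩
  · intro i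
    rw [emb_pm2]
  · intro i j
    apply commute_of_conj
    rw [emb_emb, emb, pm2_ext']
    apply ext_congr
    funext k
    apply ve_notMem
    rw [notMem_sh_iff]
    left
    simp only [sh_val]; omega

/-- a permutation carrying `0, 1` to `3, 4` -/
noncomputable def r5 (m : ℕ) (hm : 2 ≤ m) : Perm (Fin (m + 3)) :=
  ve (sh 0 (by omega : 0 + 5 ≤ m + 3)) (sh_injective _ _) (swap 0 3 * swap 1 4)

theorem dec5 : ∀ i : Fin 2, (swap (0 : Fin 5) 3 * swap 1 4 : Perm (Fin 5)) (sh 0 (by omega : 0 + 2 ≤ 5) i) =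
    sh 3 (by omega : 3 + 2 ≤ 5) i := by decide

theorem r5_apply (m : ℕ) (hm : 2 ≤ m) (i : Fin (m + 3)) (hi : (i : ℕ) < 2) : (r5 m hm i : ℕ) = i + 3 := by
  have h4 : i = sh 0 (by omega : 0 + 5 ≤ m + 3) (sh 0 (by omega : 0 + 2 ≤ 5) ⟨i, hi⟩) := by
    apply Fin.ext; simp only [sh_val]; omega
  conv_lhs => rw [h4]
  rw [r5, ve_apply, dec5]
  simp only [sh_val]
  omega

theorem concrete_comm (hF : Fintype.card F = 2 ^ 2) {n k l : ℕ} (hk : 0 + k ≤ n) (hl : 0 + l ≤ n) (ρ : Perm (Fin n))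
    (hρ : ∀ i : Fin n, (i : ℕ) < l → k ≤ (ρ i : ℕ)) (y : SU k F 2) (z : SU l F 2) :
    Commute (emb hF 0 hk y) (pm2 2 n (two_zero hF) ρ * emb hF 0 hl z * (pm2 2 n (two_zero hF) ρ)⁻¹) := by
  have h1 : pm2 2 n (two_zero hF) ρ * emb hF 0 hl z * (pm2 2 n (two_zero hF) ρ)⁻¹ =
      ext hF (ρ ∘ (sh 0 hl)) (ρ.injective.comp (sh_injective _ _)) z := by
    rw [emb, pm2_ext']
  rw [h1, emb]
  apply ext_comm
  intro i j hij
  have h2 := congrArg Fin.val hij
  have h3 := hρ (sh 0 hl j) (by simp only [sh_val]; omega)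
  rw [Function.comp_apply] at h2
  rw [← h2] at h3
  simp only [sh_val] at h3
  omega

end

variable {F : Type u} [Field F] [Fintype F]

/-- **the gluing theorem** -/
theorem quo_glue2 (hF : Fintype.card F = 2 ^ 2) (m : ℕ) (hm : 2 ≤ m) (x : Fin 4 → SU 3 F 2) (σ : Fin 2 → Perm (Fin 4))
    (τ : Fin 2 → Perm (Fin m)) (extra : List (Monoid.Coprod (SU 4 F 2) (Perm (Fin (m + 3)))))
    (hE : ∀ r ∈ extra, Monoid.Coprod.lift (emb hF 0 (by omega : 0 + 4 ≤ m + 3)) (pm2 2 (m + 3) (two_zero hF)) r = 1)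
    (H : ∀ (Q : Type u) [Group Q] (φ : Monoid.Coprod (SU 4 F 2) (Perm (Fin (m + 3))) →* Q),
      (∀ r ∈ extra, φ r = 1) → GF hF m hm x σ τ (φ.comp Monoid.Coprod.inl) (φ.comp Monoid.Coprod.inr) →
      Glue2 hF (m + 3) (by omega) (φ.comp Monoid.Coprod.inl) (φ.comp Monoid.Coprod.inr)) :
    H111.Quo (Monoid.Coprod (SU 4 F 2) (Perm (Fin (m + 3)))) (SU (m + 3) F 2) (10 + extra.length) := by
  classical
  set f := Monoid.Coprod.lift (emb hF 0 (by omega : 0 + 4 ≤ m + 3)) (pm2 2 (m + 3) (two_zero hF)) with hf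
  have f1 : f.comp Monoid.Coprod.inl = emb hF 0 (by omega : 0 + 4 ≤ m + 3) := by ext x; simp [hf]
  have f2 : f.comp Monoid.Coprod.inr = pm2 2 (m + 3) (two_zero hF) := by ext x; simp [hf]
  let relB : Fin 2 → Monoid.Coprod (SU 4 F 2) (Perm (Fin (m + 3))) := fun i =>
    Monoid.Coprod.inr (ve (sh 0 (by omega)) (sh_injective 0 (by omega : 0 + 4 ≤ m + 3)) (σ i)) *
      (Monoid.Coprod.inl (pm2 2 4 (two_zero hF) (σ i)))⁻¹
  let relC : Fin 2 × Fin 4 → Monoid.Coprod (SU 4 F 2) (Perm (Fin (m + 3))) := fun p =>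
    cr (Monoid.Coprod.inr (ve (sh 3 (by omega)) (sh_injective 3 (by omega : 3 + m ≤ m + 3)) (τ p.1)))
      (Monoid.Coprod.inl (emb hF 0 (by omega : 0 + 3 ≤ 4) (x p.2)))
  let L := (List.finRange 2).map relB ++ (List.finRange 2 ×ˢ List.finRange 4).map relC
  have hL : L.length = 10 := by
    simp only [L, List.length_append, List.length_map, List.length_finRange, List.length_product]
  have hLiff : ∀ {Q : Type u} [Group Q] (φ : Monoid.Coprod (SU 4 F 2) (Perm (Fin (m + 3))) →* Q),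
      (∀ r ∈ L, φ r = 1) ↔ GF hF m hm x σ τ (φ.comp Monoid.Coprod.inl) (φ.comp Monoid.Coprod.inr) := by
    intro Q _ φ
    constructor
    · intro h
      refine ⟨?_, ?_⟩
      · intro i
        have h1 := h (relB i) (List.mem_append_left _ (List.mem_map_of_mem (List.mem_finRange i)))
        simp only [relB] at h1
        rw [map_mul, map_inv, mul_inv_eq_one] at h1
        exact h1
      · intro i j
        have h1 := h (relC (i, j)) (List.mem_append_right _ (List.mem_map_of_mem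
          (List.mem_product.2 ⟨List.mem_finRange _, List.mem_finRange _⟩)))
        simp only [relC] at h1
        rw [map_cr, cr_eq_one] at h1
        exact h1
    · intro G r hr
      rw [List.mem_append, List.mem_map, List.mem_map] at hr
      rcases hr with ⟨i, -, rfl⟩ | ⟨p, -, rfl⟩
      · simp only [relB]
        rw [map_mul, map_inv, mul_inv_eq_one]
        exact G.b i
      · simp only [relC]
        rw [map_cr, cr_eq_one]
        exact G.c p.1 p.2
  have h1 := H111.Quo.of_univ f ?_ (L ++ extra) ?_ ?_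
  · rw [List.length_append, hL] at h1
    exact h1
  · -- surjectivity
    rw [← MonoidHom.range_eq_top]
    refine gen_two hF m _ ?_ ?_
    · intro s
      exact ⟨Monoid.Coprod.inr s, by rw [hf, Monoid.Coprod.lift_apply_inr]⟩
    · intro y
      exact ⟨Monoid.Coprod.inl (emb hF 0 (by omega) y), by rw [hf, Monoid.Coprod.lift_apply_inl, emb_emb]⟩
  · intro r hr
    rw [List.mem_append] at hr
    rcases hr with hr | hr
    · exact (hLiff f).2 (by rw [f1, f2]; exact gf_concrete hF m hm x σ τ) r hr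
    · exact hE r hr
  · intro φ hφ
    have G1 := (hLiff φ).1 (fun r hr => hφ r (List.mem_append_left _ hr))
    have G := H _ φ (fun r hr => hφ r (List.mem_append_right _ hr)) G1
    obtain ⟨Φ, hΦ1, hΦ2⟩ := G.exists_hom
    have e : φ = Φ.comp f := by
      apply Monoid.Coprod.hom_ext
      · rw [MonoidHom.comp_assoc, f1]
        ext y
        exact (hΦ1 y).symm
      · rw [MonoidHom.comp_assoc, f2]
        ext y
        exact (hΦ2 y).symm
    intro y hy
    rw [MonoidHom.mem_ker] at hy ⊢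
    rw [e, MonoidHom.comp_apply, hy, map_one]

theorem quo_two_six (hF : Fintype.card F = 2 ^ 2) (m : ℕ) (hm : 3 ≤ m) :
    H111.Quo (Monoid.Coprod (SU 4 F 2) (Perm (Fin (m + 3)))) (SU (m + 3) F 2) 20 := by
  classical
  obtain ⟨x, hx⟩ := extra_three hF
  obtain ⟨σ, hσ⟩ := perm_two 4 (by norm_num)
  obtain ⟨τ, hτ⟩ := perm_two m (by omega)
  let R : Fin 4 × Fin 4 → Monoid.Coprod (SU 4 F 2) (Perm (Fin (m + 3))) := fun p =>
    cr (Monoid.Coprod.inl (emb hF 0 (by omega : 0 + 3 ≤ 4) (x p.1)))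
      (Monoid.Coprod.inr (r6 (n := m + 3) (by omega)) * Monoid.Coprod.inl (emb hF 0 (by omega : 0 + 3 ≤ 4) (x p.2)) *
        (Monoid.Coprod.inr (r6 (n := m + 3) (by omega)))⁻¹)
  have h := quo_glue2 hF m (by omega) x σ τ (((List.finRange 4 ×ˢ List.finRange 4).filter (fun p => p.1 ≤ p.2)).map R) ?_ ?_
  · have hl : ((List.finRange 4 ×ˢ List.finRange 4).filter (fun p => decide (p.1 ≤ p.2))).length = 10 := by decide
    rw [List.length_map, hl] at h
    exact h
  · intro r hr
    rw [List.mem_map] at hr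
    obtain ⟨p, -, rfl⟩ := hr
    simp only [R]
    rw [map_cr, cr_eq_one, map_mul, map_mul, map_inv, Monoid.Coprod.lift_apply_inl, Monoid.Coprod.lift_apply_inl,
      Monoid.Coprod.lift_apply_inr, emb_emb, emb_emb]
    exact concrete_comm hF _ _ _ (fun i hi => by rw [r6_apply _ i (by omega)]; omega) _ _
  · intro Q _ φ hφ G
    have hmul : (φ.comp Monoid.Coprod.inr) (r6 (n := m + 3) (by omega)) * (φ.comp Monoid.Coprod.inr) (r6 (n := m + 3) (by omega)) = 1 := by
      rw [← map_mul, r6_mul, map_one]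
    have hinv : ((φ.comp Monoid.Coprod.inr) (r6 (n := m + 3) (by omega)))⁻¹ = (φ.comp Monoid.Coprod.inr) (r6 (n := m + 3) (by omega)) :=
      inv_eq_of_mul_eq_one_right hmul
    have h0 : ∀ i j : Fin 4, i ≤ j → Commute ((φ.comp Monoid.Coprod.inl) (emb hF 0 (by omega : 0 + 3 ≤ 4) (x i)))
        ((φ.comp Monoid.Coprod.inr) (r6 (n := m + 3) (by omega)) * (φ.comp Monoid.Coprod.inl) (emb hF 0 (by omega : 0 + 3 ≤ 4) (x j)) *
          ((φ.comp Monoid.Coprod.inr) (r6 (n := m + 3) (by omega)))⁻¹) := by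
      intro i j hij
      have h1 := hφ (R (i, j)) (List.mem_map_of_mem (List.mem_filter.2 ⟨List.mem_product.2
        ⟨List.mem_finRange _, List.mem_finRange _⟩, by simpa using hij⟩))
      simp only [R] at h1
      rw [map_cr, cr_eq_one, map_mul, map_mul, map_inv] at h1
      exact h1
    have h0' : ∀ i j : Fin 4, Commute ((φ.comp Monoid.Coprod.inl) (emb hF 0 (by omega : 0 + 3 ≤ 4) (x i)))
        ((φ.comp Monoid.Coprod.inr) (r6 (n := m + 3) (by omega)) * (φ.comp Monoid.Coprod.inl) (emb hF 0 (by omega : 0 + 3 ≤ 4) (x j)) *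
          ((φ.comp Monoid.Coprod.inr) (r6 (n := m + 3) (by omega)))⁻¹) := by
      intro i j
      rcases le_total i j with h | h
      · exact h0 i j h
      · have h1 := h0 j i h
        generalize (φ.comp Monoid.Coprod.inl) (emb hF 0 (by omega : 0 + 3 ≤ 4) (x j)) = a at h1 ⊢
        generalize (φ.comp Monoid.Coprod.inl) (emb hF 0 (by omega : 0 + 3 ≤ 4) (x i)) = b at h1 ⊢
        generalize (φ.comp Monoid.Coprod.inr) (r6 (n := m + 3) (by omega)) = w at hmul hinv h1 ⊢
        have h2 := h1.map (MulAut.conj w).toMonoidHom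
        have h3 : (MulAut.conj w).toMonoidHom (w * b * w⁻¹) = b := by
          change w * (w * b * w⁻¹) * w⁻¹ = b
          rw [hinv]
          calc w * (w * b * w) * w = (w * w) * b * (w * w) := by group
            _ = b := by rw [hmul]; group
        rw [h3] at h2
        exact h2.symm
    have hbase : ∀ (y z : SU 3 F 2), Commute ((φ.comp Monoid.Coprod.inl) (emb hF 0 (by omega : 0 + 3 ≤ 4) y))
        ((φ.comp Monoid.Coprod.inr) (r6 (n := m + 3) (by omega)) * (φ.comp Monoid.Coprod.inl) (emb hF 0 (by omega : 0 + 3 ≤ 4) z) *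
          ((φ.comp Monoid.Coprod.inr) (r6 (n := m + 3) (by omega)))⁻¹) := by
      intro y z
      refine comm_gen ((φ.comp Monoid.Coprod.inl).comp (emb hF 0 (by omega : 0 + 3 ≤ 4)))
        (cjh ((φ.comp Monoid.Coprod.inr) (r6 (n := m + 3) (by omega))) ((φ.comp Monoid.Coprod.inl).comp (emb hF 0 (by omega : 0 + 3 ≤ 4))))
        hx hx ?_ y z
      rintro _ (⟨s, rfl⟩ | ⟨i, rfl⟩) _ (⟨s', rfl⟩ | ⟨j, rfl⟩)
      · exact G.p3 hx hσ hτ _ (fun i hi => r6_apply _ i hi) s _
      · exact G.p3 hx hσ hτ _ (fun i hi => r6_apply _ i hi) s _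
      · exact G.q3 hx hσ hτ (by omega) _ (fun i hi => r6_apply _ i hi) s' _
      · exact h0' i j
    have he := G.he_of hx hσ hτ hm _ (fun i hi => r6_apply _ i hi) hbase
    refine ⟨G.hb hσ, G.hc hx hσ hτ, ?_, fun _ => he⟩
    intro ρ hρ y z
    -- from `SU 3`
    obtain ⟨ρ', h1, h2⟩ : ∃ ρ' : Perm (Fin (m + 3)), (∀ i : Fin (m + 3), (i : ℕ) < 3 → 3 ≤ (ρ' i : ℕ)) ∧
        ∀ i : Fin (m + 3), (i : ℕ) < 2 → ρ i = ρ' i := by
      have hsmall : ∀ i : Fin (m + 3), (i : ℕ) < 3 → (i : ℕ) < 2 ∨ i = ⟨2, by omega⟩ := by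
        intro i hi
        rcases Nat.lt_or_ge (i : ℕ) 2 with h | h
        · exact Or.inl h
        · right; apply Fin.ext; simp only; omega
      by_cases h2 : 3 ≤ (ρ ⟨2, by omega⟩ : ℕ)
      · refine ⟨ρ, ?_, fun _ _ => rfl⟩
        intro i hi
        rcases hsmall i hi with h | rfl
        · exact hρ i h
        · exact h2
      · push Not at h2
        obtain ⟨k, hk, hk0, hk1⟩ : ∃ k : Fin (m + 3), 3 ≤ (k : ℕ) ∧ k ≠ ρ ⟨0, by omega⟩ ∧ k ≠ ρ ⟨1, by omega⟩ := by
          by_contra hc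
          push Not at hc
          have a3 := hc ⟨3, by omega⟩ (by simp)
          have a4 := hc ⟨4, by omega⟩ (by simp)
          have a5 := hc ⟨5, by omega⟩ (by simp)
          have v : ∀ {a b : Fin (m + 3)}, a = b → (a : ℕ) = b := fun h => congrArg Fin.val h
          by_cases b3 : (⟨3, by omega⟩ : Fin (m + 3)) = ρ ⟨0, by omega⟩
          · have b4 : (⟨4, by omega⟩ : Fin (m + 3)) ≠ ρ ⟨0, by omega⟩ := fun h => by
              have := v (b3.trans h.symm); simp at this
            have b5 : (⟨5, by omega⟩ : Fin (m + 3)) ≠ ρ ⟨0, by omega⟩ := fun h => by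
              have := v (b3.trans h.symm); simp at this
            have := v ((a4 b4).trans (a5 b5).symm)
            simp at this
          · by_cases b4 : (⟨4, by omega⟩ : Fin (m + 3)) = ρ ⟨0, by omega⟩
            · have b5 : (⟨5, by omega⟩ : Fin (m + 3)) ≠ ρ ⟨0, by omega⟩ := fun h => by
                have := v (b4.trans h.symm); simp at this
              have := v ((a3 b3).trans (a5 b5).symm)
              simp at this
            · have := v ((a3 b3).trans (a4 b4).symm)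
              simp at this
        have hk01 : ∀ i : Fin (m + 3), (i : ℕ) < 2 → k ≠ ρ i := by
          intro i hi
          rcases Nat.lt_or_ge (i : ℕ) 1 with h | h
          · have : i = ⟨0, by omega⟩ := by apply Fin.ext; simp only; omega
            rw [this]; exact hk0
          · have : i = ⟨1, by omega⟩ := by apply Fin.ext; simp only; omega
            rw [this]; exact hk1
        have hne : ∀ i : Fin (m + 3), (i : ℕ) < 2 → ρ i ≠ ρ ⟨2, by omega⟩ := by
          intro i hi h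
          have := congrArg Fin.val (ρ.injective h)
          simp only at this
          omega
        refine ⟨swap (ρ ⟨2, by omega⟩) k * ρ, ?_, ?_⟩
        · intro i hi
          rw [Equiv.Perm.mul_apply]
          rcases hsmall i hi with h | rfl
          · rw [Equiv.swap_apply_of_ne_of_ne (hne i h) (hk01 i h).symm]
            exact hρ i h
          · rw [Equiv.swap_apply_left]; exact hk
        · intro i hi
          rw [Equiv.Perm.mul_apply, Equiv.swap_apply_of_ne_of_ne (hne i hi) (hk01 i hi).symm]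
    rw [G.w2 hx hσ hτ h2 z]
    have h3 := he ρ' h1 y (emb hF 0 (by omega) z)
    rw [emb_emb] at h3
    exact h3

theorem quo_two_five (hF : Fintype.card F = 2 ^ 2) :
    H111.Quo (Monoid.Coprod (SU 4 F 2) (Perm (Fin (2 + 3)))) (SU (2 + 3) F 2) 14 := by
  classical
  obtain ⟨x, hx⟩ := extra_three hF
  obtain ⟨x2, hx2⟩ := extra_two hF
  obtain ⟨σ, hσ⟩ := perm_two 4 (by norm_num)
  obtain ⟨τ, hτ⟩ := perm_two 2 le_rfl
  let R : Fin 4 → Monoid.Coprod (SU 4 F 2) (Perm (Fin (2 + 3))) := fun i =>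
    cr (Monoid.Coprod.inl (emb hF 0 (by omega : 0 + 3 ≤ 4) (x i)))
      (Monoid.Coprod.inr (r5 2 le_rfl) * Monoid.Coprod.inl (emb hF 0 (by omega : 0 + 2 ≤ 4) (x2 0)) *
        (Monoid.Coprod.inr (r5 2 le_rfl))⁻¹)
  have h := quo_glue2 hF 2 le_rfl x σ τ ((List.finRange 4).map R) ?_ ?_
  · rw [List.length_map, List.length_finRange] at h
    exact h
  · intro r hr
    rw [List.mem_map] at hr
    obtain ⟨p, -, rfl⟩ := hr
    simp only [R]
    rw [map_cr, cr_eq_one, map_mul, map_mul, map_inv, Monoid.Coprod.lift_apply_inl, Monoid.Coprod.lift_apply_inl,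
      Monoid.Coprod.lift_apply_inr, emb_emb, emb_emb]
    exact concrete_comm hF _ _ _ (fun i hi => by rw [r5_apply _ _ i (by omega)]; omega) _ _
  · intro Q _ φ hφ G
    have h0 : ∀ i : Fin 4, Commute ((φ.comp Monoid.Coprod.inl) (emb hF 0 (by omega : 0 + 3 ≤ 4) (x i)))
        ((φ.comp Monoid.Coprod.inr) (r5 2 le_rfl) * (φ.comp Monoid.Coprod.inl) (emb hF 0 (by omega : 0 + 2 ≤ 4) (x2 0)) *
          ((φ.comp Monoid.Coprod.inr) (r5 2 le_rfl))⁻¹) := by
      intro i
      have h1 := hφ (R i) (List.mem_map_of_mem (List.mem_finRange _))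
      simp only [R] at h1
      rw [map_cr, cr_eq_one, map_mul, map_mul, map_inv] at h1
      exact h1
    have hbase : ∀ (y : SU 3 F 2) (z : SU 2 F 2), Commute ((φ.comp Monoid.Coprod.inl) (emb hF 0 (by omega : 0 + 3 ≤ 4) y))
        ((φ.comp Monoid.Coprod.inr) (r5 2 le_rfl) * (φ.comp Monoid.Coprod.inl) (emb hF 0 (by omega : 0 + 2 ≤ 4) z) *
          ((φ.comp Monoid.Coprod.inr) (r5 2 le_rfl))⁻¹) := by
      intro y z
      refine comm_gen ((φ.comp Monoid.Coprod.inl).comp (emb hF 0 (by omega : 0 + 3 ≤ 4)))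
        (cjh ((φ.comp Monoid.Coprod.inr) (r5 2 le_rfl)) ((φ.comp Monoid.Coprod.inl).comp (emb hF 0 (by omega : 0 + 2 ≤ 4))))
        hx hx2 ?_ y z
      rintro _ (⟨s, rfl⟩ | ⟨i, rfl⟩) _ (⟨s', rfl⟩ | ⟨j, rfl⟩)
      · exact G.p2 hx hσ hτ _ (fun i hi => r5_apply _ _ i hi) s _
      · exact G.p2 hx hσ hτ _ (fun i hi => r5_apply _ _ i hi) s _
      · exact G.q3 hx hσ hτ (by omega) _ (fun i hi => r5_apply _ _ i hi) s' _
      · have : j = 0 := Subsingleton.elim _ _
        rw [this]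
        exact h0 i
    refine ⟨G.hb hσ, G.hc hx hσ hτ, G.hd_of hx hσ hτ _ (fun i hi => r5_apply _ _ i hi) hbase, ?_⟩
    intro h
    omega

/-- **`SU n (2)`** -/
theorem pres_two (hF : Fintype.card F = 2 ^ 2) (n : ℕ) (hn : 4 ≤ n) : H111.HasPres (SU n F 2) 6 36 ∧
    (n = 4 ∨ n = 5 → H111.HasPres (SU n F 2) 6 30) := by
  rcases Nat.lt_or_ge n 5 with h | h
  · obtain rfl : n = 4 := by omega
    have h1 := (Refl.pres_SU4 hF).add 2
    exact ⟨h1.mono (by norm_num), fun _ => h1.mono (by norm_num)⟩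
  · rcases Nat.lt_or_ge n 6 with h' | h'
    · obtain rfl : n = 5 := by omega
      have h1 : H111.HasPres (SU 5 F 2) 6 30 :=
        ((Refl.pres_SU4 hF).coprod (H110.AltPres.hasPres_perm_two _)).quo_le (quo_two_five hF) (by norm_num)
      exact ⟨h1.mono (by norm_num), fun _ => h1⟩
    · obtain ⟨m, rfl⟩ : ∃ m, n = m + 3 := ⟨n - 3, by omega⟩
      exact ⟨((Refl.pres_SU4 hF).coprod (H110.AltPres.hasPres_perm_two _)).quo_le (quo_two_six hF m (by omega)) (by norm_num),
        fun h => by omega⟩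

end Cfsg.Agent.H112
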