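import Cfsg.Agent.H112.GlueFin
import Cfsg.Agent.H112.AltGen
import Cfsg.Agent.H111.Pres
import Cfsg.Agent.H433.PhanFour
set_option linter.all false

/-!
# `SU n` as a quotient of the free product of `SU 3` and the alternating group (helper112)
-/

set_option autoImplicit false

namespace Cfsg.Agent.H112

open Matrix Cfsg Cfsg.Agent.Phan
open Cfsg.Agent.LieClassical.HermBasic
open Equiv (Perm swap)
open Equiv.Perm (sign)

variable {m : ℕ}

theorem cyc3_val : (cyc3).1 = finRotate 3 := rfl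

universe u

variable {F : Type u} [Field F] {q : ℕ} [Fintype F]

theorem emb_pm (hF : Fintype.card F = q ^ 2) {n : ℕ} (k : ℕ) (hk : k + 3 ≤ n) (s : alternatingGroup (Fin n))
    (τ : alternatingGroup (Fin 3)) (h1 : s.1 ∘ (sh k hk : Fin 3 → Fin n) = sh k hk ∘ τ.1)
    (h2 : ∀ x, x ∉ Set.range (sh k hk : Fin 3 → Fin n) → s.1 x = x) :
    emb hF k hk (pm F q 3 τ) = pm F q n s :=
  ext_pmE hF (sh k hk) (sh_injective _ _) τ.1 _ s.1 _ h1 h2

theorem pm_emb (hF : Fintype.card F = q ^ 2) {k n : ℕ} (s : alternatingGroup (Fin n)) (h : 0 + k ≤ n)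
    (τ : Perm (Fin k)) (h1 : s.1 ∘ (sh 0 h : Fin k → Fin n) = sh 0 h ∘ τ) (x : SU k F q) :
    pm F q n s * emb hF 0 h x * (pm F q n s)⁻¹ = emb hF 0 h (pe hF τ x) := by
  rw [emb, pm_ext', pe, ext_comp]
  exact ext_congr hF _ _ h1 x

theorem glueFin_concrete (hF : Fintype.card F = q ^ 2) (hm : 2 ≤ m) (x : Fin 2 → SU 2 F q)
    (σ : Fin 2 → Perm (Fin m)) :
    GlueFin hF hm x σ (emb hF 0 (by omega : 0 + 3 ≤ m + 2)) (pm F q (m + 2)) := by
  refine ⟨?_, ?_, ?_⟩
  · symm
    apply emb_pm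
    · funext i
      simp only [Function.comp_apply, va_val]
      rw [ve_apply]
    · intro y hy
      rw [va_val, ve_notMem _ _ _ hy]
  · intro i j
    rw [emb_emb, emb_emb]
    exact pm_emb hF (nu m (σ i)) (by omega) _ (nu_small (σ i)) (x j)
  · intro i j _
    have h2 : pm F q (m + 2) (va (sh 0 (by omega)) (sh_injective 0 (by omega)) dd4) *
        emb hF 0 (by omega : 0 + 3 ≤ m + 2) (emb hF 0 (by omega : 0 + 2 ≤ 3) (x j)) *
          (pm F q (m + 2) (va (sh 0 (by omega)) (sh_injective 0 (by omega)) dd4))⁻¹ =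
        emb hF 2 (by omega : 2 + 2 ≤ m + 2) (x j) := by
      rw [emb_emb, emb, pm_ext', emb]
      apply ext_congr
      funext k
      have h1 : (sh 0 (by omega : 0 + 2 ≤ m + 2) k : Fin (m + 2)) = sh 0 (by omega : 0 + 4 ≤ m + 2)
        (sh 0 (by omega : 0 + 2 ≤ 4) k) := by apply Fin.ext; simp only [sh_val]; omega
      change (va (sh 0 (by omega)) (sh_injective 0 (by omega)) dd4).1 (sh 0 (by omega : 0 + 2 ≤ m + 2) k) = _
      rw [h1, va_val, ve_apply]
      have h2 := congrFun dec_four.2.1 k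
      simp only [Function.comp_apply] at h2
      change sh 0 (by omega : 0 + 4 ≤ m + 2) ((swap (0 : Fin 4) 2 * swap 1 3 : Perm (Fin 4)) _) = _
      rw [h2]
      apply Fin.ext; simp only [sh_val]; omega
    rw [h2, emb_emb]
    exact emb_comm hF _ _ (Or.inl (by omega)) _ _

/-- the relators -/
noncomputable def rels (hF : Fintype.card F = q ^ 2) (hm : 2 ≤ m) (x : Fin 2 → SU 2 F q) (σ : Fin 2 → Perm (Fin m))
    {P : Type*} [Group P] (γ : SU 3 F q →* P) (t : alternatingGroup (Fin (m + 2)) →* P) : List P :=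
  let S : Fin 2 → Fin 2 → P := fun i j => t (nu m (σ i)) * γ (emb hF 0 (by omega) (x j)) * (t (nu m (σ i)))⁻¹ *
    (γ (emb hF 0 (by omega) (pe hF (zeta 0 1 (sign (σ i))) (x j))))⁻¹
  let d := t (va (sh 0 (by omega)) (sh_injective 0 (by omega)) dd4)
  let D : Fin 2 → Fin 2 → P := fun i j => γ (emb hF 0 (by omega) (x i)) * (d * γ (emb hF 0 (by omega) (x j)) * d⁻¹) *
    (d * γ (emb hF 0 (by omega) (x j)) * d⁻¹ * γ (emb hF 0 (by omega) (x i)))⁻¹
  [t (va (sh 0 (by omega)) (sh_injective 0 (by omega)) cyc3) * (γ (pm F q 3 cyc3))⁻¹,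
    S 0 0, S 0 1, S 1 0, S 1 1, D 0 0, D 0 1, D 1 1]

theorem rels_length (hF : Fintype.card F = q ^ 2) (hm : 2 ≤ m) (x : Fin 2 → SU 2 F q) (σ : Fin 2 → Perm (Fin m))
    {P : Type*} [Group P] (γ : SU 3 F q →* P) (t : alternatingGroup (Fin (m + 2)) →* P) :
    (rels hF hm x σ γ t).length = 8 := rfl

theorem rels_iff (hF : Fintype.card F = q ^ 2) (hm : 2 ≤ m) (x : Fin 2 → SU 2 F q) (σ : Fin 2 → Perm (Fin m))
    {P : Type*} [Group P] (γ : SU 3 F q →* P) (t : alternatingGroup (Fin (m + 2)) →* P) :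
    (∀ r ∈ rels hF hm x σ γ t, r = 1) ↔ GlueFin hF hm x σ γ t := by
  simp only [rels, List.mem_cons, List.not_mem_nil, or_false, forall_eq_or_imp, forall_eq]
  simp only [mul_inv_eq_one]
  constructor
  · rintro ⟨hc, s00, s01, s10, s11, d00, d01, d11⟩
    refine ⟨hc, ?_, ?_⟩
    · intro i j
      fin_cases i <;> fin_cases j
      · exact s00
      · exact s01
      · exact s10
      · exact s11
    · intro i j hij
      fin_cases i <;> fin_cases j
      · exact d00
      · exact d01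
      · exact absurd hij (by decide)
      · exact d11
  · rintro ⟨hc, hs, hd⟩
    exact ⟨hc, hs 0 0, hs 0 1, hs 1 0, hs 1 1, (hd 0 0 le_rfl).eq, (hd 0 1 (by decide)).eq, (hd 1 1 le_rfl).eq⟩

theorem rels_map (hF : Fintype.card F = q ^ 2) (hm : 2 ≤ m) (x : Fin 2 → SU 2 F q) (σ : Fin 2 → Perm (Fin m))
    {P Q : Type*} [Group P] [Group Q] (f : P →* Q) (γ : SU 3 F q →* P)
    (t : alternatingGroup (Fin (m + 2)) →* P) :
    (rels hF hm x σ γ t).map f = rels hF hm x σ (f.comp γ) (f.comp t) := by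
  simp [rels]

/-- **The gluing theorem.** `extra` : further relators; the hypothesis `H` is Phan's theorem. -/
theorem quo_glue (hF : Fintype.card F = q ^ 2) (hq : 3 ≤ q) (hm : 2 ≤ m) (x : Fin 2 → SU 2 F q)
    (hx : Subgroup.closure (Set.range x) = ⊤) (σ : Fin 2 → Perm (Fin m)) (hσ : Subgroup.closure (Set.range σ) = ⊤)
    (extra : List (Monoid.Coprod (SU 3 F q) (alternatingGroup (Fin (m + 2)))))
    (hE : ∀ r ∈ extra, Monoid.Coprod.lift (emb hF 0 (by omega : 0 + 3 ≤ m + 2)) (pm F q (m + 2)) r = 1)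
    (H : ∀ (Q : Type u) [Group Q] (φ : Monoid.Coprod (SU 3 F q) (alternatingGroup (Fin (m + 2))) →* Q),
      (∀ r ∈ extra, φ r = 1) →
      GlueHyp hF (m + 2) (by omega) (φ.comp Monoid.Coprod.inl) (φ.comp Monoid.Coprod.inr) →
      ∃ Φ : SU (m + 2) F q →* Q, ∀ (k : ℕ) (hk : k + 3 ≤ m + 2) (x : SU 3 F q),
        Φ (emb hF k hk x) = gS hF (φ.comp Monoid.Coprod.inl) (φ.comp Monoid.Coprod.inr) k x) :
    H111.Quo (Monoid.Coprod (SU 3 F q) (alternatingGroup (Fin (m + 2)))) (SU (m + 2) F q) (8 + extra.length) := by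
  classical
  set f := Monoid.Coprod.lift (emb hF 0 (by omega : 0 + 3 ≤ m + 2)) (pm F q (m + 2)) with hf
  have f1 : f.comp Monoid.Coprod.inl = emb hF 0 (by omega : 0 + 3 ≤ m + 2) := by ext x; simp [hf]
  have f2 : f.comp Monoid.Coprod.inr = pm F q (m + 2) := by ext x; simp [hf]
  have h1 := H111.Quo.of_univ f ?_ (rels hF hm x σ Monoid.Coprod.inl Monoid.Coprod.inr ++ extra) ?_ ?_
  · rw [List.length_append, rels_length] at h1
    exact h1
  · -- surjectivity
    rw [← MonoidHom.range_eq_top, eq_top_iff, ← closure_emb_eq_top hF hq m, Subgroup.closure_le]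
    rintro _ ⟨j, hj, a, rfl⟩
    have h2 := p2_spec (m + 2) j (by omega) hj
    refine ⟨Monoid.Coprod.inr (p2 (m + 2) j).1 * Monoid.Coprod.inl (emb hF 0 (by omega) (pe hF (p2 (m + 2) j).2 a)) *
      (Monoid.Coprod.inr (p2 (m + 2) j).1)⁻¹, ?_⟩
    rw [map_mul, map_mul, map_inv, hf, Monoid.Coprod.lift_apply_inl, Monoid.Coprod.lift_apply_inr, emb_emb,
      emb, pm_ext', pe, ext_comp, emb]
    exact ext_congr hF _ _ h2 a
  · -- the relators hold
    intro r hr
    rw [List.mem_append] at hr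
    rcases hr with hr | hr
    · have h2 := (rels_iff hF hm x σ _ _).2 (glueFin_concrete hF hm x σ)
      rw [← f1, ← f2, ← rels_map] at h2
      exact h2 _ (List.mem_map_of_mem hr)
    · exact hE r hr
  · intro φ hφ
    have h2 : GlueFin hF hm x σ (φ.comp Monoid.Coprod.inl) (φ.comp Monoid.Coprod.inr) := by
      rw [← rels_iff, ← rels_map]
      intro r hr
      rw [List.mem_map] at hr
      obtain ⟨s, hs, rfl⟩ := hr
      exact hφ s (List.mem_append_left _ hs)
    have G := h2.hyp hx hσ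
    obtain ⟨Φ, hΦ⟩ := H _ φ (fun r hr => hφ r (List.mem_append_right _ hr)) G
    have e : φ = Φ.comp f := by
      apply Monoid.Coprod.hom_ext
      · rw [MonoidHom.comp_assoc, f1]
        ext y
        rw [MonoidHom.comp_apply Φ, hΦ, G.gS_zero hq]
      · rw [MonoidHom.comp_assoc, f2]
        have h3 : (Φ.comp (pm F q (m + 2))).eqLocus (φ.comp Monoid.Coprod.inr) = ⊤ := by
          apply alt_closure
          intro k hk s τ hs1 hs2
          change Φ (pm F q (m + 2) s) = φ.comp Monoid.Coprod.inr s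
          rw [G.gS_pm k hk s τ hs1 hs2, ← hΦ k hk, emb_pm hF k hk s τ hs1 hs2]
        ext s
        have h4 : s ∈ (Φ.comp (pm F q (m + 2))).eqLocus (φ.comp Monoid.Coprod.inr) := by rw [h3]; trivial
        exact h4.symm
    intro y hy
    rw [MonoidHom.mem_ker] at hy ⊢
    rw [e, MonoidHom.comp_apply, hy, map_one]

/-- `q ≥ 4` -/
theorem quo_four (hF : Fintype.card F = q ^ 2) (hq : 4 ≤ q) (hm : 2 ≤ m) (x : Fin 2 → SU 2 F q)
    (hx : Subgroup.closure (Set.range x) = ⊤) (σ : Fin 2 → Perm (Fin m)) (hσ : Subgroup.closure (Set.range σ) = ⊤) :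
    H111.Quo (Monoid.Coprod (SU 3 F q) (alternatingGroup (Fin (m + 2)))) (SU (m + 2) F q) 8 := by
  refine quo_glue hF (by omega) hm x hx σ hσ [] (by simp) ?_
  intro Q _ φ _ G
  obtain ⟨n, rfl⟩ : ∃ n, m = n + 1 := ⟨m - 1, by omega⟩
  exact H433.exists_hom_of_four_le hF hq n (G.system (by omega))

end Cfsg.Agent.H112
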