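import Cfsg.Agent.H112.GlueQuo
import Cfsg.Agent.H434.PhanThree
set_option linter.all false

/-!
# Gluing for `q = 3` : two more relators (helper112)
-/

set_option autoImplicit false

namespace Cfsg.Agent.H112

open Matrix Cfsg Cfsg.Agent.Phan Cfsg.Agent.Phan.ThreeModel Cfsg.Agent.Phan.ThreeRel
open Cfsg.Agent.Phan.ThreeWord Cfsg.Agent.Phan.ThreeNine Cfsg.Agent.Phan.ThreeHom
open Cfsg.Agent.ChevalleyStructure.NineField
open Cfsg.Agent.SporadicRecognition.CosetCert Cfsg.Agent.SporadicRecognition.CosetCertHyp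
open Cfsg.Agent.LieClassical.FieldTransfer
open Equiv (Perm swap)
open Equiv.Perm (sign)

theorem L_congr {H : Type*} [Group H] {φ φ' : ℕ → (SU 2 F9 3 →* H)} (h : ∀ k, k < 3 → ∀ a, φ k a = φ' k a)
    (w : List ℕ) : ev (L φ 12) w = ev (L φ' 12) w := by
  apply ev_congr
  intro y _
  unfold L
  split
  · exact h _ (by omega) _
  · rfl

theorem L_map {A B : Type*} [Group A] [Group B] (f : A →* B) (φ : ℕ → (SU 2 F9 3 →* A)) (w : List ℕ) :
    f (ev (L φ 12) w) = ev (L (fun k => f.comp (φ k)) 12) w := by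
  rw [ev_map]
  apply ev_congr
  intro y _
  unfold L
  split
  · rfl
  · exact map_one f

/-- the canonical system of `SU 4` -/
def E4 (k : ℕ) : SU 2 F9 3 →* SU 4 F9 3 := if hk : k + 2 ≤ 4 then emb hF9 k hk else 1

def E43 (k : ℕ) : SU 3 F9 3 →* SU 4 F9 3 := if hk : k + 3 ≤ 4 then emb hF9 k hk else 1

theorem E4_eq {k : ℕ} (hk : k + 2 ≤ 4) : E4 k = emb hF9 k hk := dif_pos hk

theorem E43_eq {k : ℕ} (hk : k + 3 ≤ 4) : E43 k = emb hF9 k hk := dif_pos hk

theorem sysE4 : System hF9 4 E4 E43 := by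
  refine ⟨?_, ?_, ?_⟩
  · intro k hk a
    rw [E43_eq hk, E4_eq (by omega), emb_emb]
    exact emb_congr hF9 _ _ (by omega) a
  · intro k hk a
    rw [E43_eq hk, E4_eq (by omega), emb_emb]
  · intro i j hij hj a b
    rw [E4_eq (by omega), E4_eq (by omega)]
    exact emb_comm hF9 _ _ (Or.inl hij) a b

theorem ev_E4 : ev (L E4 12) w1 = 1 ∧ ev (L E4 12) w2 = 1 := by
  have hE0 : ThreeHom.Hz E2 := by
    have := hzE (k := 0) (by norm_num)
    simpa using this
  obtain ⟨b1, b2⟩ := ev_w (restrict (by norm_num : 4 ≤ 5) sysE) hE0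
  have key : ∀ w, ev (L E2 12) w = 1 → ev (L E4 12) w = 1 := by
    intro w hw
    have hinj := emb_injective hF9 0 (by norm_num : 0 + 4 ≤ 5)
    apply hinj
    rw [L_map, map_one, ← hw]
    apply L_congr
    intro k hk a
    have h1 : E2 k = emb hF9 k (by omega) := E2_eq (by omega)
    have h2 : E4 k = emb hF9 k (by omega) := E4_eq (by omega)
    rw [MonoidHom.comp_apply, h1, h2, emb_emb]
    exact emb_congr hF9 _ _ (Nat.zero_add k) a
  exact ⟨key _ b1, key _ b2⟩

theorem card_SU4 : Nat.card (SU 4 F9 3) = 13063680 := by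
  have h := Cfsg.Agent.S0278.result (F := F9) (q := 3) hF9 4 (by norm_num)
  norm_num [Finset.prod_range_succ, Nat.even_iff] at h
  omega

theorem card_le4 {H : Type*} [Group H] {φ : ℕ → (SU 2 F9 3 →* H)} {g : ℕ → (SU 3 F9 3 →* H)} (h : System hF9 4 φ g)
    (h01 : ev (L φ 12) w1 = 1) (h02 : ev (L φ 12) w2 = 1) :
    Finite (D φ 0 3) ∧ Nat.card (D φ 0 3) ≤ 13063680 := by
  have hfin3 : Finite (SU 3 F9 3) := Nat.finite_of_card_ne_zero (by rw [card_SU3]; norm_num)
  have hr : Nat.card (g 1).range ≤ 6048 := by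
    rw [← card_SU3]
    exact Nat.card_le_card_of_surjective _ (g 1).rangeRestrict_surjective
  have hD2 : D φ 1 3 ≤ (g 1).range := by
    rw [D, Subgroup.closure_le]
    rintro _ ⟨j, h1, h2, a, rfl⟩
    have hj : j = 1 ∨ j = 2 := by omega
    rcases hj with rfl | rfl
    · exact ⟨_, h.left 1 (by norm_num) a⟩
    · exact ⟨_, h.right 1 (by norm_num) a⟩
  have hfr : Finite (g 1).range := Finite.of_surjective _ (g 1).rangeRestrict_surjective
  obtain ⟨f2, c2⟩ := card_le_of_le hD2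
  obtain ⟨f3, c3⟩ := step_torus (n := 4) (m := 3) (by norm_num) (by norm_num) h
  obtain ⟨f4, c4⟩ := ThreeCardThree.card_three h h01 h02
  refine ⟨f4, ?_⟩
  omega

/-- **Phan's theorem for `SU 4`, `q = 3`** -/
theorem exists_hom_four9 {H : Type*} [Group H] {φ : ℕ → (SU 2 F9 3 →* H)} {g : ℕ → (SU 3 F9 3 →* H)}
    (h : System hF9 4 φ g) (h01 : ev (L φ 12) w1 = 1) (h02 : ev (L φ 12) w2 = 1) :
    ∃ Φ : SU 4 F9 3 →* H, ∀ (k : ℕ) (hk : k + 3 ≤ 4) (x : SU 3 F9 3), Φ (emb hF9 k hk x) = g k x := by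
  have hP := System.prod h sysE4
  set φ' : ℕ → (SU 2 F9 3 →* H × SU 4 F9 3) := fun k => (φ k).prod (E4 k) with hφ'
  set g' : ℕ → (SU 3 F9 3 →* H × SU 4 F9 3) := fun k => (g k).prod (E43 k) with hg'
  obtain ⟨hfin, hcard⟩ := card_le4 hP
    (by rw [ev_prod, h01, ev_E4.1]; rfl) (by rw [ev_prod, h02, ev_E4.2]; rfl)
  let π : D φ' 0 3 →* SU 4 F9 3 := (MonoidHom.snd H (SU 4 F9 3)).comp (D φ' 0 3).subtype
  have hsurj : Function.Surjective π := by
    rw [← MonoidHom.range_eq_top, eq_top_iff, ← closure_emb_eq_top hF9 le_rfl 2,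
      Subgroup.closure_le]
    rintro _ ⟨j, hj, x, rfl⟩
    refine ⟨⟨φ' j x, mem_D (Nat.zero_le _) (by omega) x⟩, ?_⟩
    change E4 j x = _
    rw [E4_eq (by omega)]
  have hfin5 : Finite (SU 4 F9 3) := Nat.finite_of_card_ne_zero (by rw [card_SU4]; norm_num)
  have hbij : Function.Bijective π := by
    refine (Nat.bijective_iff_surjective_and_card π).2 ⟨hsurj, ?_⟩
    refine le_antisymm ?_ (Nat.card_le_card_of_surjective π hsurj)
    rw [card_SU4]
    exact hcard
  let e : D φ' 0 3 ≃* SU 4 F9 3 := MulEquiv.ofBijective π hbij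
  refine ⟨(MonoidHom.fst H (SU 4 F9 3)).comp ((D φ' 0 3).subtype.comp e.symm.toMonoidHom), ?_⟩
  intro k hk x
  have hmem : g' k x ∈ D φ' 0 3 := by
    have hx : x ∈ Subgroup.closure {y : SU (1 + 2) F9 3 | ∃ (j : ℕ) (h : j + 2 ≤ 1 + 2)
        (x : SU 2 F9 3), emb hF9 j h x = y} := by rw [closure_emb_eq_top hF9 le_rfl 1]; trivial
    have h1 : Subgroup.closure {y : SU (1 + 2) F9 3 | ∃ (j : ℕ) (h : j + 2 ≤ 1 + 2)
        (x : SU 2 F9 3), emb hF9 j h x = y} ≤ (D φ' 0 3).comap (g' k) := by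
      rw [Subgroup.closure_le]
      rintro _ ⟨j, hj, a, rfl⟩
      change g' k _ ∈ D φ' 0 3
      have hj' : j = 0 ∨ j = 1 := by omega
      rcases hj' with rfl | rfl
      · rw [hP.left k hk a]
        exact mem_D (Nat.zero_le _) (by omega) a
      · rw [hP.right k hk a]
        exact mem_D (Nat.zero_le _) (by omega) a
    exact h1 hx
  have h2 : e ⟨g' k x, hmem⟩ = emb hF9 k hk x := by
    change E43 k x = _
    rw [E43_eq hk]
  have h3 : e.symm (emb hF9 k hk x) = ⟨g' k x, hmem⟩ := by rw [← h2, e.symm_apply_apply]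
  change (e.symm (emb hF9 k hk x)).val.1 = g k x
  rw [h3]
  rfl

theorem dec_five : sign (finRotate 5) = 1 ∧ (finRotate 5) ∘ (sh 0 (by omega : 0 + 4 ≤ 5) : Fin 4 → Fin 5) =
    sh 1 (by omega : 1 + 4 ≤ 5) := by decide

theorem exists_even4 {n k : ℕ} (hn : 5 ≤ n) (hk : k + 4 ≤ n) :
    ∃ π : alternatingGroup (Fin n), π.1 ∘ (sh 0 (by omega) : Fin 4 → Fin n) = sh k hk := by
  rcases Nat.lt_or_ge n 6 with h6 | h6
  · obtain rfl : n = 5 := by omega
    have hk' : k = 0 ∨ k = 1 := by omega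
    rcases hk' with rfl | rfl
    · exact ⟨1, rfl⟩
    · exact ⟨⟨finRotate 5, Equiv.Perm.mem_alternatingGroup.2 dec_five.1⟩, dec_five.2⟩
  · obtain ⟨ρ, hρ⟩ := exists_perm_ext (sh 0 (by omega) : Fin 4 → Fin n) (sh k hk) (sh_injective _ _) (sh_injective _ _)
    rcases Int.units_eq_one_or (sign ρ) with h | h
    · exact ⟨⟨ρ, Equiv.Perm.mem_alternatingGroup.2 h⟩, hρ⟩
    · have hne : (⟨4, by omega⟩ : Fin n) ≠ ⟨5, by omega⟩ := by simp
      refine ⟨⟨ρ * swap ⟨4, by omega⟩ ⟨5, by omega⟩, ?_⟩, ?_⟩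
      · rw [Equiv.Perm.mem_alternatingGroup, map_mul, h, Equiv.Perm.sign_swap hne]; rfl
      · rw [← hρ]
        funext i
        simp only [Function.comp_apply, Equiv.Perm.mul_apply]
        rw [Equiv.swap_apply_of_ne_of_ne]
        · intro h1
          have := congrArg Fin.val h1
          simp only [sh_val] at this
          omega
        · intro h1
          have := congrArg Fin.val h1
          simp only [sh_val] at this
          omega

variable {F : Type*} [Field F] [Fintype F]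

theorem exists_hom_four {hF : Fintype.card F = 3 ^ 2} (e : F9 ≃+* F) {H : Type*} [Group H]
    {φ : ℕ → (SU 2 F 3 →* H)} {g : ℕ → (SU 3 F 3 →* H)} (h : System hF 4 φ g)
    (h01 : ev (L (fun k => (φ k).comp (suCongr 2 3 e).toMonoidHom) 12) w1 = 1)
    (h02 : ev (L (fun k => (φ k).comp (suCongr 2 3 e).toMonoidHom) 12) w2 = 1) :
    ∃ Φ : SU 4 F 3 →* H, ∀ (k : ℕ) (hk : k + 3 ≤ 4) (x : SU 3 F 3), Φ (emb hF k hk x) = g k x := by
  obtain ⟨Φ, hΦ⟩ := exists_hom_four9 (h.congr e hF9) h01 h02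
  refine ⟨Φ.comp (suCongr 4 3 e).symm.toMonoidHom, ?_⟩
  intro k hk x
  have h1 : (suCongr 4 3 e).symm (emb hF k hk x) =
      emb hF9 k hk ((suCongr 3 3 e).symm x) := by
    rw [MulEquiv.symm_apply_eq, suCongr_emb e hF9 hF, MulEquiv.apply_symm_apply]
  change Φ ((suCongr 4 3 e).symm (emb hF k hk x)) = _
  rw [h1, hΦ]
  change g k (suCongr 3 3 e ((suCongr 3 3 e).symm x)) = _
  rw [MulEquiv.apply_symm_apply]

/-- the words are trivial in `SU 4` -/
theorem ev_four (hF : Fintype.card F = 3 ^ 2) (e : F9 ≃+* F) {φ : ℕ → (SU 2 F 3 →* SU 4 F 3)}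
    (hφ : ∀ k (hk : k + 2 ≤ 4) a, φ k a = emb hF k hk a) :
    ev (L (fun k => (φ k).comp (suCongr 2 3 e).toMonoidHom) 12) w1 = 1 ∧
      ev (L (fun k => (φ k).comp (suCongr 2 3 e).toMonoidHom) 12) w2 = 1 := by
  have key : ∀ w, ev (L E4 12) w = 1 → ev (L (fun k => (φ k).comp (suCongr 2 3 e).toMonoidHom) 12) w = 1 := by
    intro w hw
    have h1 := congrArg (suCongr 4 3 e).toMonoidHom hw
    rw [L_map, map_one] at h1
    rw [← h1]
    apply L_congr
    intro k hk a
    rw [E4_eq (by omega)]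
    change φ k (suCongr 2 3 e a) = suCongr 4 3 e (emb hF9 k _ a)
    rw [suCongr_emb e hF9 hF, hφ k (by omega)]
  exact ⟨key _ ev_E4.1, key _ ev_E4.2⟩

/-- `Hz` from a homomorphism of `SU 4` -/
theorem hz_of_hom (hF : Fintype.card F = 3 ^ 2) {H : Type*} [Group H] {φ : ℕ → (SU 2 F 3 →* H)}
    (Φ : SU 4 F 3 →* H) (h : ∀ k (hk : k + 2 ≤ 4) a, Φ (emb hF k hk a) = φ k a) : Phan.Hz φ := by
  intro x hx hc h3
  have hx' : x ∈ Φ.range := by
    refine (Subgroup.closure_le _).2 ?_ hx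
    rintro _ ⟨j, hj, a, rfl⟩
    exact ⟨_, h j (by omega) a⟩
  have h1 := H434.center_quotient_three hF Φ.rangeRestrict Φ.rangeRestrict_surjective ⟨x, hx'⟩ (by
    rw [Subgroup.mem_center_iff]
    rintro ⟨_, z, rfl⟩
    apply Subtype.ext
    change Φ z * x = x * Φ z
    have hz : z ∈ Subgroup.closure {y : SU (2 + 2) F 3 | ∃ (j : ℕ) (h : j + 2 ≤ 2 + 2) (x : SU 2 F 3),
      emb hF j h x = y} := by rw [closure_emb_eq_top hF le_rfl 2]; trivial
    have h2 : Commute (Φ z) x := by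
      induction hz using Subgroup.closure_induction with
      | mem z hz =>
        obtain ⟨j, hj, a, rfl⟩ := hz
        rw [h j hj]
        exact hc j (by omega) a
      | one => rw [map_one]; exact Commute.one_left _
      | mul b c _ _ hb hc => rw [map_mul]; exact hb.mul_left hc
      | inv b _ hb => rw [map_inv]; exact hb.inv_left
    exact h2) (Subtype.ext h3)
  exact congrArg Subtype.val h1

/-- in the group -/
theorem phiS_concrete {q : ℕ} (hF : Fintype.card F = q ^ 2) {n : ℕ} (h0 : 0 + 3 ≤ n) {k : ℕ} (hk : k + 2 ≤ n) (a : SU 2 F q) :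
    phiS hF (emb hF 0 h0) (pm F q n) k a = emb hF k hk a := by
  rw [phiS, GlueHyp.psi2_apply, emb_emb, emb, pm_ext', ext_comp, emb]
  exact ext_congr hF _ _ (p2_spec n k (by omega) hk) a

theorem hz_shift {hF : Fintype.card F = 3 ^ 2} {n : ℕ} {hn : 3 ≤ n} {Q : Type*} [Group Q] {γ : SU 3 F 3 →* Q}
    {t : alternatingGroup (Fin n) →* Q} (G : GlueHyp hF n hn γ t) (hz : Phan.Hz (phiS hF γ t)) (h5 : 5 ≤ n)
    {k : ℕ} (hk : k + 4 ≤ n) : Phan.Hz fun j => phiS hF γ t (k + j) := by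
  obtain ⟨π, hπ⟩ := exists_even4 h5 hk
  have e : ∀ j, j < 3 → ∀ a, t π * phiS hF γ t j a * (t π)⁻¹ = phiS hF γ t (k + j) a := by
    intro j hj a
    apply G.phiS_conj π (by omega) (by omega)
    funext i
    have h1 := congrFun hπ ⟨j + i, by omega⟩
    have h2 : (sh j (by omega : j + 2 ≤ n) i : Fin n) = sh 0 (by omega : 0 + 4 ≤ n) ⟨j + i, by omega⟩ := by
      apply Fin.ext; simp only [sh_val]; omega
    simp only [Function.comp_apply] at h1 ⊢
    rw [h2, h1]
    apply Fin.ext; simp only [sh_val]; omega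
  intro x hx hc h3
  have h4 := hz ((t π)⁻¹ * x * t π) ?_ ?_ ?_
  · have : x = t π * ((t π)⁻¹ * x * t π) * (t π)⁻¹ := by group
    rw [this, h4]; group
  · have h1 : Subgroup.closure {y : Q | ∃ j, j < 3 ∧ ∃ a, phiS hF γ t (k + j) a = y} ≤
        (Subgroup.closure {y : Q | ∃ j, j < 3 ∧ ∃ a, phiS hF γ t j a = y}).comap (MulAut.conj (t π)⁻¹).toMonoidHom := by
      rw [Subgroup.closure_le]
      rintro _ ⟨j, hj, a, rfl⟩
      rw [SetLike.mem_coe, Subgroup.mem_comap, ← e j hj]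
      have : (MulAut.conj (t π)⁻¹).toMonoidHom (t π * phiS hF γ t j a * (t π)⁻¹) = phiS hF γ t j a := by
        change (t π)⁻¹ * (t π * phiS hF γ t j a * (t π)⁻¹) * ((t π)⁻¹)⁻¹ = _
        group
      rw [this]
      exact Subgroup.subset_closure ⟨j, hj, a, rfl⟩
    have h2 := h1 hx
    rw [Subgroup.mem_comap] at h2
    change (t π)⁻¹ * x * ((t π)⁻¹)⁻¹ ∈ _ at h2
    rwa [inv_inv] at h2
  · intro j hj a
    have h1 := hc j hj a
    simp only at h1
    rw [← e j hj] at h1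
    generalize phiS hF γ t j a = y at h1 ⊢
    have h2 : y = (t π)⁻¹ * (t π * y * (t π)⁻¹) * t π := by group
    calc y * ((t π)⁻¹ * x * t π) = (t π)⁻¹ * ((t π * y * (t π)⁻¹) * x) * t π := by group
      _ = (t π)⁻¹ * (x * (t π * y * (t π)⁻¹)) * t π := by rw [h1]
      _ = _ := by group
  · have h1 : ((t π)⁻¹ * x * t π) ^ 3 = (t π)⁻¹ * x ^ 3 * t π := by
      rw [pow_succ, pow_two, pow_succ, pow_two]; group
    rw [h1, h3]; group

universe u

/-- **`q = 3`** -/
theorem quo_three {F : Type u} [Field F] [Fintype F] (hF : Fintype.card F = 3 ^ 2) {m : ℕ} (hm : 2 ≤ m)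
    (x : Fin 2 → SU 2 F 3) (hx : Subgroup.closure (Set.range x) = ⊤) (σ : Fin 2 → Perm (Fin m))
    (hσ : Subgroup.closure (Set.range σ) = ⊤) :
    H111.Quo (Monoid.Coprod (SU 3 F 3) (alternatingGroup (Fin (m + 2)))) (SU (m + 2) F 3) 10 := by
  have hcard : Fintype.card F9 = Fintype.card F := by rw [hF9, hF]
  let e : F9 ≃+* F := FiniteField.ringEquivOfCardEq hcard
  let W : List ℕ → Monoid.Coprod (SU 3 F 3) (alternatingGroup (Fin (m + 2))) := fun w =>
    ev (L (fun k => (phiS hF Monoid.Coprod.inl Monoid.Coprod.inr k).comp (suCongr 2 3 e).toMonoidHom) 12) w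
  have hW : ∀ {Q : Type u} [Group Q] (f : Monoid.Coprod (SU 3 F 3) (alternatingGroup (Fin (m + 2))) →* Q) (w : List ℕ),
      f (W w) = ev (L (fun k => (phiS hF (f.comp Monoid.Coprod.inl) (f.comp Monoid.Coprod.inr) k).comp
        (suCongr 2 3 e).toMonoidHom) 12) w := by
    intro Q _ f w
    rw [L_map]
    apply L_congr
    intro k hk a
    exact phiS_map hF f _ _ k _
  refine quo_glue hF le_rfl hm x hx σ hσ [W w1, W w2] ?_ ?_
  · -- the words are trivial in the group
    set f := Monoid.Coprod.lift (emb hF 0 (by omega : 0 + 3 ≤ m + 2)) (pm F 3 (m + 2)) with hf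
    have f1 : f.comp Monoid.Coprod.inl = emb hF 0 (by omega : 0 + 3 ≤ m + 2) := by ext x; simp [hf]
    have f2 : f.comp Monoid.Coprod.inr = pm F 3 (m + 2) := by ext x; simp [hf]
    let E : ℕ → (SU 2 F 3 →* SU 4 F 3) := fun k => if hk : k + 2 ≤ 4 then emb hF k hk else 1
    have hE : ∀ k (hk : k + 2 ≤ 4) a, E k a = emb hF k hk a := by
      intro k hk a
      have : E k = emb hF k hk := dif_pos hk
      rw [this]
    obtain ⟨a1, a2⟩ := ev_four hF e hE
    have key : ∀ w, ev (L (fun k => (E k).comp (suCongr 2 3 e).toMonoidHom) 12) w = 1 → f (W w) = 1 := by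
      intro w hw
      have h1 := congrArg (emb hF 0 (by omega : 0 + 4 ≤ m + 2)) hw
      rw [L_map, map_one] at h1
      rw [hW, f1, f2, ← h1]
      apply L_congr
      intro k hk a
      have h2 := phiS_concrete hF (by omega : 0 + 3 ≤ m + 2) (by omega : k + 2 ≤ m + 2) (suCongr 2 3 e a)
      have h3 := hE k (by omega) (suCongr 2 3 e a)
      have h4 := emb_emb hF (by omega : 0 + 4 ≤ m + 2) (by omega : k + 2 ≤ 4) (suCongr 2 3 e a)
      rw [← h3] at h4
      refine Eq.trans h2 (Eq.trans ?_ h4.symm)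
      exact emb_congr hF _ _ (Nat.zero_add k).symm _
    intro r hr
    simp only [List.mem_cons, List.not_mem_nil, or_false] at hr
    rcases hr with rfl | rfl
    · exact key _ a1
    · exact key _ a2
  · intro Q _ φ hφ G
    have h01 := hφ _ (List.mem_cons_self)
    have h02 := hφ _ (List.mem_cons_of_mem _ (List.mem_cons_self))
    rw [hW] at h01 h02
    have S := G.system le_rfl
    have S4 : System hF 4 (phiS hF (φ.comp Monoid.Coprod.inl) (φ.comp Monoid.Coprod.inr))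
        (gS hF (φ.comp Monoid.Coprod.inl) (φ.comp Monoid.Coprod.inr)) :=
      ⟨fun j hj a => S.left j (by omega) a, fun j hj a => S.right j (by omega) a,
        fun i j hij hj a b => S.comm i j hij (by omega) a b⟩
    obtain ⟨Φ, hΦ⟩ := exists_hom_four e S4 h01 h02
    rcases Nat.lt_or_ge m 3 with h | h
    · obtain rfl : m = 2 := by omega
      exact ⟨Φ, hΦ⟩
    · obtain ⟨n, rfl⟩ : ∃ n, m = n + 3 := ⟨m - 3, by omega⟩
      have hz0 : Phan.Hz (phiS hF (φ.comp Monoid.Coprod.inl) (φ.comp Monoid.Coprod.inr)) := by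
        refine hz_of_hom hF Φ ?_
        intro k hk a
        have hk' : k = 0 ∨ k = 1 ∨ k = 2 := by omega
        rcases hk' with rfl | rfl | rfl
        · have h1 := hΦ 0 (by omega) (emb hF 0 (by omega) a)
          rw [emb_emb, S4.left 0 (by omega)] at h1
          exact h1
        · have h1 := hΦ 1 (by omega) (emb hF 0 (by omega) a)
          rw [emb_emb, S4.left 1 (by omega)] at h1
          exact h1
        · have h1 := hΦ 1 (by omega) (emb hF 1 (by omega) a)
          rw [emb_emb, S4.right 1 (by omega)] at h1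
          exact h1
      exact H434.exists_hom_three_all n S (fun k hk => hz_shift G hz0 (by omega) hk)

end Cfsg.Agent.H112
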