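import Cfsg.Agent.Phan.Main
set_option linter.all false

/-!
# Permutation matrices in `SU n F q` (helper112)

`pmE hF π h`: the matrix of the permutation `π` of determinant one; `pm hF : alternatingGroup (Fin n) →* SU n F q`;
`pmE_ext`: `pm π * ext e g = ext (π ∘ e) g * pm π`.
-/

set_option autoImplicit false

namespace Cfsg.Agent.H112

open Matrix Cfsg Cfsg.Agent.Phan
open Cfsg.Agent.LieClassical.HermBasic

variable {F : Type*} [Field F] {q : ℕ} {l m n : ℕ}

theorem inc_perm (π : Equiv.Perm (Fin n)) : inc F (π : Fin n → Fin n) = (Equiv.Perm.permMatrix F π)ᵀ := by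
  ext x i
  rw [inc_apply, Matrix.transpose_apply, Equiv.Perm.permMatrix, PEquiv.toMatrix_apply]
  have : (x ∈ (Equiv.toPEquiv π) i) ↔ x = π i := by
    rw [Equiv.toPEquiv_apply, Option.mem_some_iff]; exact ⟨fun h => h.symm, fun h => h.symm⟩
  simp only [this]

theorem det_inc (π : Equiv.Perm (Fin n)) : (inc F (π : Fin n → Fin n)).det = ((Equiv.Perm.sign π : ℤ) : F) := by
  rw [inc_perm, Matrix.det_transpose, Matrix.det_permutation]

/-- a permutation matrix of determinant one -/
def pmE (q : ℕ) (π : Equiv.Perm (Fin n)) (h : (inc F (π : Fin n → Fin n)).det = 1) : SU n F q :=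
  mk (inc F (π : Fin n → Fin n)) h (fun u v => herm_inc π.injective u v)

theorem mat_pmE (π : Equiv.Perm (Fin n)) (h : (inc F (π : Fin n → Fin n)).det = 1) :
    mat (pmE q π h) = inc F (π : Fin n → Fin n) := rfl

theorem det_even {π : Equiv.Perm (Fin n)} (h : Equiv.Perm.sign π = 1) : (inc F (π : Fin n → Fin n)).det = 1 := by
  rw [det_inc, h]; simp

theorem det_two (h2 : (2 : F) = 0) (π : Equiv.Perm (Fin n)) : (inc F (π : Fin n → Fin n)).det = 1 := by
  rw [det_inc]
  rcases Int.units_eq_one_or (Equiv.Perm.sign π) with h | h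
  · rw [h]; simp
  · rw [h]; push_cast; linear_combination -h2

theorem pmE_mul (π ρ : Equiv.Perm (Fin n)) (h : (inc F (π : Fin n → Fin n)).det = 1)
    (h' : (inc F (ρ : Fin n → Fin n)).det = 1) (h'' : (inc F ((π * ρ : Equiv.Perm (Fin n)) : Fin n → Fin n)).det = 1) :
    pmE q (π * ρ) h'' = pmE q π h * pmE q ρ h' := by
  apply mat_inj
  rw [mat_mul, mat_pmE, mat_pmE, mat_pmE, inc_mul_inc]
  rfl

/-- the permutation matrices of even permutations -/
def pm (F : Type*) [Field F] (q n : ℕ) : alternatingGroup (Fin n) →* SU n F q where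
  toFun π := pmE q π.1 (det_even (Equiv.Perm.mem_alternatingGroup.1 π.2))
  map_one' := by
    apply mat_inj
    rw [mat_pmE, mat_one]
    ext i j
    rw [inc_apply, Matrix.one_apply]
    rfl
  map_mul' π ρ := pmE_mul _ _ _ _ _

theorem mat_pm (π : alternatingGroup (Fin n)) : mat (pm F q n π) = inc F (π.1 : Fin n → Fin n) := rfl

/-- all permutation matrices, characteristic two -/
def pm2 (q n : ℕ) (h2 : (2 : F) = 0) : Equiv.Perm (Fin n) →* SU n F q where
  toFun π := pmE q π (det_two h2 π)
  map_one' := by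
    apply mat_inj
    rw [mat_pmE, mat_one]
    ext i j
    rw [inc_apply, Matrix.one_apply]
    rfl
  map_mul' π ρ := pmE_mul _ _ _ _ _

theorem mat_pm2 (h2 : (2 : F) = 0) (π : Equiv.Perm (Fin n)) :
    mat (pm2 q n h2 π) = inc F (π : Fin n → Fin n) := rfl

theorem inc_mul_extM (π : Equiv.Perm (Fin n)) (e : Fin m → Fin n) (A : Matrix (Fin m) (Fin m) F) :
    inc F (π : Fin n → Fin n) * extM e A = extM (π ∘ e) A * inc F (π : Fin n → Fin n) := by
  rw [extM, extM, Matrix.mul_add, Matrix.add_mul, Matrix.mul_one, Matrix.one_mul]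
  congr 1
  have h1 : (inc F ((π : Fin n → Fin n) ∘ e))ᵀ * inc F (π : Fin n → Fin n) = (inc F e)ᵀ := by
    rw [← inc_mul_inc, Matrix.transpose_mul, Matrix.mul_assoc, incT_mul_inc π.injective, Matrix.mul_one]
  rw [Matrix.mul_assoc _ _ (inc F (π : Fin n → Fin n)), h1, ← inc_mul_inc]
  simp only [Matrix.mul_assoc]

variable [Fintype F]

theorem pmE_ext (hF : Fintype.card F = q ^ 2) (π : Equiv.Perm (Fin n))
    (h : (inc F (π : Fin n → Fin n)).det = 1) (e : Fin m → Fin n) (he : Function.Injective e) (g : SU m F q) :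
    pmE q π h * ext hF e he g = ext hF (π ∘ e) (π.injective.comp he) g * pmE q π h := by
  apply mat_inj
  rw [mat_mul, mat_mul, mat_ext, mat_ext, mat_pmE, inc_mul_extM]

theorem pm_ext (hF : Fintype.card F = q ^ 2) (π : alternatingGroup (Fin n)) (e : Fin m → Fin n)
    (he : Function.Injective e) (g : SU m F q) :
    pm F q n π * ext hF e he g = ext hF (π.1 ∘ e) (π.1.injective.comp he) g * pm F q n π := pmE_ext hF _ _ e he g

theorem pm_ext' (hF : Fintype.card F = q ^ 2) (π : alternatingGroup (Fin n)) (e : Fin m → Fin n)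
    (he : Function.Injective e) (g : SU m F q) :
    pm F q n π * ext hF e he g * (pm F q n π)⁻¹ = ext hF (π.1 ∘ e) (π.1.injective.comp he) g := by
  rw [pm_ext, mul_inv_cancel_right]

theorem ext_id (hF : Fintype.card F = q ^ 2) (g : SU n F q) : ext hF id Function.injective_id g = g := by
  apply mat_inj
  rw [mat_ext, extM]
  have : inc F (id : Fin n → Fin n) = 1 := by
    ext i j; rw [inc_apply, Matrix.one_apply]; rfl
  rw [this]; simp

/-- conjugation by an even permutation matrix -/
theorem pm_conj (hF : Fintype.card F = q ^ 2) (π : alternatingGroup (Fin n)) (g : SU n F q) :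
    pm F q n π * g * (pm F q n π)⁻¹ = ext hF π.1 π.1.injective g := by
  have := pm_ext' hF π id Function.injective_id g
  rw [ext_id] at this
  rw [this]
  rfl

theorem pm2_conj (hF : Fintype.card F = q ^ 2) (h2 : (2 : F) = 0) (π : Equiv.Perm (Fin n)) (g : SU n F q) :
    pm2 q n h2 π * g * (pm2 q n h2 π)⁻¹ = ext hF π π.injective g := by
  have := pmE_ext hF π (det_two h2 π) id Function.injective_id g
  rw [ext_id] at this
  change pmE q π (det_two h2 π) * g * (pmE q π (det_two h2 π))⁻¹ = _
  rw [this, mul_inv_cancel_right]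
  rfl

theorem pm2_ext' (hF : Fintype.card F = q ^ 2) (h2 : (2 : F) = 0) (π : Equiv.Perm (Fin n)) (e : Fin m → Fin n)
    (he : Function.Injective e) (g : SU m F q) :
    pm2 q n h2 π * ext hF e he g * (pm2 q n h2 π)⁻¹ = ext hF (π ∘ e) (π.injective.comp he) g := by
  change pmE q π (det_two h2 π) * _ * (pmE q π (det_two h2 π))⁻¹ = _
  rw [pmE_ext, mul_inv_cancel_right]

/-- `ext` of a permutation matrix -/
theorem ext_pmE (hF : Fintype.card F = q ^ 2) (e : Fin m → Fin n) (he : Function.Injective e)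
    (τ : Equiv.Perm (Fin m)) (h : (inc F (τ : Fin m → Fin m)).det = 1) (π : Equiv.Perm (Fin n))
    (h' : (inc F (π : Fin n → Fin n)).det = 1) (h1 : π ∘ e = e ∘ τ) (h2 : ∀ x, x ∉ Set.range e → π x = x) :
    ext hF e he (pmE q τ h) = pmE q π h' := by
  apply mat_inj
  rw [mat_ext, mat_pmE, mat_pmE]
  apply Matrix.ext_of_mulVec_single
  intro j
  funext x
  have key : ∀ v : Fin n → F, (inc F (π : Fin n → Fin n) *ᵥ v) x = v (π.symm x) := by
    intro v
    have := inc_mulVec π.injective v (π.symm x)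
    rwa [Equiv.apply_symm_apply] at this
  rw [key]
  by_cases hx : x ∈ Set.range e
  · obtain ⟨i, rfl⟩ := hx
    rw [extM_mulVec he]
    have h3 := inc_mulVec τ.injective ((Pi.single j 1 : Fin n → F) ∘ e) (τ.symm i)
    rw [Equiv.apply_symm_apply] at h3
    rw [h3]
    have h4 : π.symm (e i) = e (τ.symm i) := by
      rw [Equiv.symm_apply_eq]
      have := congrFun h1 (τ.symm i)
      simp only [Function.comp_apply, Equiv.apply_symm_apply] at this
      exact this.symm
    rw [h4]; rfl
  · rw [extM_mulVec_of_notMem (fun i hi => hx ⟨i, hi.symm⟩)]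
    have h4 : π.symm x = x := by
      rw [Equiv.symm_apply_eq]; exact (h2 x hx).symm
    rw [h4]

end Cfsg.Agent.H112
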