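import Cfsg.Agent.H112.GlueThree
import Cfsg.Agent.H112.SUThree
import Cfsg.Agent.H112.PresFour
set_option linter.all false

/-!
# Presentations of `SU n F q`, `n ≥ 4`, `q ≥ 3` (helper112)
-/

set_option autoImplicit false

namespace Cfsg.Agent.H112

open Cfsg.Agent.H111

theorem pres_ge_three {F : Type*} [Field F] [Fintype F] {q : ℕ} (hF : Fintype.card F = q ^ 2) (hq : 3 ≤ q) {n : ℕ}
    (hn : 4 ≤ n) : HasPres (SU n F q) 6 37 ∧ (n = 4 ∨ n = 5 → HasPres (SU n F q) 6 35) := by
  rcases Nat.lt_or_ge q 4 with h | h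
  · obtain rfl : q = 3 := by omega
    obtain ⟨m, rfl⟩ : ∃ m, n = m + 2 := ⟨n - 2, by omega⟩
    obtain ⟨x, hx⟩ := su2_two hF (by omega)
    obtain ⟨σ, hσ⟩ := perm_two m (by omega)
    have := glue_count (e := 2) (pres_SU3_three (by rw [Nat.card_eq_fintype_card, hF]))
      (quo_three hF (by omega) x hx σ hσ)
    exact ⟨this.1.mono (by norm_num), fun h => (this.2 h).mono (by norm_num)⟩
  · exact pres_ge_four hF h hn

end Cfsg.Agent.H112
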