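import Cfsg.Agent.H112.Glue2Quo
import Cfsg.Agent.H112.PresThree
set_option linter.all false

/-!
# Presentations of `SU n F q`, `n ≥ 4`, all `q` (helper112)
-/

set_option autoImplicit false

namespace Cfsg.Agent.H112

open Cfsg.Agent.H111

theorem two_le_of_card {F : Type*} [Field F] [Fintype F] {q : ℕ} (hF : Fintype.card F = q ^ 2) : 2 ≤ q := by
  have h1 : 1 < Fintype.card F := Fintype.one_lt_card
  rw [hF] at h1
  by_contra h
  have : q = 0 ∨ q = 1 := by omega
  rcases this with rfl | rfl <;> norm_num at h1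

theorem pres_all {F : Type*} [Field F] [Fintype F] {q : ℕ} (hF : Fintype.card F = q ^ 2) {n : ℕ}
    (hn : 4 ≤ n) : HasPres (SU n F q) 6 37 ∧ (n = 4 ∨ n = 5 → HasPres (SU n F q) 6 35) := by
  have hq := two_le_of_card hF
  rcases Nat.lt_or_ge q 3 with h | h
  · obtain rfl : q = 2 := by omega
    have h1 := pres_two hF n hn
    exact ⟨h1.1.mono (by norm_num), fun h => (h1.2 h).mono (by norm_num)⟩
  · exact pres_ge_three hF h hn

theorem pres_PSU_all {F : Type*} [Field F] [Fintype F] {q : ℕ} (hF : Fintype.card F = q ^ 2) {n : ℕ}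
    (hn : 4 ≤ n) : HasPres (Cfsg.PSU n F q) 6 38 ∧ (n = 4 ∨ n = 5 → HasPres (Cfsg.PSU n F q) 6 36) := by
  have h := pres_all hF hn
  exact ⟨h.1.centerQuo (center_SU_cyclic hF (by omega)), fun hh => (h.2 hh).centerQuo (center_SU_cyclic hF (by omega))⟩

end Cfsg.Agent.H112
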