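import Cfsg.Agent.H112.ReflCard
import Cfsg.Agent.Phan.Herm
import Cfsg.Agent.Lib.FieldFour
import Cfsg.Agent.LieClassical.HermPerfect
set_option linter.all false

/-!
# Unitary reflections of order three over the field with four elements (helper112)
-/

set_option autoImplicit false

namespace Cfsg.Agent.H112.Refl

open Matrix Cfsg Cfsg.Agent.Phan
open Cfsg.Agent.LieClassical.HermBasic
open Cfsg.Agent.Lib.FieldFour

theorem hF4 : Fintype.card F4 = 2 ^ 2 := rfl

/-- the matrix of the reflection, times a scalar -/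
def rsM (a : Fin 4 → F4) : Matrix (Fin 4) (Fin 4) F4 := F4.v • (1 + replicateCol Unit (F4.v • a) * replicateRow Unit (fun j => a j ^ 2))

theorem rsM_mulVec (a u : Fin 4 → F4) : rsM a *ᵥ u = F4.v • u + (F4.w * hermForm 4 F4 2 u a) • a := by
  rw [rsM, Matrix.smul_mulVec, Matrix.add_mulVec, Matrix.one_mulVec, smul_add, herm_def]
  congr 1
  funext i
  rw [← vecMulVec_eq, Pi.smul_apply, Pi.smul_apply, smul_eq_mul, smul_eq_mul, Matrix.mulVec, dotProduct, Finset.mul_sum,
    Finset.mul_sum, Finset.sum_mul]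
  refine Finset.sum_congr rfl fun j _ => ?_
  rw [vecMulVec_apply, Pi.smul_apply, smul_eq_mul]
  have : F4.v * F4.v = F4.w := by decide
  linear_combination (a i * a j ^ 2 * u j) * this

theorem rsM_det {a : Fin 4 → F4} (ha : hermForm 4 F4 2 a a = 1) : (rsM a).det = 1 := by
  rw [rsM, det_smul, det_one_add_replicateCol_mul_replicateRow]
  have h1 : (fun j => a j ^ 2) ⬝ᵥ (F4.v • a) = F4.v * hermForm 4 F4 2 a a := by
    rw [herm_def, dotProduct, Finset.mul_sum]
    refine Finset.sum_congr rfl fun j _ => ?_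
    rw [Pi.smul_apply, smul_eq_mul]; ring
  rw [h1, ha, Fintype.card_fin]
  decide

theorem rsM_isom {a : Fin 4 → F4} (ha : hermForm 4 F4 2 a a = 1) (u b : Fin 4 → F4) :
    hermForm 4 F4 2 (rsM a *ᵥ u) (rsM a *ᵥ b) = hermForm 4 F4 2 u b := by
  rw [rsM_mulVec, rsM_mulVec, herm_add_left, herm_add_right hF4, herm_add_right hF4]
  simp only [herm_smul_left, herm_smul_right]
  have h1 : hermForm 4 F4 2 a b = hermForm 4 F4 2 b a ^ 2 := herm_swap hF4 _ _
  rw [ha, h1]
  generalize hermForm 4 F4 2 u a = x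
  generalize hermForm 4 F4 2 b a = y
  generalize hermForm 4 F4 2 u b = z
  revert x y z
  decide

/-- the reflection, times a scalar -/
def rs (a : Fin 4 → F4) (ha : hermForm 4 F4 2 a a = 1) : SU 4 F4 2 := mk (rsM a) (rsM_det ha) (rsM_isom ha)

theorem mat_rs (a : Fin 4 → F4) (ha : hermForm 4 F4 2 a a = 1) : mat (rs a ha) = rsM a := rfl

theorem rs_congr {a b : Fin 4 → F4} (h : a = b) (ha : hermForm 4 F4 2 a a = 1) (hb : hermForm 4 F4 2 b b = 1) :
    rs a ha = rs b hb := by subst h; rfl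

theorem rs_smul {a b : Fin 4 → F4} {c : F4} (hc : c * c ^ 2 = 1) (h : b = c • a) (ha : hermForm 4 F4 2 a a = 1)
    (hb : hermForm 4 F4 2 b b = 1) : rs b hb = rs a ha := by
  subst h
  apply mat_inj
  apply Matrix.ext_of_mulVec_single
  intro j
  rw [mat_rs, mat_rs, rsM_mulVec, rsM_mulVec, herm_smul_right, smul_smul]
  congr 2
  linear_combination (F4.w * hermForm 4 F4 2 (Pi.single j 1) a) * hc

theorem rs_conj (g : SU 4 F4 2) {a : Fin 4 → F4} (ha : hermForm 4 F4 2 a a = 1) :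
    g * rs a ha * g⁻¹ = rs (mat g *ᵥ a) (by rw [mat_isom]; exact ha) := by
  apply mat_inj
  apply Matrix.ext_of_mulVec_single
  intro j
  rw [mat_mul, mat_mul, ← Matrix.mulVec_mulVec, ← Matrix.mulVec_mulVec, mat_rs, mat_rs, rsM_mulVec, rsM_mulVec,
    Matrix.mulVec_add, Matrix.mulVec_smul, Matrix.mulVec_smul, Matrix.mulVec_mulVec, mat_mul_inv, Matrix.one_mulVec]
  congr 3
  rw [← mat_isom g⁻¹ (Pi.single j 1) (mat g *ᵥ a), Matrix.mulVec_mulVec, mat_inv_mul, Matrix.one_mulVec]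

/-! ### tuples -/

/-- vectors as tuples -/
abbrev V4 := F4 × F4 × F4 × F4

/-- the vector of a tuple -/
def toV (p : V4) : Fin 4 → F4 := ![p.1, p.2.1, p.2.2.1, p.2.2.2]

/-- the product -/
def hv (u a : V4) : F4 := u.1 * (a.1 * a.1) + (u.2.1 * (a.2.1 * a.2.1) + (u.2.2.1 * (a.2.2.1 * a.2.2.1) + u.2.2.2 * (a.2.2.2 * a.2.2.2)))

/-- the action -/
def actv (a u : V4) : V4 :=
  (F4.v * u.1 + (F4.w * hv u a) * a.1, F4.v * u.2.1 + (F4.w * hv u a) * a.2.1,
    F4.v * u.2.2.1 + (F4.w * hv u a) * a.2.2.1, F4.v * u.2.2.2 + (F4.w * hv u a) * a.2.2.2)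

theorem herm_toV (u a : V4) : hermForm 4 F4 2 (toV u) (toV a) = hv u a := by
  rw [herm_def, Fin.sum_univ_four]
  change u.1 * a.1 ^ 2 + u.2.1 * a.2.1 ^ 2 + u.2.2.1 * a.2.2.1 ^ 2 + u.2.2.2 * a.2.2.2 ^ 2 = _
  rw [hv]; ring

theorem rsM_toV (a u : V4) : rsM (toV a) *ᵥ toV u = toV (actv a u) := by
  rw [rsM_mulVec, herm_toV]
  funext i
  fin_cases i <;> rfl

theorem toV_surj (x : Fin 4 → F4) : ∃ p : V4, toV p = x := by
  refine ⟨(x 0, x 1, x 2, x 3), ?_⟩
  funext i
  fin_cases i <;> rfl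

/-- the basis -/
def bas (j : Fin 4) : V4 := (if j = 0 then 1 else 0, if j = 1 then 1 else 0, if j = 2 then 1 else 0, if j = 3 then 1 else 0)

theorem toV_bas (j : Fin 4) : toV (bas j) = Pi.single j 1 := by
  funext i
  fin_cases j <;> fin_cases i <;> rfl

/-- the element of a tuple -/
def rv (a : V4) (ha : hv a a = 1) : SU 4 F4 2 := rs (toV a) (by rw [herm_toV]; exact ha)

theorem rv_mulVec (a : V4) (ha : hv a a = 1) (u : V4) : mat (rv a ha) *ᵥ toV u = toV (actv a u) := by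
  rw [rv, mat_rs, rsM_toV]

/-- the roots -/
def a1 : V4 := (.i, .o, .o, .o)
/-- the roots -/
def a2 : V4 := (.i, .i, .i, .o)
/-- the roots -/
def a3 : V4 := (.o, .i, .o, .o)
/-- the roots -/
def a4 : V4 := (.o, .i, .i, .i)

/-- the generators -/
def r1 : SU 4 F4 2 := rv a1 (by decide)
/-- the generators -/
def r2 : SU 4 F4 2 := rv a2 (by decide)
/-- the generators -/
def r3 : SU 4 F4 2 := rv a3 (by decide)
/-- the generators -/
def r4 : SU 4 F4 2 := rv a4 (by decide)

theorem r1_mulVec (u : V4) : mat r1 *ᵥ toV u = toV (actv a1 u) := rv_mulVec _ _ _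
theorem r2_mulVec (u : V4) : mat r2 *ᵥ toV u = toV (actv a2 u) := rv_mulVec _ _ _
theorem r3_mulVec (u : V4) : mat r3 *ᵥ toV u = toV (actv a3 u) := rv_mulVec _ _ _
theorem r4_mulVec (u : V4) : mat r4 *ᵥ toV u = toV (actv a4 u) := rv_mulVec _ _ _

theorem eq_of_bas {g h : SU 4 F4 2} (e : ∀ j, mat g *ᵥ toV (bas j) = mat h *ᵥ toV (bas j)) : g = h := by
  apply mat_inj
  apply Matrix.ext_of_mulVec_single
  intro j
  rw [← toV_bas]; exact e j

theorem isRefl : IsRefl r1 r2 r3 r4 := by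
  refine ⟨?_, ?_, ?_, ?_, ?_, ?_, ?_, ?_⟩ <;> apply eq_of_bas <;> intro j <;>
    simp only [pow_succ, pow_zero, one_mul, mat_mul, ← Matrix.mulVec_mulVec, r1_mulVec, r2_mulVec, r3_mulVec, r4_mulVec,
      mat_one, Matrix.one_mulVec] <;> congr 1 <;> revert j <;> decide +kernel

/-! ### generation -/

/-- the chain of roots -/
def chain : List (V4 × ℕ × ℕ) := [((.i, .v, .v, .o), 0, 1), ((.i, .w, .w, .o), 1, 0), ((.w, .i, .w, .o), 1, 2), ((.v, .i, .v, .o), 2, 1), ((.o, .i, .v, .v), 2, 3), ((.o, .i, .w, .w), 3, 2), ((.w, .v, .i, .o), 0, 6), ((.v, .v, .w, .o), 0, 7), ((.v, .o, .i, .w), 1, 8), ((.i, .w, .o, .i), 1, 9), ((.v, .w, .i, .o), 2, 5), ((.w, .o, .i, .v), 3, 7), ((.o, .o, .w, .o), 4, 6), ((.i, .o, .i, .w), 4, 8), ((.w, .w, .o, .i), 4, 9), ((.i, .i, .w, .o), 5, 2), ((.w, .o, .i, .w), 5, 8), ((.v, .w, .o, .i), 5, 9), ((.w, .w, .o, .w), 6, 8), ((.v, .w, .o, .v), 7, 3), ((.v, .i, .o, .w), 8, 4), ((.v, .v, .o, .i), 8, 5), ((.v, .o, .i,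 .v), 9, 4), ((.v, .o, .v, .w), 9, 5), ((.w, .i, .o, .i), 0, 22), ((.o, .i, .w, .i), 1, 20), ((.o, .v, .w, .v), 1, 21), ((.w, .v, .o, .v), 2, 25), ((.v, .o, .i, .i), 4, 22), ((.o, .v, .w, .i), 5, 22), ((.o, .w, .w, .i), 6, 24), ((.i, .o, .v, .v), 6, 25), ((.o, .i, .w, .v), 7, 25), ((.o, .w, .w, .v), 9, 16), ((.o, .o, .o, .v), 12, 26), ((.v, .o, .v, .v), 14, 18)]

/-- the check of a chain -/
def chk : List V4 → List (V4 × ℕ × ℕ) → Bool
  | _, [] => true
  | acc, (u, i, j) :: r => (match acc[i]?, acc[j]? with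
    | some a, some b => decide (actv a b = u)
    | _, _ => false) && chk (acc ++ [u]) r

theorem chk_sound (A : V4 → Prop) (hA : ∀ a b, A a → A b → A (actv a b)) (r : List (V4 × ℕ × ℕ)) :
    ∀ acc : List V4, (∀ a ∈ acc, A a) → chk acc r = true → ∀ x ∈ r, A x.1 := by
  induction r with
  | nil => intro acc _ _ x hx; simp at hx
  | cons y r ih =>
    obtain ⟨u, i, j⟩ := y
    intro acc hacc h x hx
    rw [chk, Bool.and_eq_true] at h
    obtain ⟨h1, h2⟩ := h
    have hu : A u := by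
      rcases hi : acc[i]? with _ | a
      · rw [hi] at h1; simp at h1
      · rcases hj : acc[j]? with _ | b
        · rw [hi, hj] at h1; simp at h1
        · rw [hi, hj] at h1
          simp only [decide_eq_true_eq] at h1
          rw [← h1]
          exact hA _ _ (hacc a (List.mem_of_getElem? hi)) (hacc b (List.mem_of_getElem? hj))
    rw [List.mem_cons] at hx
    rcases hx with rfl | hx
    · exact hu
    · refine ih (acc ++ [u]) ?_ h2 x hx
      intro a ha
      rw [List.mem_append, List.mem_singleton] at ha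
      rcases ha with ha | rfl
      · exact hacc a ha
      · exact hu

theorem chk_chain : chk [a1, a2, a3, a4] chain = true := by decide +kernel

/-- all the roots -/
def allr : List V4 := [a1, a2, a3, a4] ++ chain.map Prod.fst

/-- multiples -/
def smv (c : F4) (a : V4) : V4 := (c * a.1, c * a.2.1, c * a.2.2.1, c * a.2.2.2)

theorem chk_all : ∀ u : V4, hv u u = 1 → (allr.any fun a => decide (u = a) || decide (u = smv .w a) || decide (u = smv .v a)) = true := by
  decide +kernel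

end Cfsg.Agent.H112.Refl
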