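import Cfsg.Agent.H112.SUIso
set_option linter.all false

/-!
# `SU₃(q)`, `q ≥ 3`: a presentation from a presentation of the Borel subgroup (helper112)
-/

set_option autoImplicit false

namespace Cfsg.Agent.H112

open Cfsg.Agent.UThreeGen.MatGroup Matrix Cfsg.Agent.H111
open scoped commutatorElement

variable {F : Type*} [Field F] {σ : F →+* F} [hσ : Fact (∀ x, σ (σ x) = x)] [Finite F] {q p e : ℕ} {g : Fˣ}

/-- six relators more than the Borel subgroup -/
theorem pres_SUG_of (D : FQ σ q p e g) (hq3 : 3 ≤ q) {L : ℕ}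
    (hB : ∀ x₀ : HG σ, x₀.a = 1 → ∃ R : List (FreeGroup (Fin 2)), R.length = L ∧
      (FreeGroup.lift ![emb σ x₀, tor σ g]).ker = Subgroup.normalClosure {r | r ∈ R}) : HasPres (SUG σ) 3 (L + 6) := by
  classical
  obtain ⟨hμ, hμ1, hgenμ⟩ := D.exists_mu
  obtain ⟨κ, hκ0, hκ⟩ := D.exists_kappa
  set μ : F := ((g ^ (q - 1) : Fˣ) : F) with hμd
  set x₀ : HG σ := xp 1 (μ / (μ - 1)) (mu_tau hμ hμ1) with hx₀d
  have hx₀ : x₀.a = 1 := rfl
  obtain ⟨R2, hR2len, hR2⟩ := hB x₀ hx₀
  set π2 : FreeGroup (Fin 2) →* SUG σ := FreeGroup.lift ![emb σ x₀, tor σ g] with hπ2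
  have π2x : π2 (FreeGroup.of 0) = emb σ x₀ := by simp [hπ2]
  have π2y : π2 (FreeGroup.of 1) = tor σ g := by simp [hπ2]
  -- the range
  have hBt : ∀ ε : Fˣ, tor σ ε ∈ π2.range := by
    intro ε
    obtain ⟨n, rfl⟩ := D.gen ε
    rw [map_zpow, ← π2y, ← map_zpow]
    exact ⟨_, rfl⟩
  have hBe : ∀ x : HG σ, emb σ x ∈ π2.range := by
    intro x
    have h1 := emb_mem_orb D hq3 hx₀ x
    have h2 : orb (tor σ g) (emb σ x₀) ≤ π2.range := by
      rw [← π2x, ← π2y, ← map_orb]
      exact Subgroup.map_le_range _ _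
    exact h2 h1
  -- the full homomorphism
  set f : FreeGroup (Fin 3) →* SUG σ := FreeGroup.lift ![emb σ x₀, tor σ g, wel σ] with hf
  set ι : FreeGroup (Fin 2) →* FreeGroup (Fin 3) := FreeGroup.lift ![FreeGroup.of 0, FreeGroup.of 1] with hι
  set W : FreeGroup (Fin 3) := FreeGroup.of 2 with hW
  have fι : ∀ x, f (ι x) = π2 x := by
    intro x
    have : f.comp ι = π2 := by
      ext i
      fin_cases i <;> simp [hf, hι, hπ2]
    exact DFunLike.congr_fun this x
  have fW : f W = wel σ := by simp [hf, hW]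
  have fy : f (FreeGroup.of 1) = tor σ g := by simp [hf]
  have hfsurj : Function.Surjective f := by
    rw [← MonoidHom.range_eq_top, eq_top_iff, ← closure_SUG D.exists_b, Subgroup.closure_le]
    rintro _ (⟨x, rfl⟩ | rfl)
    · obtain ⟨y, hy⟩ := hBe x
      exact ⟨ι y, by rw [fι, hy]⟩
    · exact ⟨W, fW⟩
  -- the words of the Bruhat relations
  have words : ∀ x : HG σ, x ≠ 1 → ∃ r : FreeGroup (Fin 3), f r = 1 ∧
      ∃ X Y T Z : FreeGroup (Fin 2), π2 X = emb σ x ∧ (∃ y, π2 Y = emb σ y) ∧ (∃ ε, π2 T = tor σ ε) ∧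
        (∃ z, π2 Z = emb σ z) ∧ r = (ι Y * ι T * W * ι Z)⁻¹ * (W * ι X * W) := by
    intro x hx
    obtain ⟨X, hX⟩ := hBe x
    obtain ⟨Y, hY⟩ := hBe (yof x hx)
    obtain ⟨T, hT⟩ := hBt (eof x hx)
    obtain ⟨Z, hZ⟩ := hBe (zof x hx)
    refine ⟨_, ?_, X, Y, T, Z, hX, ⟨_, hY⟩, ⟨_, hT⟩, ⟨_, hZ⟩, rfl⟩
    rw [map_mul, map_inv, inv_mul_eq_one]
    simp only [map_mul, fι, fW, hX, hY, hT, hZ]
    exact (wel_emb_wel x hx).symm
  have hg0 : (g : F) ≠ 0 := g.ne_zero
  have nz : (zp κ hκ : HG σ) ≠ 1 := fun h => hκ0 (congrArg HG.b h)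
  have nx : ∀ j : ℕ, (xp ((g : F) ^ j) (μ / (μ - 1)) (mu_tau hμ hμ1) : HG σ) ≠ 1 := by
    intro j h
    exact pow_ne_zero j hg0 (congrArg HG.a h)
  obtain ⟨rz, frz, Xz, Yz, Tz, Zz, hXz, ⟨yz, hYz⟩, ⟨tz, hTz⟩, ⟨zz, hZz⟩, erz⟩ := words _ nz
  choose rj frj Xj Yj Tj Zj hXj hYj hTj hZj erj using fun j : ℕ => words _ (nx j)
  let R : List (FreeGroup (Fin 3)) :=
    R2.map ι ++ [W * W, ((FreeGroup.of 1) ^ (-(q : ℤ)) * W)⁻¹ * (W * FreeGroup.of 1), rz, rj 0, rj 1, rj 2]
  have hlen : R.length = L + 6 := by simp [R, hR2len]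
  rw [← hlen]
  refine hasPres_iff.2 (Quo.of_inj f hfsurj R ?_ ?_)
  · intro r hr
    simp only [R, List.mem_append, List.mem_map, List.mem_cons, List.not_mem_nil, or_false] at hr
    rcases hr with ⟨s, hs, rfl⟩ | rfl | rfl | rfl | rfl | rfl | rfl
    · rw [fι]
      have : s ∈ π2.ker := by rw [hR2]; exact Subgroup.subset_normalClosure hs
      exact this
    · rw [map_mul, fW]; exact wel_mul_wel
    · rw [map_mul, map_inv, inv_mul_eq_one, map_mul, map_mul, fW, fy, wel_tor, map_zpow, fy, ← map_zpow]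
      congr 2
      rw [_root_.zpow_neg, zpow_natCast]
      congr 1
      exact D.su_g.symm
    · exact frz
    · exact frj 0
    · exact frj 1
    · exact frj 2
  · intro φ θ hφ hθ hr
    -- the Borel subgroup maps to the quotient
    have hker : π2.ker ≤ (φ.comp ι).ker := by
      rw [hR2]
      apply Subgroup.normalClosure_le_normal
      intro s hs
      exact hr (ι s) (by
        simp only [R, List.mem_append, List.mem_map]
        exact Or.inl ⟨s, hs, rfl⟩)
    have hker' : π2.rangeRestrict.ker ≤ (φ.comp ι).ker := by rwa [MonoidHom.ker_rangeRestrict]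
    let β := π2.rangeRestrict.liftOfSurjective π2.rangeRestrict_surjective ⟨_, hker'⟩
    have hβ : ∀ y, β (π2.rangeRestrict y) = φ (ι y) := fun y =>
      π2.rangeRestrict.liftOfRightInverse_comp_apply _ _ ⟨_, hker'⟩ y
    have hβ' : ∀ (y : FreeGroup (Fin 2)) (b : π2.range), π2 y = b → β b = φ (ι y) := by
      intro y b h
      have : b = π2.rangeRestrict y := Subtype.ext h.symm
      rw [this, hβ]
    have θβ : ∀ b, θ (β b) = b := by
      rintro ⟨_, y, rfl⟩
      rw [hβ' y _ rfl, hθ, fι]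
    let u : HG σ →* (FreeGroup (Fin 3) ⧸ Subgroup.normalClosure {r | r ∈ R}) := β.comp ((emb σ).codRestrict _ hBe)
    let t : Fˣ →* (FreeGroup (Fin 3) ⧸ Subgroup.normalClosure {r | r ∈ R}) := β.comp ((tor σ).codRestrict _ hBt)
    have hu : ∀ (X : FreeGroup (Fin 2)) (x : HG σ), π2 X = emb σ x → φ (ι X) = u x := by
      intro X x h
      exact (hβ' X ⟨emb σ x, hBe x⟩ h).symm
    have ht : ∀ (X : FreeGroup (Fin 2)) (ε : Fˣ), π2 X = tor σ ε → φ (ι X) = t ε := by
      intro X x h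
      exact (hβ' X ⟨tor σ x, hBt x⟩ h).symm
    have ι1 : ι (FreeGroup.of 1) = FreeGroup.of 1 := by simp [hι]
    have ι0 : ι (FreeGroup.of 0) = FreeGroup.of 0 := by simp [hι]
    have hww : φ W * φ W = 1 := by rw [← map_mul]; exact hr _ (by simp [R])
    have hwg : φ W * t g = t (g ^ (-(q : ℤ))) * φ W := by
      have := hr (((FreeGroup.of 1) ^ (-(q : ℤ)) * W)⁻¹ * (W * FreeGroup.of 1)) (by simp [R])
      rw [map_mul, map_inv, inv_mul_eq_one, map_mul, map_mul, map_zpow, ← ι1, ht _ g π2y] at this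
      rw [map_zpow]; exact this.symm
    have hsg : (su σ g)⁻¹ = g ^ (-(q : ℤ)) := by
      rw [_root_.zpow_neg, zpow_natCast]; congr 1; exact D.su_g
    have D' : BN u t (φ W) θ := by
      refine ⟨hww, ?_, ?_, ?_, ?_, ?_⟩
      · intro ε
        -- the set of good elements
        have hmul : ∀ a b : Fˣ, φ W * t a = t (su σ a)⁻¹ * φ W → φ W * t b = t (su σ b)⁻¹ * φ W →
            φ W * t (a * b) = t (su σ (a * b))⁻¹ * φ W := by
          intro a b ha hb
          rw [map_mul, ← mul_assoc, ha, mul_assoc, hb, ← mul_assoc, ← map_mul, map_mul (su σ), _root_.mul_inv_rev,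
            mul_comm (su σ a)⁻¹]
        have hinv : ∀ a : Fˣ, φ W * t a = t (su σ a)⁻¹ * φ W → φ W * t a⁻¹ = t (su σ a⁻¹)⁻¹ * φ W := by
          intro a ha
          have h1 : t (su σ a) * φ W * t a = φ W := by
            rw [mul_assoc, ha, ← mul_assoc, ← map_mul, mul_inv_cancel, map_one, one_mul]
          rw [map_inv (su σ), inv_inv]
          calc φ W * t a⁻¹ = t (su σ a) * φ W * t a * t a⁻¹ := by rw [h1]
            _ = t (su σ a) * φ W := by rw [mul_assoc, ← map_mul, mul_inv_cancel, map_one, mul_one]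
        have h1 : φ W * t g = t (su σ g)⁻¹ * φ W := by rw [hsg]; exact hwg
        obtain ⟨n, rfl⟩ := D.gen ε
        induction n using Int.induction_on with
        | zero => simp
        | succ n ih => rw [_root_.zpow_add_one]; exact hmul _ _ ih h1
        | pred n ih => rw [_root_.zpow_sub_one]; exact hmul _ _ ih (hinv _ h1)
      · intro ε x
        have h1 : (⟨tor σ ε, hBt ε⟩ : π2.range) * ⟨emb σ x, hBe x⟩ = ⟨emb σ (act ε x), hBe _⟩ * ⟨tor σ ε, hBt ε⟩ :=
          Subtype.ext (tor_emb ε x)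
        have h2 := congrArg β h1
        rw [map_mul, map_mul] at h2
        exact h2
      · intro x; exact θβ _
      · intro ε; exact θβ _
      · rw [hθ, fW]
    have relz : Rel u t (φ W) (zp κ hκ) := by
      have := hr rz (by simp [R])
      rw [erz, map_mul, map_inv, inv_mul_eq_one] at this
      simp only [map_mul] at this
      rw [hu _ _ hXz, hu _ _ hYz, ht _ _ hTz, hu _ _ hZz] at this
      exact D'.of_exists this.symm
    have relj : ∀ j : ℕ, j < 3 → Rel u t (φ W) (xp ((g : F) ^ j) (μ / (μ - 1)) (mu_tau hμ hμ1)) := by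
      intro j hj
      have h1 : φ (rj j) = 1 := by
        interval_cases j
        · exact hr _ (by simp [R])
        · exact hr _ (by simp [R])
        · exact hr _ (by simp [R])
      obtain ⟨y, hy⟩ := hYj j
      obtain ⟨s, hs⟩ := hTj j
      obtain ⟨z, hz⟩ := hZj j
      rw [erj, map_mul, map_inv, inv_mul_eq_one] at h1
      simp only [map_mul] at h1
      rw [hu _ _ (hXj j), hu _ _ hy, ht _ _ hs, hu _ _ hz] at h1
      exact D'.of_exists h1.symm
    have hall := D'.rel_all D.norm hκ hκ0 relz hμ hμ1 hgenμ D.gen relj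
    refine D'.injective ?_ hall
    rw [eq_top_iff]
    intro x _
    obtain ⟨y, rfl⟩ := hφ x
    have hy : y ∈ Subgroup.closure (Set.range (FreeGroup.of : Fin 3 → _)) := by
      rw [FreeGroup.closure_range_of]; trivial
    have : Subgroup.closure (Set.range (FreeGroup.of : Fin 3 → _)) ≤
        (Subgroup.closure (Set.range u ∪ Set.range t ∪ {φ W})).comap φ := by
      rw [Subgroup.closure_le]
      rintro _ ⟨i, rfl⟩
      rw [SetLike.mem_coe, Subgroup.mem_comap]
      fin_cases i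
      · change φ (FreeGroup.of 0) ∈ _
        rw [← ι0, hu _ _ π2x]
        exact Subgroup.subset_closure (Or.inl (Or.inl ⟨_, rfl⟩))
      · change φ (FreeGroup.of 1) ∈ _
        rw [← ι1, ht _ _ π2y]
        exact Subgroup.subset_closure (Or.inl (Or.inr ⟨_, rfl⟩))
      · exact Subgroup.subset_closure (Or.inr rfl)
    exact this hy

end Cfsg.Agent.H112
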