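import Cfsg.Agent.H112.Geo2
set_option linter.all false

/-!
# The field with four elements: the comparison of the lifts (helper112)
-/

set_option autoImplicit false

namespace Cfsg.Agent.H112

open Matrix Cfsg Cfsg.Agent.Phan Cfsg.Agent.H434 Cfsg.Agent.Phan.Cover
open Cfsg.Agent.LieClassical.HermBasic
open Cfsg.Agent.H434.Cover2

variable {F : Type*} [Field F] [Fintype F] {q : ℕ}

/-- prepend a zero -/
def pc {n : ℕ} (x : Pt n F q) (hF : Fintype.card F = q ^ 2) : Pt (n + 1) F q :=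
  ⟨Fin.cons 0 x.val, by rw [herm_cons, x.norm, zero_mul, zero_add]⟩

theorem pc_val {n : ℕ} (hF : Fintype.card F = q ^ 2) (x : Pt n F q) : (pc x hF).val = Fin.cons 0 x.val := rfl

theorem herm_pc {n : ℕ} (hF : Fintype.card F = q ^ 2) (x : Pt n F q) (w : Fin (n + 1) → F) :
    hermForm (n + 1) F q (pc x hF).val w = hermForm n F q x.val (tl w) := by
  conv_lhs => rw [← cons_tl w]
  rw [pc_val, herm_cons, zero_mul, zero_add]

theorem orth_pc {n : ℕ} (hF : Fintype.card F = q ^ 2) (x y : Pt n F q) (h : orth x y) : orth (pc x hF) (pc y hF) := by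
  rw [orth, herm_pc, pc_val, tl_cons]; exact h

theorem orth_e0_pc {n : ℕ} (hF : Fintype.card F = q ^ 2) (x : Pt n F q) : orth (e0 n F q) (pc x hF) := by
  apply orth_symm hF
  rw [orth, herm_pc, e0_val', tl_cons, herm_zero_right hF]

theorem exists_pc {n : ℕ} (hF : Fintype.card F = q ^ 2) (u : Pt (n + 1) F q) (h : orth (e0 n F q) u) :
    ∃ x : Pt n F q, pc x hF = u := by
  have h0 : u.val 0 = 0 := by
    have := orth_symm hF h
    rwa [orth, herm_e0_right hF] at this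
  refine ⟨⟨tl u.val, ?_⟩, ?_⟩
  · have := u.norm
    rw [← cons_tl u.val, herm_cons, h0, zero_mul, zero_add] at this
    exact this
  · apply Pt.ext'
    rw [pc_val]
    change (Fin.cons 0 (tl u.val) : Fin (n + 1) → F) = u.val
    conv_rhs => rw [← cons_tl u.val]
    rw [h0]

theorem emb_one_pc {n : ℕ} (hF : Fintype.card F = q ^ 2) (g : SU n F q) (x : Pt n F q) :
    emb hF 1 (by omega : 1 + n ≤ n + 1) g • pc x hF = pc (g • x) hF := by
  apply Pt.ext'
  rw [smul_val, emb_one_mulVec, pc_val, pc_val]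
  rfl

theorem emb_one_cons {n : ℕ} (hF : Fintype.card F = q ^ 2) (g : SU n F q) (w : Pt (n + 1) F q) :
    (emb hF 1 (by omega : 1 + n ≤ n + 1) g • w).val = Fin.cons (w.val 0) (mat g *ᵥ tl w.val) := by
  rw [smul_val, emb_one_mulVec]
  rfl

/-- a basis vector -/
def eb (n : ℕ) (F : Type*) [Field F] (q : ℕ) (hq : q ≠ 0) (i : Fin n) : Pt n F q := ⟨Pi.single i 1, by
  rw [herm_single_left, Pi.single_eq_same, one_mul, one_pow]⟩

theorem eb_val {n : ℕ} {hq : q ≠ 0} (i : Fin n) : (eb n F q hq i).val = Pi.single i 1 := rfl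

section step

variable {hF : Fintype.card F = 2 ^ 2} {n : ℕ} {H : Type*} [Group H]
    {α : SU (n + 3) F 2 →* H} {γ : SU 3 F 2 →* H} (S : StepHyp hF n α γ)
include S

/-- reduction to a normal form -/
theorem StepHyp.same_red (hn : 1 ≤ n)
    (hcore : ∀ (w : Pt (n + 4) F 2) (x' : Pt (n + 3) F 2),
      tl w.val = Pi.single ⟨0, by omega⟩ 1 + Pi.single ⟨1, by omega⟩ 1 →
      hermForm (n + 3) F 2 x'.val (tl w.val) = 0 →
      Same (stepCtx hF n α γ) w (pc (eb (n + 3) F 2 two_ne_zero ⟨2, by omega⟩) hF) (pc x' hF)) :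
    ∀ w u u' : Pt (n + 4) F 2, orth (e0 (n + 3) F 2) u → orth u w →
      orth (e0 (n + 3) F 2) u' → orth u' w → Same (stepCtx hF n α γ) w u u' := by
  intro w u u' h1 h2 h3 h4
  by_cases hw0 : w.val 0 = 0
  · refine same_of_adj_base S.hyp S.tri ?_ h1 h3 h2 h4
    change hermForm (n + 4) F 2 (e0 (n + 3) F 2).val w.val = 0
    rw [herm_e0_left, hw0, zero_pow two_ne_zero]
  obtain ⟨x, rfl⟩ := exists_pc hF u h1
  obtain ⟨x', rfl⟩ := exists_pc hF u' h3
  rw [orth, herm_pc] at h2 h4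
  by_cases hr0 : tl w.val = 0
  · obtain ⟨m, rfl⟩ : ∃ m, n = m + 1 := ⟨n - 1, by omega⟩
    obtain ⟨v, hv1, hv2⟩ := exists_nbr hF (n := m) x x'
    have e1 : ∀ y : Pt (m + 1 + 3) F 2, orth (pc y hF) w := by
      intro y
      rw [orth, herm_pc, hr0, herm_zero_right hF]
    refine same_trans S.hyp (orth_e0_pc hF v) (same_of_adj S.hyp S.tri ?_ ?_ ?_ ?_ ?_)
      (same_of_adj S.hyp S.tri ?_ ?_ ?_ ?_ ?_)
    · exact orth_e0_pc hF x
    · exact orth_e0_pc hF v
    · exact e1 x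
    · exact e1 v
    · exact orth_pc hF x v hv1
    · exact orth_e0_pc hF v
    · exact orth_e0_pc hF x'
    · exact e1 v
    · exact e1 x'
    · exact orth_pc hF v x' hv2
  · have hr : hermForm (n + 3) F 2 (tl w.val) (tl w.val) = 0 := by
      have h5 := w.norm
      rw [← cons_tl w.val, herm_cons, norm4 hF hw0] at h5
      linear_combination h5
    obtain ⟨g, hg1, hg2⟩ := exists_nf hF (by omega) x (tl w.val) hr0 hr h2
    have hgi : ∀ v : Fin (n + 3) → F, mat g⁻¹ *ᵥ (mat g *ᵥ v) = v := by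
      intro v
      rw [Matrix.mulVec_mulVec, mat_inv_mul, Matrix.one_mulVec]
    apply same_smul_iff S.hyp g⁻¹
    have e1 : (emb hF 1 (by omega : 1 + (n + 3) ≤ n + 4) g⁻¹ • w : Pt (n + 4) F 2).val = Fin.cons (w.val 0)
        (Pi.single ⟨0, by omega⟩ 1 + Pi.single ⟨1, by omega⟩ 1) := by
      rw [emb_one_cons, ← hg2, hgi]
    have e2 : emb hF 1 (by omega : 1 + (n + 3) ≤ n + 4) g⁻¹ • pc x hF =
        pc (eb (n + 3) F 2 two_ne_zero ⟨2, by omega⟩) hF := by
      rw [emb_one_pc]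
      congr 1
      apply Pt.ext'
      rw [smul_val, ← hg1, hgi, eb_val]
    change Same (stepCtx hF n α γ) (emb hF 1 (by omega : 1 + (n + 3) ≤ n + 4) g⁻¹ • w)
      (emb hF 1 (by omega : 1 + (n + 3) ≤ n + 4) g⁻¹ • pc x hF) (emb hF 1 (by omega : 1 + (n + 3) ≤ n + 4) g⁻¹ • pc x' hF)
    rw [e2, emb_one_pc]
    apply hcore
    · rw [e1, tl_cons]
    · rw [e1, tl_cons, smul_val]
      have h6 : hermForm (n + 3) F 2 (mat g⁻¹ *ᵥ x'.val) (mat g⁻¹ *ᵥ tl w.val) = 0 := by
        rw [mat_isom]; exact h4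
      rw [← hg2, hgi] at h6
      exact h6

end step

/-- the first two coordinates of a vector orthogonal to `e0 + e1` -/
theorem norm_01 (hF : Fintype.card F = 2 ^ 2) {m : ℕ} (hm : 2 ≤ m) (x : Fin m → F)
    (h : hermForm m F 2 x (Pi.single ⟨0, by omega⟩ 1 + Pi.single ⟨1, by omega⟩ 1) = 0) :
    x ⟨0, by omega⟩ * x ⟨0, by omega⟩ ^ 2 + x ⟨1, by omega⟩ * x ⟨1, by omega⟩ ^ 2 = 0 := by
  rw [herm_add_right hF, herm_single_right hF, herm_single_right hF] at h
  refine plane4 hF (r0 := 1) (r1 := 1) ?_ one_ne_zero h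
  have := two_zero hF
  linear_combination this

/-- **the step to dimension five** -/
theorem same_five {hF : Fintype.card F = 2 ^ 2} {H : Type*} [Group H]
    {α : SU (1 + 3) F 2 →* H} {γ : SU 3 F 2 →* H} (S : StepHyp hF 1 α γ) :
    ∀ w u u' : Pt (1 + 4) F 2, orth (e0 (1 + 3) F 2) u → orth u w →
      orth (e0 (1 + 3) F 2) u' → orth u' w → Same (stepCtx hF 1 α γ) w u u' := by
  refine S.same_red le_rfl ?_
  intro w x' hw hx'
  have h1 := norm_01 hF (by omega : 2 ≤ 4) x'.val (by rw [← hw]; exact hx')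
  have h2 := x'.norm
  rw [herm_def] at h2
  have h3 : x'.val ⟨2, by omega⟩ * x'.val ⟨2, by omega⟩ ^ 2 + x'.val ⟨3, by omega⟩ * x'.val ⟨3, by omega⟩ ^ 2 = 1 := by
    have h4 : (∑ i : Fin 4, x'.val i * x'.val i ^ 2) = 1 := h2
    rw [Fin.sum_univ_four] at h4
    change x'.val 2 * x'.val 2 ^ 2 + x'.val 3 * x'.val 3 ^ 2 = 1
    change x'.val 0 * x'.val 0 ^ 2 + x'.val 1 * x'.val 1 ^ 2 = 0 at h1
    linear_combination h4 - h1
  have hwo : ∀ y : Pt (1 + 3) F 2, hermForm (1 + 3) F 2 y.val (Pi.single ⟨0, by omega⟩ 1 + Pi.single ⟨1, by omega⟩ 1) = 0 →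
      orth (pc y hF) w := by
    intro y hy
    rw [orth, herm_pc, hw]; exact hy
  have ho2 : orth (pc (eb (1 + 3) F 2 two_ne_zero ⟨2, by omega⟩) hF) w := by
    apply hwo
    rw [eb_val, herm_single_left, Pi.add_apply, Pi.single_eq_of_ne (by simp), Pi.single_eq_of_ne (by simp)]
    simp
  have ho' : orth (pc x' hF) w := by
    rw [orth, herm_pc]; exact hx'
  rcases one_of_two hF h3 with h | h
  · refine same_of_adj S.hyp S.tri (orth_e0_pc hF _) (orth_e0_pc hF _) ho2 ho' (orth_pc hF _ _ ?_)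
    rw [orth, eb_val, herm_single_left, h]
    simp
  · have ho3 : orth (pc (eb (1 + 3) F 2 two_ne_zero ⟨3, by omega⟩) hF) w := by
      apply hwo
      rw [eb_val, herm_single_left, Pi.add_apply, Pi.single_eq_of_ne (by simp), Pi.single_eq_of_ne (by simp)]
      simp
    refine same_trans S.hyp (orth_e0_pc hF (eb (1 + 3) F 2 two_ne_zero ⟨3, by omega⟩))
      (same_of_adj S.hyp S.tri (orth_e0_pc hF _) (orth_e0_pc hF _) ho2 ho3 (orth_pc hF _ _ ?_))
      (same_of_adj S.hyp S.tri (orth_e0_pc hF _) (orth_e0_pc hF _) ho3 ho' (orth_pc hF _ _ ?_))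
    · rw [orth, eb_val, eb_val, herm_single_left, Pi.single_eq_of_ne (by simp)]
      simp
    · rw [orth, eb_val, herm_single_left, h]
      simp

end Cfsg.Agent.H112
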